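import Cfsg.Agent.Lib.Cov2.Uni
import Cfsg.Agent.Lib.MatConj.PolyData

/-!
Commutators in special unitary groups: bookkeeping of elementary divisors, block triangular
matrices with coprime blocks, hyperbolic frames and the predicate `Com`.
-/

set_option autoImplicit false

namespace CfsgLib.SuOre

open Polynomial Module Matrix CfsgLib.MatConj CfsgLib.Cov2

variable {K : Type*} [Field K]

section Data

/-- the dimension attached to a multiset of elementary divisors -/
def wt (s : Multiset (K[X] × ℕ)) : ℕ := (s.map fun x => x.1.natDegree * x.2).sum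

/-- the characteristic polynomial -/
noncomputable def cp (s : Multiset (K[X] × ℕ)) : K[X] := (s.map fun x => x.1 ^ x.2).prod

/-- the determinant -/
noncomputable def dt (s : Multiset (K[X] × ℕ)) : K := (-1) ^ wt s * (cp s).coeff 0

/-- a Jordan block -/
noncomputable def jb (a : K) (e : ℕ) : Multiset (K[X] × ℕ) := {(X - C a, e)}

@[simp] theorem wt_add (s t : Multiset (K[X] × ℕ)) : wt (s + t) = wt s + wt t := by simp [wt]

@[simp] theorem wt_zero : wt (0 : Multiset (K[X] × ℕ)) = 0 := rfl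

@[simp] theorem wt_nsmul (r : ℕ) (s : Multiset (K[X] × ℕ)) : wt (r • s) = r * wt s := by
  simp [wt, Multiset.map_nsmul, Multiset.sum_nsmul]

@[simp] theorem wt_jb (a : K) (e : ℕ) : wt (jb a e) = e := by simp [wt, jb]

theorem cp_add (s t : Multiset (K[X] × ℕ)) : cp (s + t) = cp s * cp t := by simp [cp]

@[simp] theorem dt_add (s t : Multiset (K[X] × ℕ)) : dt (s + t) = dt s * dt t := by
  rw [dt, dt, dt, wt_add, cp_add, mul_coeff_zero, pow_add]
  ring

@[simp] theorem dt_zero : dt (0 : Multiset (K[X] × ℕ)) = 1 := by simp [dt, cp]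

@[simp] theorem dt_nsmul (r : ℕ) (s : Multiset (K[X] × ℕ)) : dt (r • s) = dt s ^ r := by
  induction r with
  | zero => simp
  | succ r ih => rw [succ_nsmul, dt_add, ih, pow_succ]

@[simp] theorem dt_jb (a : K) (e : ℕ) : dt (jb a e) = a ^ e := by
  simp [dt, cp, jb, wt, coeff_zero_eq_eval_zero, ← mul_pow]

end Data

section Mat

variable {ι κ μ δ : Type*} [Fintype ι] [DecidableEq ι] [Fintype κ] [DecidableEq κ] [Fintype μ]
  [DecidableEq μ] [Fintype δ] [DecidableEq δ]

theorem wt_edM (A : Matrix ι ι K) : wt (edM A) = Fintype.card ι := (card_eq_sum_edM A).symm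

theorem cp_edM (A : Matrix ι ι K) : cp (edM A) = A.charpoly := (charpoly_eq_prod_edM A).symm

theorem dt_edM (A : Matrix ι ι K) : dt (edM A) = A.det := by
  rw [dt, wt_edM, cp_edM, det_eq_of_charpoly]

theorem edM_rect {A : Matrix ι ι K} {B : Matrix ι κ K} {B' : Matrix κ ι K} (h : B * B' = 1)
    (h' : B' * B = 1) : edM (B' * A * B) = edM A :=
  Sim.ed_eq ⟨LinearEquiv.ofLinearMap (toLin' B) (toLin' B') (by rw [← toLin'_mul, h, toLin'_one])
    (by rw [← toLin'_mul, h', toLin'_one]), fun v => by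
      simp [← Matrix.mul_assoc, h]⟩

theorem exists_rect {A : Matrix ι ι K} {A' : Matrix κ κ K} (h : edM A = edM A') :
    ∃ (B : Matrix ι κ K) (B' : Matrix κ ι K), B * B' = 1 ∧ B' * B = 1 ∧ A = B * A' * B' := by
  obtain ⟨e, he⟩ := sim_of_ed_eq h
  have h1 : LinearMap.toMatrix' e.symm.toLinearMap * LinearMap.toMatrix' e.toLinearMap = 1 := by
    rw [← LinearMap.toMatrix'_comp]; simp
  refine ⟨_, _, h1, by rw [← LinearMap.toMatrix'_comp]; simp, toLin'.injective ?_⟩
  rw [toLin'_mul, toLin'_mul, toLin'_toMatrix', toLin'_toMatrix']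
  exact LinearMap.ext fun v => by simp [← toLin'_apply, ← he]

theorem aeval_intertwine {A : Matrix ι ι K} {B : Matrix κ κ K} {Y : Matrix ι κ K}
    (h : A * Y = Y * B) (p : K[X]) : aeval A p * Y = Y * aeval B p := by
  induction p using Polynomial.induction_on with
  | C a => simp [Algebra.algebraMap_eq_smul_one]
  | add p q hp hq => simp [Matrix.add_mul, Matrix.mul_add, hp, hq]
  | monomial n a ih =>
    rw [pow_succ, ← mul_assoc, map_mul, map_mul (aeval B), aeval_X, aeval_X, Matrix.mul_assoc, h,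
      ← Matrix.mul_assoc, ih, Matrix.mul_assoc]

theorem exists_sylvester {A : Matrix ι ι K} {B : Matrix κ κ K}
    (h : IsCoprime A.charpoly B.charpoly) (Y : Matrix ι κ K) :
    ∃ T : Matrix ι κ K, A * T - T * B = Y := by
  let f : Matrix ι κ K →ₗ[K] Matrix ι κ K :=
    { toFun := fun T => A * T - T * B
      map_add' := fun S T => by rw [Matrix.mul_add, Matrix.add_mul]; abel
      map_smul' := fun c T => by simp [smul_sub] }
  refine LinearMap.surjective_of_injective (f := f) ((injective_iff_map_eq_zero f).2 fun T hT => ?_) Y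
  obtain ⟨u, v, huv⟩ := h
  have h1 := aeval_intertwine (sub_eq_zero.1 hT) (v * B.charpoly)
  have h2 := congrArg (aeval A) huv
  rw [map_add, map_mul, aeval_self_charpoly, mul_zero, zero_add, map_one] at h2
  rwa [h2, map_mul, aeval_self_charpoly, mul_zero, Matrix.mul_zero, Matrix.one_mul] at h1

theorem edM_upper {A : Matrix ι ι K} {B : Matrix κ κ K} (h : IsCoprime A.charpoly B.charpoly)
    (Y : Matrix ι κ K) : edM (fromBlocks A Y 0 B) = edM A + edM B := by
  obtain ⟨T, rfl⟩ := exists_sylvester h Y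
  rw [← edM_fromBlocks, ← edM_rect (A := fromBlocks A 0 0 B) (B := fromBlocks 1 T 0 1)
    (B' := fromBlocks 1 (-T) 0 1)] <;> simp [fromBlocks_multiply, sub_eq_add_neg]

theorem edM_lower {A : Matrix ι ι K} {B : Matrix κ κ K} (h : IsCoprime A.charpoly B.charpoly)
    (Y : Matrix κ ι K) : edM (fromBlocks A 0 Y B) = edM A + edM B := by
  rw [← edM_transpose, fromBlocks_transpose, transpose_zero, edM_upper (by simpa using h),
    edM_transpose, edM_transpose]

theorem edM_scalar (a : K) : edM (a • (1 : Matrix ι ι K)) = Fintype.card ι • jb a 1 := by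
  rw [edM_of_irred (irreducible_X_sub_C a) (monic_X_sub_C a)
    (by simp [Algebra.algebraMap_eq_smul_one])]
  simp [jb, Multiset.nsmul_singleton]

theorem edM_unip {N : Matrix ι ι K} (hN : IsNilpotent N) {a : K} (ha : a ≠ 0) :
    edM (a • (1 + N)) = (jt (1 + N)).map fun e => (X - C a, e) := by
  rw [edM_smul _ ha, edM_eq_map_jt (by simpa using hN), Multiset.map_map]
  congr 1
  ext1 e
  have : (X - 1 : K[X]).scaleRoots a = X - C a := by simpa using X_sub_C_scaleRoots (1 : K) a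
  simp [this]

theorem charpoly_smul (A : Matrix ι ι K) {a : K} (ha : a ≠ 0) :
    (a • A).charpoly = A.charpoly.scaleRoots a := by
  rw [← cp_edM, ← cp_edM, edM_smul _ ha, cp, cp]
  refine Eq.trans ?_ (map_multiset_prod (scaleEquiv ha) _).symm
  simp only [Multiset.map_map, Function.comp_def, map_pow]
  rfl

variable [StarRing K]

/-- the action of `A ↦ (A*)⁻¹` on elementary divisors -/
noncomputable def til (s : Multiset (K[X] × ℕ)) : Multiset (K[X] × ℕ) :=
  s.map fun x => (tilde (starRingEnd K) x.1, x.2)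

theorem til_add (s t : Multiset (K[X] × ℕ)) : til (s + t) = til s + til t := Multiset.map_add _ _ _

theorem tilde_lin {w : K} (hw : w ≠ 0) : tilde (starRingEnd K) (X - C w) = X - C (star w)⁻¹ := by
  have h0 : (X - C w : K[X]).coeff 0 ≠ 0 := by simpa using hw
  have h2 := natDegree_tilde (starRingEnd K) h0
  rw [natDegree_X_sub_C] at h2
  rw [(monic_tilde _ h0).eq_X_add_C h2, coeff_zero_tilde _ (monic_X_sub_C w)]
  simp [sub_eq_add_neg, starRingEnd_apply]

/-- the elementary divisors of a unitary matrix -/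
structure Ok (s : Multiset (K[X] × ℕ)) : Prop where
  valid : Valid s
  ne : ∀ x ∈ s, x.1 ≠ X
  til : til s = s

theorem ok_edM {G : Matrix ι ι K} (h : Gᴴ * G = 1) : Ok (edM G) :=
  ⟨edM_valid G, (isUnit_iff_edM G).1 (IsUnit.of_mul_eq_one_right _ h), edM_tilde_of_unitary h⟩

theorem Ok.add {s t : Multiset (K[X] × ℕ)} (hs : Ok s) (ht : Ok t) : Ok (s + t) :=
  ⟨hs.valid.add ht.valid, fun x hx => (Multiset.mem_add.1 hx).elim (hs.ne x) (ht.ne x),
    by rw [til_add, hs.til, ht.til]⟩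

theorem ne_zero_of_norm {a : K} (h : a * star a = 1) : a ≠ 0 := left_ne_zero_of_mul_eq_one h

theorem ok_jb {a : K} (h : a * star a = 1) {e : ℕ} (he : 0 < e) : Ok (jb a e) := by
  refine ⟨fun x hx => ?_, fun x hx => ?_, ?_⟩
  · obtain rfl := Multiset.mem_singleton.1 hx
    exact ⟨irreducible_X_sub_C a, monic_X_sub_C a, he⟩
  · obtain rfl := Multiset.mem_singleton.1 hx
    simpa using ne_zero_of_norm h
  · rw [til, jb, Multiset.map_singleton, tilde_lin (ne_zero_of_norm h),
      ← eq_inv_of_mul_eq_one_left h]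

theorem charpoly_star_inv {A B : Matrix ι ι K} (h : B * Aᴴ = 1) :
    B.charpoly = tilde (starRingEnd K) A.charpoly := by
  rw [← charpoly_transpose A]
  exact charpoly_tilde (starRingEnd_self_apply) h

/-- A hyperbolic frame `V = W ⊕ V₀ ⊕ W'`. -/
structure Frame (E : Matrix ι κ K) (Z : Matrix ι δ K) (E' : Matrix ι κ K) : Prop where
  ee : Eᴴ * E = 0
  ff : E'ᴴ * E' = 0
  fe : E'ᴴ * E = 1
  ez : Eᴴ * Z = 0
  fz : E'ᴴ * Z = 0
  zz : Zᴴ * Z = 1
  sum : E * E'ᴴ + Z * Zᴴ + E' * Eᴴ = 1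

namespace Frame

variable {E E' : Matrix ι κ K} {Z : Matrix ι δ K} (H : Frame E Z E')
include H

theorem ef : Eᴴ * E' = 1 := by simpa using congrArg conjTranspose H.fe

theorem ze : Zᴴ * E = 0 := by simpa using congrArg conjTranspose H.ez

theorem zf : Zᴴ * E' = 0 := by simpa using congrArg conjTranspose H.fz

theorem symm : Frame E' Z E :=
  ⟨H.ff, H.ee, H.ef, H.fz, H.ez, H.zz, by rw [← H.sum]; abel⟩

theorem tri0 {a : Matrix ι ι K} {h : Matrix κ κ K} (h1 : a * E = E * h) (h2 : Eᴴ * a * Z = 0) :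
    ∃ Y Y', edM a = edM (fromBlocks h Y 0 (fromBlocks (Zᴴ * a * Z) Y' 0 (Eᴴ * a * E'))) := by
  refine ⟨E'ᴴ * a * fromCols Z E', Zᴴ * a * E', ?_⟩
  rw [← edM_rect (A := a) (B := fromCols E (fromCols Z E')) (B' := fromRows E'ᴴ (fromRows Zᴴ Eᴴ))]
  · rw [Matrix.mul_assoc, mul_fromCols, fromRows_mul_fromCols, h1, mul_fromCols,
      fromRows_mul_fromCols, ← Matrix.mul_assoc, ← Matrix.mul_assoc, H.fe, fromRows_mul,
      H.ze, H.ee, fromRows_zero, Matrix.zero_mul, Matrix.one_mul, ← Matrix.mul_assoc Eᴴ, h2]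
    simp only [Matrix.mul_assoc, mul_fromCols]
  · rw [fromCols_mul_fromRows, fromCols_mul_fromRows, ← add_assoc, H.sum]
  · rw [fromRows_mul_fromCols, fromRows_mul_fromCols, mul_fromCols, fromRows_mul, H.fe, H.fz, H.ff,
      H.ze, H.ee, H.zz, H.zf, H.ez, H.ef]
    simp

theorem det_tri {a : Matrix ι ι K} {h : Matrix κ κ K} (h1 : a * E = E * h) (h2 : Eᴴ * a * Z = 0) :
    a.det = h.det * ((Zᴴ * a * Z).det * (Eᴴ * a * E').det) := by
  obtain ⟨Y, Y', h3⟩ := H.tri0 h1 h2
  rw [← dt_edM, h3, dt_edM, det_fromBlocks_zero₂₁, det_fromBlocks_zero₂₁]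

theorem edM_tri {a : Matrix ι ι K} {h : Matrix κ κ K} (h1 : a * E = E * h) (h2 : Eᴴ * a * Z = 0)
    (c1 : IsCoprime h.charpoly (Zᴴ * a * Z).charpoly)
    (c2 : IsCoprime h.charpoly (Eᴴ * a * E').charpoly)
    (c3 : IsCoprime (Zᴴ * a * Z).charpoly (Eᴴ * a * E').charpoly) :
    edM a = edM h + (edM (Zᴴ * a * Z) + edM (Eᴴ * a * E')) := by
  obtain ⟨Y, Y', h3⟩ := H.tri0 h1 h2
  rw [h3, edM_upper (by simpa using c1.mul_right c2), edM_upper c3]

theorem card : Fintype.card ι = 2 * Fintype.card κ + Fintype.card δ := by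
  obtain ⟨Y, Y', h3⟩ := H.tri0 (a := 1) (h := 1) (by simp) (by simp [H.ez])
  have := congrArg wt h3
  simp only [wt_edM, Fintype.card_sum] at this
  omega

end Frame

variable [Finite K] (hK : ∃ z : K, star z ≠ z)
include hK

theorem exists_sqrt {J : Matrix ι ι K} (hJ : Jᴴ = J) (hu : IsUnit J) :
    ∃ c c' : Matrix ι ι K, c * c' = 1 ∧ cᴴ * c = J ∧ ∀ y, Commute J y → Commute y c := by
  obtain ⟨ω, h1, h2, h3⟩ := exists_omega_matrix (n := ι) hK
  obtain ⟨c, hc, hc'⟩ := exists_star_mul_self h1 h2 hJ hu (h3 _)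
  exact ⟨c, c⁻¹.val, c.mul_inv, hc, fun y => hc' y (h3 y)⟩

theorem exists_frame {E E' : Matrix ι κ K} (h1 : Eᴴ * E = 0) (h2 : E'ᴴ * E' = 0)
    (h3 : E'ᴴ * E = 1) (hc : Fintype.card ι = 2 * Fintype.card κ + Fintype.card δ) :
    ∃ Z : Matrix ι δ K, Frame E Z E' := by
  have h4 : Eᴴ * E' = 1 := by simpa using congrArg conjTranspose h3
  have h5 : fromRows Eᴴ E'ᴴ * fromCols E' E = 1 := by simp [fromRows_mul_fromCols, *]
  let f := toLin' (fromRows Eᴴ E'ᴴ)
  have h6 : finrank K (LinearMap.ker f) = Fintype.card δ := by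
    have h7 := f.finrank_range_add_finrank_ker
    rw [LinearMap.range_eq_top.2 fun v => ⟨fromCols E' E *ᵥ v, by
      rw [toLin'_apply, mulVec_mulVec, h5, one_mulVec]⟩] at h7
    simp only [finrank_top, finrank_fintype_fun_eq_card, Fintype.card_sum] at h7
    omega
  let b := (finBasisOfFinrankEq K _ h6).reindex (Fintype.equivFin δ).symm
  let Y : Matrix ι δ K := of fun i j => (b j).1 i
  have h8 : fromRows Eᴴ E'ᴴ * Y = 0 := by
    ext i j
    exact congrFun (b j).2 i
  rw [fromRows_mul, ← fromRows_zero, fromRows_ext_iff] at h8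
  have hY : ∀ t, Y *ᵥ t = 0 → t = 0 := fun t ht => funext fun j =>
    Fintype.linearIndependent_iff.1 (b.linearIndependent.map' _ (Submodule.ker_subtype _)) t
      (by rw [← ht]; ext i; simp [Y, mulVec, dotProduct, mul_comm]) j
  -- the square matrix `(E, E', Y)` is invertible
  have h9 : IsUnit (Yᴴ * Y) := by
    rw [← mulVec_injective_iff_isUnit]
    refine (injective_iff_map_eq_zero (Yᴴ * Y).mulVecLin).2 fun t ht => hY t ?_
    let g := toLin' (fromCols (fromCols E' E) Y)
    have hg : Function.Surjective g := by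
      refine (LinearMap.injective_iff_surjective_of_finrank_eq_finrank (by simp; omega)).1
        ((injective_iff_map_eq_zero g).2 fun w hw => ?_)
      rw [toLin'_apply, fromCols_mulVec] at hw
      have h10 := congrArg (fromRows Eᴴ E'ᴴ *ᵥ ·) hw
      simp only [mulVec_add, mulVec_mulVec, h5, fromRows_mul, h8.1, h8.2, fromRows_zero,
        one_mulVec, zero_mulVec, add_zero, mulVec_zero] at h10
      rw [h10, mulVec_zero, zero_add] at hw
      rw [← Sum.elim_comp_inl_inr w, h10, hY _ hw]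
      simp
    have h11 : ∀ v, star (Y *ᵥ t) ⬝ᵥ v = 0 := fun v => by
      obtain ⟨w, rfl⟩ := hg v
      have e1 : Yᴴ * E = 0 := by simpa using congrArg conjTranspose h8.1
      have e2 : Yᴴ * E' = 0 := by simpa using congrArg conjTranspose h8.2
      have e3 : star t ᵥ* (Yᴴ * Y) = 0 := by
        have := congrArg star (show (Yᴴ * Y) *ᵥ t = 0 from ht)
        rwa [star_mulVec, conjTranspose_mul, conjTranspose_conjTranspose, star_zero] at this
      rw [toLin'_apply, star_mulVec, dotProduct_mulVec, vecMul_vecMul, mul_fromCols, mul_fromCols,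
        e1, e2, fromCols_zero, vecMul_fromCols, e3]
      simp
    exact star_eq_zero.1 (funext fun i => by simpa using h11 (Pi.single i 1))
  obtain ⟨c, c', h10, h11, -⟩ := exists_sqrt hK (by simp) h9
  have h12 : (Y * c')ᴴ * (Y * c') = 1 := by
    rw [conjTranspose_mul, Matrix.mul_assoc, ← Matrix.mul_assoc Yᴴ, ← h11, ← mul_assoc,
      ← mul_assoc, ← conjTranspose_mul, h10, conjTranspose_one, one_mul, h10]
  have h13 : Eᴴ * (Y * c') = 0 := by rw [← Matrix.mul_assoc, h8.1, Matrix.zero_mul]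
  have h14 : E'ᴴ * (Y * c') = 0 := by rw [← Matrix.mul_assoc, h8.2, Matrix.zero_mul]
  refine ⟨Y * c', h1, h2, h3, h13, h14, h12, ?_⟩
  have h15 : (Y * c')ᴴ * E = 0 := by simpa using congrArg conjTranspose h13
  have h16 : (Y * c')ᴴ * E' = 0 := by simpa using congrArg conjTranspose h14
  rw [add_assoc, ← fromCols_mul_fromRows, ← fromCols_mul_fromRows]
  refine (mul_eq_one_comm_of_card_eq _ _ _ (by simp; omega)).2 ?_
  rw [fromRows_mul_fromCols, fromRows_mul_fromCols,
    mul_fromCols, fromRows_mul, h1, h2, h3, h4, h12, h13, h14, h15, h16]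
  simp

end Mat

section Com

variable [StarRing K]

/-- `s` is the type of a commutator of two special unitary matrices -/
def Com (s : Multiset (K[X] × ℕ)) : Prop :=
  ∃ (ι : Type) (_ : Fintype ι) (_ : DecidableEq ι) (x a : Matrix ι ι K), xᴴ * x = 1 ∧ aᴴ * a = 1 ∧
    x.det = 1 ∧ a.det = 1 ∧ edM (x * a * xᴴ * aᴴ) = s

theorem Com.add {s t : Multiset (K[X] × ℕ)} (hs : Com s) (ht : Com t) : Com (s + t) := by
  obtain ⟨ι, _, _, x, a, h1, h2, h3, h4, rfl⟩ := hs
  obtain ⟨κ, _, _, y, b, k1, k2, k3, k4, rfl⟩ := ht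
  refine ⟨ι ⊕ κ, inferInstance, inferInstance, fromBlocks x 0 0 y, fromBlocks a 0 0 b, ?_, ?_, ?_,
    ?_, ?_⟩ <;> simp [fromBlocks_conjTranspose, fromBlocks_multiply, ← edM_fromBlocks, *]

theorem com_zero : Com (0 : Multiset (K[X] × ℕ)) :=
  ⟨Empty, inferInstance, inferInstance, 1, 1, by simp, by simp, by simp, by simp,
    sum_eq_zero (edM_valid _) ((wt_edM _).trans rfl)⟩

theorem Com.nsmul {s : Multiset (K[X] × ℕ)} (hs : Com s) (r : ℕ) : Com (r • s) := by
  induction r with
  | zero => simpa using com_zero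
  | succ r ih => rw [succ_nsmul]; exact ih.add hs

variable [Finite K] (hK : ∃ z : K, star z ≠ z)
include hK

theorem Com.of {ι : Type} [Fintype ι] [DecidableEq ι] {G a : Matrix ι ι K} (hG : Gᴴ * G = 1)
    (ha : aᴴ * a = 1) (h : edM (G * a) = edM a) (hd : a.det = 1) {x : K[X] × ℕ} (hx : x ∈ edM a)
    (h1 : x.2 = 1) : Com (edM G) := by
  obtain ⟨Q, h2, h3, h4⟩ := special_unitary_conj hK ha (B := G * a)
    (by rw [star_mul, mul_assoc, ← mul_assoc (star G), show star G * G = 1 from hG, one_mul]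
        exact ha) (isConj_iff_edM.2 h.symm)
    fun ν hν => by simpa [h1] using exists_unitary_commute_det hK ha hx hν
  refine ⟨ι, _, _, Q, a, h2, ha, h3, hd, ?_⟩
  rw [h4, mul_assoc _ Q, show Q * Qᴴ = 1 from mul_eq_one_comm.1 h2, mul_one, mul_assoc,
    mul_eq_one_comm.1 ha, mul_one]

theorem Com.elim {ι : Type*} [Fintype ι] [DecidableEq ι] {g : Matrix ι ι K} (hg : gᴴ * g = 1)
    (h : Com (edM g)) : ∃ x a : Matrix ι ι K, xᴴ * x = 1 ∧ aᴴ * a = 1 ∧ x.det = 1 ∧ a.det = 1 ∧
      g * a * x = x * a := by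
  obtain ⟨κ, _, _, x, a, h1, h2, h3, h4, h5⟩ := h
  have e : κ ≃ ι := Fintype.equivOfCardEq (by simpa [wt_edM] using congrArg wt h5)
  have k1 : (x.reindex e e)ᴴ * x.reindex e e = 1 := by simp [h1]
  have k2 : (a.reindex e e)ᴴ * a.reindex e e = 1 := by simp [h2]
  rw [← edM_reindex e] at h5
  have h6 : reindex e e (x * a * xᴴ * aᴴ) =
    reindex e e x * reindex e e a * (reindex e e x)ᴴ * (reindex e e a)ᴴ := by simp
  rw [h6] at h5
  rw [← det_reindex_self e] at h3 h4
  generalize x.reindex e e = y at *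
  generalize a.reindex e e = b at *
  have k3 := mul_eq_one_comm.1 k1
  have k4 := mul_eq_one_comm.1 k2
  obtain ⟨Q, h7, h8⟩ := unitary_conj hK (A := g) (B := y * b * yᴴ * bᴴ) hg (by
    simp only [star_eq_conjTranspose, conjTranspose_mul, conjTranspose_conjTranspose, mul_assoc]
    rw [← mul_assoc yᴴ y, k1, one_mul, ← mul_assoc bᴴ b, k2, one_mul, ← mul_assoc y, k3, one_mul,
      k4]) (isConj_iff_edM.2 h5.symm)
  rw [star_eq_conjTranspose] at h7
  have h9 := mul_eq_one_comm.1 h7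
  have h10 : ∀ M : Matrix ι ι K, Q * (Qᴴ * M) = M := fun M => by rw [← mul_assoc, h9, one_mul]
  have h11 : ∀ c : Matrix ι ι K, cᴴ * c = 1 → (Qᴴ * c * Q)ᴴ * (Qᴴ * c * Q) = 1 := fun c hc => by
    simp only [conjTranspose_mul, conjTranspose_conjTranspose, mul_assoc, h10]
    rw [← mul_assoc cᴴ, hc, one_mul, h7]
  have h12 : ∀ c : Matrix ι ι K, (Qᴴ * c * Q).det = c.det := fun c => by
    rw [det_mul_comm, h10]
  refine ⟨Qᴴ * y * Q, Qᴴ * b * Q, h11 y k1, h11 b k2, (h12 y).trans h3, (h12 b).trans h4, ?_⟩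
  have h13 : g = Qᴴ * (y * b * yᴴ * bᴴ * Q) := by rw [← h8, ← mul_assoc, h7, one_mul]
  simp only [h13, mul_assoc, h10]
  rw [← mul_assoc bᴴ b, k2, one_mul, ← mul_assoc yᴴ y, k1, one_mul]

theorem com_scalar {a : K} (ha : a * star a = 1) {n : ℕ} (hn : a ^ n = 1) : Com (n • jb a 1) := by
  classical
  have h0 := ne_zero_of_norm ha
  have hfin : IsOfFinOrder a := isOfFinOrder_iff_pow_eq_one.2
    (by cases nonempty_fintype K; exact ⟨_, by simpa using Fintype.one_lt_card (α := K),
      FiniteField.pow_card_sub_one_eq_one a h0⟩)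
  obtain ⟨j, rfl⟩ := orderOf_dvd_of_pow_eq_one hn
  rw [mul_nsmul]
  refine Com.nsmul ?_ j
  have hm := hfin.orderOf_pos
  have hm' : (orderOf a : K) ≠ 0 := by
    obtain ⟨p, hp⟩ := CharP.exists K
    have := Fact.mk (CharP.char_is_prime K p)
    refine natCast_ne_zero_of_coprime (p := p) ?_
    cases nonempty_fintype K
    obtain ⟨k, -, hk⟩ := FiniteField.card K p
    refine Nat.Coprime.coprime_dvd_left (orderOf_dvd_of_pow_eq_one
      (FiniteField.pow_card_sub_one_eq_one a h0)) (Nat.Coprime.coprime_dvd_right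
        (dvd_pow_self p k.ne_zero) ?_)
    rw [← hk]
    exact (Nat.coprime_self_sub_left Fintype.card_pos).2 (Nat.coprime_one_left _)
  have h1 := pow_orderOf_eq_one a
  generalize orderOf a = m at *
  obtain ⟨ε, hε, hε'⟩ : ∃ ε : K, (ε = 1 ∨ ε = -1) ∧ (-1) ^ m * -ε = 1 :=
    ⟨(-1) ^ (m + 1), neg_one_pow_eq_or K _, by simp [pow_succ, ← mul_pow]⟩
  have hsq := (separable_X_pow_sub_C ε hm' (by rcases hε with h | h <;> simp [h])).squarefree
  have hc : ∀ A B : Matrix (Fin m) (Fin m) K, A.charpoly = X ^ m - C ε →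
      B.charpoly = X ^ m - C ε → IsConj A B := fun A B hA hB =>
    isConj_of_charpoly_eq hsq hsq (by rw [← hA]; exact aeval_self_charpoly A)
      (by rw [← hB]; exact aeval_self_charpoly B) (hA.trans hB.symm)
  obtain ⟨A, -, hA⟩ := exists_edM_one_charpoly_eq (n := Fin m) (monic_X_pow_sub_C ε hm.ne')
    (by rw [natDegree_X_pow_sub_C, Fintype.card_fin])
  have hd : A.det = 1 := by
    rw [det_eq_of_charpoly, hA]
    simpa [coeff_X_pow, hm.ne] using hε'
  have h2 : Aᴴ⁻¹ * star A = 1 := nonsing_inv_mul _ (by simp [hd])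
  obtain ⟨B, hB, h4⟩ := exists_unitary_isConj hK h2 (hc _ _ hA (by
    rw [charpoly_star_inv h2, hA, tilde, Polynomial.map_sub, Polynomial.map_pow, map_X, map_C,
      sub_eq_add_neg (X ^ m) (C (_ : K)), sub_eq_add_neg (X ^ m) (C (starRingEnd K ε)), ← C_neg,
      ← C_neg, reverse_add_C, ← one_mul (X ^ m), reverse_mul_X_pow, ← C_1, reverse_C]
    rcases hε with h | h <;> simp [h, coeff_X_pow, hm.ne] <;> ring))
  have h5 := (charpoly_eq_of_isConj h4).symm.trans hA
  obtain ⟨x, hx⟩ := Multiset.exists_mem_of_ne_zero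
    (@edM_ne_zero K _ (Fin m) _ _ ⟨⟨0, hm⟩⟩ B)
  have h8 := Com.of hK (G := a • (1 : Matrix (Fin m) (Fin m) K)) (by simp [smul_smul, ha]) hB
    (by
      rw [smul_mul_assoc, one_mul, ← isConj_iff_edM]
      refine hc _ _ ?_ h5
      rw [charpoly_smul _ h0, h5]
      ext i
      rw [coeff_scaleRoots, natDegree_X_pow_sub_C, coeff_sub, coeff_X_pow, coeff_C]
      split_ifs <;> simp_all)
    (by rw [← dt_edM, ← isConj_iff_edM.1 h4, dt_edM, hd]) hx
    (ed_exp_eq_one hsq (by rw [aeval_toLin', ← h5, aeval_self_charpoly, map_zero]) hx)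
  simpa [edM_scalar] using h8

end Com

end CfsgLib.SuOre
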