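import Cfsg.Agent.Lib.SuOre.Fact
import Cfsg.Agent.Lib.Cov2.Sp6

/-!
Totally isotropic chains `v, G v, …, G^(k-1) v` of a cyclic unitary matrix; they give Gauss
decompositions whose upper left block has an almost arbitrary characteristic polynomial.
-/

set_option autoImplicit false

namespace CfsgLib.SuOre

open Polynomial Module Matrix CfsgLib.MatConj CfsgLib.Cov2

variable {K : Type*} [Field K] [StarRing K] {ι κ δ : Type*} [Fintype ι] [DecidableEq ι]
  [Fintype κ] [DecidableEq κ] [Fintype δ] [DecidableEq δ]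

theorem Frame.exists_dual {E E' : Matrix ι κ K} {Z : Matrix ι δ K} (H : Frame E Z E')
    {y : Matrix ι Unit K} {u : Matrix κ Unit K} (hu : uᴴ * (Eᴴ * y) = 1) {γ : Matrix δ Unit K}
    (hγ : γᴴ * γ = yᴴ * y) : ∃ F : Matrix ι κ K, Fᴴ * E = 1 ∧ Fᴴ * F = 0 ∧ Fᴴ * y = 0 := by
  rw [H.form yᴴ y] at hγ
  obtain ⟨r, hr⟩ : ∃ r, E'ᴴ * y = r := ⟨_, rfl⟩
  obtain ⟨ζ, hζ⟩ : ∃ ζ, Zᴴ * y = ζ := ⟨_, rfl⟩
  obtain ⟨w, hw⟩ : ∃ w, Eᴴ * y = w := ⟨_, rfl⟩
  rw [show yᴴ * E = wᴴ by simp [← hw], show yᴴ * Z = ζᴴ by simp [← hζ],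
    show yᴴ * E' = rᴴ by simp [← hr], hr, hζ, hw] at hγ
  obtain ⟨S, h1, h2⟩ : ∃ S : Matrix κ κ K, S + Sᴴ + u * ((γ + ζ)ᴴ * ((γ + ζ) * uᴴ)) = 0 ∧
      r + u * ((γ + ζ)ᴴ * ζ) + S * w = 0 := by
    refine ⟨-(r * uᴴ) + u * rᴴ - u * ((rᴴ * w + (γ + ζ)ᴴ * ζ) * uᴴ), ?_, ?_⟩
    · have := congrArg (fun M => u * (M * uᴴ)) hγ
      simp only [conjTranspose_add, conjTranspose_sub, conjTranspose_neg, conjTranspose_mul,
        conjTranspose_conjTranspose, Matrix.add_mul, Matrix.mul_add, Matrix.mul_assoc] at this ⊢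
      linear_combination (norm := abel) this
    · rw [hw] at hu
      simp only [Matrix.add_mul, Matrix.sub_mul, Matrix.neg_mul, Matrix.mul_add, Matrix.mul_assoc,
        hu, Matrix.mul_one]
      abel
  refine ⟨E' + Z * ((γ + ζ) * uᴴ) + E * Sᴴ, ?_, ?_, ?_⟩
  · simp [Matrix.add_mul, Matrix.mul_assoc, H.fe, H.ze, H.ee]
  · rw [← h1]
    generalize γ + ζ = β
    simp only [conjTranspose_add, conjTranspose_mul, conjTranspose_conjTranspose, Matrix.add_mul,
      Matrix.mul_add, Matrix.mul_assoc, H.ff, hl H.fz, hl H.fe, H.zf, hl H.zz, hl H.ze, H.ef,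
      hl H.ez, hl H.ee, Matrix.zero_mul, Matrix.mul_zero, Matrix.one_mul, Matrix.mul_one, add_zero,
      zero_add]
    abel
  · rw [← h2]
    generalize γ + ζ = β
    simp [Matrix.add_mul, Matrix.mul_assoc, hr, hζ, hw]

/-- the Gram matrix of the orbit of `v` for the form attached to `r` -/
def gr (G r : Matrix ι ι K) (v : ι → K) (i j : ℕ) : K := star (G ^ i *ᵥ v) ⬝ᵥ r *ᵥ G ^ j *ᵥ v

section Gr

variable {G r : Matrix ι ι K} {v : ι → K}

theorem gr_star (i j : ℕ) : star (gr G r v i j) = gr G rᴴ v j i := by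
  rw [gr, gr, ← star_dotProduct, star_mulVec r, ← dotProduct_mulVec]

theorem gr_add (hG : Gᴴ * G = 1) (hr : Commute r G) (i j s : ℕ) :
    gr G r v (i + s) (j + s) = gr G r v i j := by
  induction s with
  | zero => rfl
  | succ s ih =>
    rw [← ih, gr, gr, ← add_assoc, ← add_assoc, pow_succ', pow_succ', ← mulVec_mulVec,
      ← mulVec_mulVec, star_mulVec, mulVec_mulVec _ r, hr.eq, ← mulVec_mulVec, dotProduct_mulVec,
      vecMul_vecMul, hG, vecMul_one]

theorem gr_aeval (i s : ℕ) {p : K[X]} {N : ℕ} (h : p.natDegree < N) :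
    star (G ^ i *ᵥ v) ⬝ᵥ r *ᵥ G ^ s *ᵥ aeval G p *ᵥ v =
      ∑ j ∈ Finset.range N, p.coeff j * gr G r v i (s + j) := by
  simp only [aeval_eq_sum_range' h, sum_mulVec, mulVec_sum, dotProduct_sum, smul_mulVec,
    mulVec_smul, dotProduct_smul, smul_eq_mul, gr, pow_add, mulVec_mulVec]

end Gr

/-- an isotropic chain of length `k` -/
def Chain (G : Matrix ι ι K) (v : ι → K) (k : ℕ) : Prop :=
  (∀ j < k, gr G 1 v 0 j = 0) ∧ gr G 1 v 0 k ≠ 0

variable [Finite K] (hK : ∃ z : K, star z ≠ z)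
include hK

theorem exists_norm {a : K} (h : star a = a) : ∃ c, star c * c = a := by
  by_cases h0 : a = 0
  · exact ⟨0, by simp [h0]⟩
  obtain ⟨ω, h1, h2⟩ := exists_omega hK
  exact comm_norm_surj (starRingEnd K) starRingEnd_self_apply h1 (Ne.isUnit h2) h (Ne.isUnit h0)

theorem Chain.st {ι : Type} [Fintype ι] [DecidableEq ι] {G : Matrix ι ι K} (hG : Gᴴ * G = 1)
    {v : ι → K} {m : ℕ} (H : Chain G v (m + 1)) {r : ℕ} (hr : r ≤ 1)
    (hc : Fintype.card ι = 2 * (m + 1) + r) {χ : K[X]} (h1 : χ.Monic) (h2 : χ.natDegree = m + 1)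
    (h3 : χ.coeff 0 ≠ 0) (h4 : r = 0 → ph (χ.coeff 0) = -ph (gr G 1 v 0 (m + 1))) :
    ∃ (A : Matrix (Fin (m + 1)) (Fin (m + 1)) K) (d : Fin r → K),
      St (edM G) A d ∧ A.charpoly = χ := by
  have g1 : ∀ i j, gr G 1 v i (i + j) = gr G 1 v 0 j := fun i j => by
    rw [← gr_add hG (Commute.one_left G) 0 j i, zero_add, add_comm]
  have g2 : ∀ i j, i ≤ j → j < i + (m + 1) → gr G 1 v i j = 0 := fun i j h h' => by
    obtain ⟨j, rfl⟩ := Nat.exists_eq_add_of_le h
    rw [g1, H.1 j (by omega)]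
  have g3 : ∀ i j, i < j + (m + 1) → j < i + (m + 1) → gr G 1 v i j = 0 := fun i j h h' => by
    rcases le_total i j with h5 | h5
    · exact g2 i j h5 h'
    · rw [← star_eq_zero, gr_star, conjTranspose_one, g2 j i h5 h]
  let E : Matrix ι (Fin (m + 1)) K := of fun a j => (G ^ (j : ℕ) *ᵥ v) a
  have e1 : ∀ (x : ι → K) i, (Eᴴ *ᵥ x) i = star (G ^ (i : ℕ) *ᵥ v) ⬝ᵥ x := fun x i => rfl
  have e2 : ∀ (s : ℕ) i j, (Eᴴ * (G ^ s * E)) i j = gr G 1 v i (s + j) := fun s i j => by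
    rw [gr, one_mulVec, pow_add, ← mulVec_mulVec]
    rfl
  have ee : Eᴴ * E = 0 := by
    ext i j
    simpa [g3 i j (by omega) (by omega)] using e2 0 i j
  obtain ⟨M, hM⟩ : ∃ M, Eᴴ * (G ^ (m + 1) * E) * M = 1 := by
    refine IsUnit.exists_right_inv ((isUnit_iff_isUnit_det _).2 (Ne.isUnit ?_))
    rw [det_of_isUpperTriangular fun i j hij => (e2 _ i j).trans
      (g2 _ _ (by omega) (by have : (j : ℕ) < i := hij; omega))]
    exact Finset.prod_ne_zero_iff.2 fun i _ => by rw [e2, add_comm _ (i : ℕ), g1]; exact H.2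
  rw [Matrix.mul_assoc] at hM
  generalize G ^ (m + 1) * E * M = L at hM
  have hL : Lᴴ * E = 1 := by simpa using congrArg conjTranspose hM
  obtain ⟨ω, hω, -⟩ := exists_omega hK
  have hc' : Fintype.card ι = 2 * Fintype.card (Fin (m + 1)) + r := by simpa using hc
  obtain ⟨Z, hZ⟩ := exists_frame (δ := Fin r) (E' := L - ω • (E * (Lᴴ * L))) hK ee (by
    simp only [conjTranspose_sub, conjTranspose_smul, conjTranspose_mul, Matrix.sub_mul,
      conjTranspose_conjTranspose, Matrix.mul_sub, Matrix.smul_mul, Matrix.mul_smul,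
      Matrix.mul_assoc, hl hL, hl ee, hM, Matrix.one_mul, Matrix.mul_one, Matrix.zero_mul,
      Matrix.mul_zero, smul_zero]
    linear_combination (norm := module) (-(1 : K)) • congrArg (· • (Lᴴ * L)) hω)
    (by simp [Matrix.sub_mul, Matrix.mul_assoc, hL, ee]) (by simpa using hc)
  have y1 : ∀ i, star (G ^ i *ᵥ v) ⬝ᵥ aeval G χ *ᵥ v =
      ∑ j ∈ Finset.range (m + 2), χ.coeff j * gr G 1 v i j := fun i => by
    simpa using gr_aeval (G := G) (r := 1) (v := v) i 0 (N := m + 2) (p := χ) (by omega)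
  have y2 : star (G ^ 0 *ᵥ v) ⬝ᵥ aeval G χ *ᵥ v = gr G 1 v 0 (m + 1) := by
    rw [y1, Finset.sum_range_succ, ← h2, h1.coeff_natDegree, one_mul, Finset.sum_eq_zero
      fun j hj => by rw [H.1 j (by simpa [h2] using hj), mul_zero], zero_add]
  obtain ⟨γ, hγ⟩ : ∃ γ : Matrix (Fin r) Unit K, γᴴ * γ =
      (replicateCol Unit (aeval G χ *ᵥ v))ᴴ * replicateCol Unit (aeval G χ *ᵥ v) := by
    obtain ⟨c, h9⟩ := exists_norm hK (star_dotProduct (aeval G χ *ᵥ v) (aeval G χ *ᵥ v)).symm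
    refine ⟨of fun _ _ => c, ext fun _ _ => Eq.trans ?_ h9⟩
    rcases Nat.le_one_iff_eq_zero_or_eq_one.1 hr with rfl | rfl
    · have h5 := h4 rfl
      have h6 := star_ne_zero.2 h3
      have h7 := star_ne_zero.2 H.2
      rw [ph_apply, ph_apply, ← neg_div, div_eq_div_iff h6 h7] at h5
      have h8 : star (G ^ (m + 1) *ᵥ v) ⬝ᵥ aeval G χ *ᵥ v =
          χ.coeff 0 * star (gr G 1 v 0 (m + 1)) := by
        rw [y1, Finset.sum_range_succ', gr_star, conjTranspose_one, Finset.sum_eq_zero fun j hj => by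
          rw [g3 _ _ (by omega) (by simp at hj; omega), mul_zero], zero_add]
      rw [h9]
      nth_rw 1 [aeval_eq_sum_range' (n := m + 2) (by omega)]
      simp only [sum_mulVec, smul_mulVec, star_sum, star_smul, sum_dotProduct, smul_dotProduct]
      rw [Finset.sum_range_succ, Finset.sum_range_succ', y2, h8, Finset.sum_eq_zero fun j hj => by
        rw [y1, Finset.sum_eq_zero fun i hi => by
          rw [g3 _ _ (by simp at hj; omega) (by simp at hi; omega), mul_zero], smul_zero],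
        ← h2, h1.coeff_natDegree, h2]
      simp [mul_apply, h5, mul_comm]
    · simp [mul_apply]
  obtain ⟨F, f1, f2, f3⟩ := hZ.exists_dual (y := replicateCol Unit (aeval G χ *ᵥ v))
    (u := replicateCol Unit (Pi.single 0 (star (gr G 1 v 0 (m + 1)))⁻¹)) (by
      ext
      rw [← replicateCol_mulVec, mul_apply, Finset.sum_eq_single 0 (fun i _ hi => by simp [hi])
        (by simp)]
      rw [replicateCol_apply, e1, Fin.val_zero, y2]
      simpa using inv_mul_cancel₀ H.2) hγ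
  rw [← replicateCol_mulVec] at f3
  have f4 : Fᴴ *ᵥ aeval G χ *ᵥ v = 0 := funext fun i => congrFun (congrFun f3 i) ()
  have a1 : ∀ j : Fin (m + 1), E *ᵥ Pi.single j 1 = G ^ (j : ℕ) *ᵥ v := fun j => by
    rw [mulVec_single_one]; rfl
  have a2 : ∀ j : Fin (m + 1), Fᴴ *ᵥ G ^ (j : ℕ) *ᵥ v = Pi.single j 1 := fun j => by
    rw [← a1, mulVec_mulVec, f1, one_mulVec]
  have a3 : ∀ j ≤ m + 1, (Fᴴ * (G * E)) ^ j *ᵥ Pi.single 0 1 = Fᴴ *ᵥ G ^ j *ᵥ v := fun j => by
    induction j with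
    | zero => exact fun _ => by rw [pow_zero (Fᴴ * _), one_mulVec]; exact (a2 0).symm
    | succ j ih =>
      intro hj
      rw [pow_succ', ← mulVec_mulVec, ih (by omega), a2 ⟨j, hj⟩, ← mulVec_mulVec, ← mulVec_mulVec,
        a1, mulVec_mulVec _ G, ← pow_succ']
  have a4 : ∀ p : K[X], p.natDegree < m + 2 →
      aeval (Fᴴ * (G * E)) p *ᵥ Pi.single 0 1 = Fᴴ *ᵥ aeval G p *ᵥ v := fun p hp => by
    simp only [aeval_eq_sum_range' hp, sum_mulVec, mulVec_sum, smul_mulVec, mulVec_smul]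
    exact Finset.sum_congr rfl fun j hj => by rw [a3 j (by simp at hj; omega)]
  have a5 : (Fᴴ * (G * E)).charpoly = χ := by
    by_contra h
    have h5 : ((Fᴴ * (G * E)).charpoly - χ).natDegree < m + 1 :=
      (natDegree_lt_iff_degree_lt (sub_ne_zero.2 h)).2 (by
        simpa using degree_sub_lt_left (p := (Fᴴ * (G * E)).charpoly) (q := χ)
          (by simp [degree_eq_natDegree h1.ne_zero, h2]) (charpoly_monic _).ne_zero
          (by rw [h1.leadingCoeff, (charpoly_monic _).leadingCoeff]))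
    have h6 := a4 _ (h5.trans (Nat.lt_succ_self _))
    rw [map_sub, aeval_self_charpoly, zero_sub, neg_mulVec, a4 χ (by omega), f4, neg_zero,
      aeval_eq_sum_range' h5, Finset.sum_range, sum_mulVec, mulVec_sum] at h6
    refine sub_ne_zero.2 h (leadingCoeff_eq_zero.1 ?_)
    generalize (Fᴴ * (G * E)).charpoly - χ = p at h5 h6
    simpa [smul_mulVec, mulVec_smul, a2, Pi.single_apply, -coeff_natDegree, -mulVec_mulVec,
      leadingCoeff] using (congrFun h6 ⟨_, h5⟩).symm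
  obtain ⟨d, hd⟩ := St.of hK hG ee f2 f1 (by
    rw [isUnit_iff_isUnit_det, det_eq_of_charpoly, a5]
    simpa using h3) hr hc'
  exact ⟨_, d, hd, a5⟩

/-- existence of chains for cyclic matrices -/
theorem exists_chain {G : Matrix ι ι K} (hG : Gᴴ * G = 1)
    (hv : ∀ a : K[X], aeval G a = 0 → G.charpoly ∣ a) {k r : ℕ} (hk : 0 < k) (hr : r ≤ 1)
    (hc : Fintype.card ι = 2 * k + r) {ρ : K} (hρ : ρ * star ρ = 1)
    (h : ∀ π g : K[X], Irreducible π → π.Monic → G.charpoly = π * g → g.natDegree = 2 * k →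
      g.coeff 0 + ρ ≠ 0) : ∃ v, Chain G v k := by
  classical
  obtain ⟨v, hv'⟩ := exists_faithful_vector G
  have hG' := mul_eq_one_comm.1 hG
  have hd : G.charpoly.natDegree = 2 * k + r := by simp [hc]
  let ev : (Fin (2 * k + r) → K) →ₗ[K] K[X] :=
    (degreeLT K _).subtype ∘ₗ (degreeLTEquiv K (2 * k + r)).symm.toLinearMap
  have h1 : ∀ c, aeval G (ev c) *ᵥ v = 0 → c = 0 := fun c hc => by
    have := eq_zero_of_dvd_of_degree_lt (hv _ (hv' _ hc)) (by
      rw [degree_eq_natDegree G.charpoly_monic.ne_zero, hd]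
      exact mem_degreeLT.1 ((degreeLTEquiv K (2 * k + r)).symm c).2)
    simpa [ev] using this
  have h2 : ∀ x, ∃ p : K[X], aeval G p *ᵥ v = x := fun x => by
    obtain ⟨c, hc⟩ := (LinearMap.injective_iff_surjective_of_finrank_eq_finrank
      (f := (LinearMap.applyₗ v ∘ₗ toLin'.toLinearMap ∘ₗ (aeval G).toLinearMap) ∘ₗ ev)
      (by simp [hc])).1 ((injective_iff_map_eq_zero _).2 h1) x
    exact ⟨_, hc⟩
  -- a non-zero self-adjoint element of `K[G]` killed by the functionals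
  let Good : Matrix ι ι K → Prop := fun u => Commute u G ∧
    (∀ j, 0 < j → j < 2 * k → gr G u v k j = 0) ∧
    (r = 1 → gr G u v k (2 * k) = ρ * gr G u v k 0)
  have h3 : ∀ u, Commute u G → ∀ j ≤ 2 * k, gr G uᴴ v k j = star (gr G u v k (2 * k - j)) :=
    fun u hu j hj => by
      rw [← gr_star, ← gr_add hG hu j k (2 * k - j + k), ← gr_add hG hu k (2 * k - j) (k + k)]
      congr 2 <;> omega
  have h4 : ∀ u, Good u → ∀ z : K, Good (z • u + (z • u)ᴴ) := fun u ⟨u1, u2, u3⟩ z => by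
    have u4 : ∀ j, gr G (z • u + (z • u)ᴴ) v k j = z * gr G u v k j + star z * gr G uᴴ v k j :=
      fun j => by simp [gr, add_mulVec, smul_mulVec, -mulVec_mulVec]
    refine ⟨(u1.smul_left z).add_left ?_, fun j hj hj' => ?_, fun hr => ?_⟩
    · have := congrArg (fun M => G * Mᴴ * G) (u1.smul_left z).eq
      simp only [conjTranspose_mul, ← mul_assoc, hG', one_mul] at this
      rw [Commute, SemiconjBy, this, mul_assoc, hG, mul_one]
    · rw [u4, h3 u u1 j hj'.le, u2 j hj hj', u2 _ (by omega) (by omega)]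
      simp
    · rw [u4, u4, h3 u u1 _ le_rfl, h3 u u1 _ (Nat.zero_le _), Nat.sub_self, Nat.sub_zero, u3 hr,
        star_mul']
      linear_combination (-star z * star (gr G u v k 0)) * hρ
  obtain ⟨u, hu0, hu, u1, u2, u3⟩ : ∃ u, u ≠ 0 ∧ uᴴ = u ∧ Good u := by
    let Φ : Matrix ι ι K →ₗ[K] (Fin (2 * k - 1) ⊕ Fin r → K) :=
      { toFun := fun u => Sum.elim (fun j => gr G u v k (j + 1))
          fun _ => gr G u v k (2 * k) - ρ * gr G u v k 0
        map_add' := fun u u' => by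
          ext (j | j) <;> simp [gr, add_mulVec, -mulVec_mulVec]
          ring
        map_smul' := fun c u => by
          ext (j | j) <;> simp [gr, smul_mulVec, -mulVec_mulVec]
          ring }
    obtain ⟨c, hc, hc0⟩ := (Submodule.ne_bot_iff _).1 (LinearMap.ker_ne_bot_of_finrank_lt
      (f := Φ ∘ₗ (aeval G).toLinearMap ∘ₗ ev) (by simp; omega))
    have h5 : Good (aeval G (ev c)) := ⟨(aeval_commute (Commute.refl G) _).symm, fun j hj hj' => by
      simpa [Φ, Nat.sub_add_cancel hj] using congrFun hc (.inl ⟨j - 1, by omega⟩),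
      fun hr => sub_eq_zero.1 (congrFun hc (.inr ⟨0, by omega⟩))⟩
    by_contra! h6
    obtain ⟨z, hz⟩ := hK
    have h7 : ∀ z : K, z • aeval G (ev c) + (z • aeval G (ev c))ᴴ = 0 := fun z => by
      by_contra h8
      exact h6 _ h8 (by simp [add_comm]) (h4 _ h5 z)
    have h8 : (z - star z) • aeval G (ev c) = 0 := by
      have h9 := h7 1
      have h10 := h7 z
      rw [conjTranspose_smul] at h10
      rw [one_smul] at h9
      linear_combination (norm := module) h10 - star z • h9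
    exact hc0 (h1 c (by
      rw [(smul_eq_zero.1 h8).resolve_left (sub_ne_zero.2 hz.symm), zero_mulVec]))
  have h5 : ∀ (s : ℕ) x, ∃ p : K[X], G ^ s *ᵥ aeval G p *ᵥ v = x := fun s x => by
    obtain ⟨p, hp⟩ := h2 (Gᴴ ^ s *ᵥ x)
    exact ⟨p, by rw [hp, mulVec_mulVec, ← Commute.mul_pow (hG'.trans hG.symm), hG', one_pow,
      one_mulVec]⟩
  have h6 : ∀ (s : ℕ) (p : K[X]), Commute u (G ^ s * aeval G p) := fun s p =>
    (u1.pow_right s).mul_right (aeval_commute u1 p)
  have h7 : ∀ (g : K[X]) (s N : ℕ), g.Monic → aeval G g * u = 0 → g.natDegree ≤ N →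
      ¬ ∀ j < N, gr G u v k (s + j) = 0 := fun g s N g1 g2 g3 g4 => hu0 (by
    have h8 : ∀ x, star (G ^ k *ᵥ v) ⬝ᵥ u *ᵥ x = 0 := fun x => by
      obtain ⟨p, rfl⟩ := h5 s x
      have h9 : u * (G ^ s * aeval G (g * (p /ₘ g))) = 0 := by
        rw [(h6 _ _).eq, mul_comm g, map_mul, mul_assoc, mul_assoc, g2, mul_zero, mul_zero]
      rw [← modByMonic_add_div p g, map_add, add_mulVec, mulVec_add, mulVec_add, mulVec_mulVec v,
        mulVec_mulVec v (G ^ s), mulVec_mulVec v u (_ * aeval G (g * _)), h9, zero_mulVec, add_zero,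
        ← mulVec_mulVec v]
      by_cases h0 : p %ₘ g = 0
      · simp [h0]
      rw [gr_aeval k s ((natDegree_lt_natDegree h0 (degree_modByMonic_lt p g1)).trans_le g3)]
      exact Finset.sum_eq_zero fun j hj => by rw [g4 j (Finset.mem_range.1 hj), mul_zero]
    have h9 : u *ᵥ G ^ k *ᵥ v = 0 := star_eq_zero.1 (funext fun i => by
      rw [star_mulVec, hu]
      simpa only [dotProduct_mulVec (star _) u, dotProduct_single, mul_one, Pi.zero_apply]
        using h8 (Pi.single i 1))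
    refine ext_iff_mulVec.2 fun x => ?_
    obtain ⟨p, rfl⟩ := h5 k x
    rw [mulVec_mulVec v, ← (aeval_commute ((Commute.refl G).pow_left k) p).symm.eq, mulVec_mulVec,
      ← mul_assoc, (aeval_commute u1 p).eq, mul_assoc, ← mulVec_mulVec, ← mulVec_mulVec, h9]
    simp)
  have h8 : gr G u v k (2 * k) ≠ 0 := fun h8 =>
    h7 G.charpoly 0 (2 * k + 1) G.charpoly_monic (by rw [aeval_self_charpoly, zero_mul])
      (by omega) fun j hj => by
      rcases (by omega : j = 0 ∨ j = 2 * k ∨ 0 < j ∧ j < 2 * k) with rfl | rfl | h9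
      · rw [← hu, h3 u u1 _ (by omega)]
        simpa using h8
      · rwa [zero_add]
      · rw [zero_add, u2 j h9.1 h9.2]
  have h9 : IsUnit u := by
    obtain ⟨p, hp⟩ := h2 (u *ᵥ v)
    obtain rfl := eq_aeval_of_cyclic h2 u1 hp
    by_contra h9
    obtain ⟨π, π1, π2, π3⟩ : ∃ π : K[X], π.Monic ∧ Irreducible π ∧ π ∣ gcd p G.charpoly :=
      exists_monic_irreducible_factor _ fun h10 => h9 (by
        obtain ⟨a, b, hab⟩ := gcd_isUnit_iff _ _ |>.1 h10
        have := congrArg (aeval G) hab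
        rw [map_add, map_mul, map_mul, aeval_self_charpoly, mul_zero, add_zero, map_one] at this
        exact IsUnit.of_mul_eq_one_right _ this)
    obtain ⟨g, hg⟩ := π3.trans (gcd_dvd_right _ _)
    obtain ⟨p, rfl⟩ := π3.trans (gcd_dvd_left _ _)
    have g1 : g.Monic := π1.of_mul_monic_left (hg ▸ G.charpoly_monic)
    have g2 : aeval G g * aeval G (π * p) = 0 := by
      rw [← map_mul, ← mul_assoc, mul_comm g, ← hg, map_mul, aeval_self_charpoly, zero_mul]
    have g3 := π2.natDegree_pos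
    rw [hg, π1.natDegree_mul g1] at hd
    by_cases g4 : g.natDegree = 2 * k
    · have g5 := gr_aeval (G := G) (r := aeval G (π * p)) (v := v) k 0 (N := 2 * k + 1) (p := g)
        (by omega)
      rw [pow_zero, one_mulVec, mulVec_mulVec, ← map_mul, mul_comm _ g, map_mul, g2,
        Finset.sum_range_succ, ← g4, g1.coeff_natDegree, g4, Finset.sum_eq_single 0 (fun j hj hj' => by
          rw [zero_add, u2 j (by omega) (by simpa using hj), mul_zero]) (by simp; omega),
        zero_add, zero_add, u3 (by omega), one_mul, ← add_mul] at g5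
      rw [zero_mulVec, dotProduct_zero, eq_comm, mul_eq_zero] at g5
      exact h8 (by rw [u3 (by omega), g5.resolve_left (h π g π2 π1 hg g4), mul_zero])
    · exact h7 g 1 (2 * k - 1) g1 g2 (by omega) fun j hj => u2 _ (by omega) (by omega)
  obtain ⟨c, -, -, c1, c2⟩ := exists_sqrt hK hu h9
  have c3 : ∀ j, gr G 1 (c *ᵥ v) 0 j = gr G u v k (j + k) := fun j => by
    have := gr_add (v := v) hG u1 0 j k
    rw [zero_add] at this
    rw [this, gr, gr, pow_zero, one_mulVec, one_mulVec, one_mulVec, mulVec_mulVec,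
      ((c2 G u1).pow_left j).eq, star_mulVec, ← mulVec_mulVec, ← dotProduct_mulVec,
      mulVec_mulVec _ _ c, c1]
  exact ⟨c *ᵥ v, fun j hj => by rw [c3, u2 _ (by omega) (by omega)], by rwa [c3, ← two_mul]⟩

end CfsgLib.SuOre
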