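import Cfsg.Agent.Lib.SuOre.Levi

/-!
A triangularizable matrix of determinant one with a simple eigenvalue is `h₂ h₁⁻¹` with `h₁`, `h₂`
of prescribed irreducible characteristic polynomial; irreducible polynomials prime to their
conjugate reciprocal with prescribed constant term.
-/

set_option autoImplicit false

namespace CfsgLib.SuOre

open Polynomial Module Matrix CfsgLib.MatConj CfsgLib.Cov2 CfsgLib.Unitary

variable {K : Type*} [Field K] {ι κ δ : Type*} [Fintype ι] [DecidableEq ι] [Fintype κ]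
  [DecidableEq κ] [Fintype δ] [DecidableEq δ]

theorem exists_lower (t : Multiset (K[X] × ℕ)) (ht : ∀ y ∈ t, 0 < y.2 ∧ ∃ a ≠ 0, y.1 = X - C a) :
    ∃ (m : ℕ) (A : Matrix (Fin m) (Fin m) K), (∀ i j, i < j → A i j = 0) ∧ edM A = t := by
  induction t using Multiset.induction_on with
  | empty => exact ⟨0, 1, fun i => i.elim0, sum_eq_zero (edM_valid _) ((wt_edM _).trans rfl)⟩
  | cons y t ih =>
    obtain ⟨m, A, h1, rfl⟩ := ih fun z hz => ht z (Multiset.mem_cons_of_mem hz)
    obtain ⟨h2, a, ha, h3⟩ := ht y (Multiset.mem_cons_self _ _)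
    refine ⟨y.2 + m, reindex finSumFinEquiv finSumFinEquiv
      (fromBlocks (a • Cfsg.jordanBlock y.2 K) 0 0 A), fun i j hij => ?_, ?_⟩
    · obtain ⟨i, rfl⟩ := finSumFinEquiv.surjective i
      obtain ⟨j, rfl⟩ := finSumFinEquiv.surjective j
      rw [reindex_apply, submatrix_apply, Equiv.symm_apply_apply, Equiv.symm_apply_apply]
      rcases i with i | i <;> rcases j with j | j <;> try rfl
      · have : (i : ℕ) < j := hij
        simp [Cfsg.jordanBlock, this.ne, show ¬ (i : ℕ) = j + 1 by omega]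
      · exact h1 _ _ (Nat.lt_of_add_lt_add_left hij)
    · rw [edM_reindex, edM_fromBlocks, edM_smul _ ha, edM_jordanBlock h2, Multiset.map_singleton,
        Multiset.singleton_add]
      congr 1
      exact Prod.ext (by simpa [h3] using X_sub_C_scaleRoots (1 : K) a) rfl

theorem eq_charpoly {h : Matrix ι ι K} {f : K[X]} (hf : Irreducible f) (hm : f.Monic)
    (hd : f.natDegree = Fintype.card ι) {e : ι → K} (he : e ≠ 0) (h0 : aeval h f *ᵥ e = 0) :
    h.charpoly = f := by
  refine eq_of_monic_of_dvd_of_natDegree_le hm h.charpoly_monic ?_ (by simp [hd])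
  by_contra h1
  obtain ⟨u, v, huv⟩ := hf.coprime_iff_not_dvd.2 h1
  have := congrArg (fun g => aeval h g *ᵥ e) huv
  simp [aeval_self_charpoly, ← mulVec_mulVec, h0] at this
  exact he this.symm

/-- completion of a Hessenberg matrix by a column -/
theorem exists_complete {M : Matrix ι ι K} {lev : ι → ℕ} (hi : Function.Injective lev)
    (h1 : ∀ a b, lev a + 1 < lev b → M a b = 0) (h2 : ∀ a b, lev a + 1 = lev b → M a b ≠ 0)
    {top bot : ι} (hs : ∀ j ≤ lev top, ∃ a, lev a = j) (hb : lev bot = 0) {f : K[X]}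
    (hf : Irreducible f) (hm : f.Monic) (hd : f.natDegree = Fintype.card ι)
    (ht : lev top + 1 = Fintype.card ι) :
    ∃ w, (M + vecMulVec w (Pi.single bot 1)).charpoly = f := by
  have h3 : ∀ i a, (lev a + i < lev top → (M ^ i) a top = 0) ∧
      (lev a + i = lev top → (M ^ i) a top ≠ 0) := fun i => by
    induction i with
    | zero => exact fun a => ⟨fun h => by simp [one_apply, show a ≠ top by rintro rfl; omega],
        fun h => by simp [hi h]⟩
    | succ i ih =>
      intro a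
      have h4 : ∀ b, lev a + 1 ≠ lev b ∨ lev a + (i + 1) < lev top → lev a + (i + 1) ≤ lev top →
          M a b * (M ^ i) b top = 0 := fun b hb h => by
        rcases lt_or_ge (lev a + 1) (lev b) with h5 | h5
        · rw [h1 a b h5, zero_mul]
        · rw [(ih b).1 (by omega), mul_zero]
      rw [pow_succ', mul_apply]
      refine ⟨fun h => Finset.sum_eq_zero fun b _ => h4 b (Or.inr h) h.le, fun h => ?_⟩
      obtain ⟨b, hb⟩ := hs (lev a + 1) (by omega)
      rw [Finset.sum_eq_single b (fun c _ hc => h4 c (Or.inl fun h6 => hc (hi (by omega))) h.le)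
        (by simp)]
      exact mul_ne_zero (h2 a b hb.symm) ((ih b).2 (by omega))
  have h5 := (h3 (lev top) bot).2 (by omega)
  have h6 : ∀ w i, (M + vecMulVec w (Pi.single bot 1)) *ᵥ (M ^ i *ᵥ Pi.single top 1) =
      M ^ (i + 1) *ᵥ Pi.single top 1 + (M ^ i) bot top • w := fun w i => by
    rw [add_mulVec, mulVec_mulVec, ← pow_succ', vecMulVec_mulVec]
    simp
  have h7 : ∀ w i, i ≤ lev top → (M + vecMulVec w (Pi.single bot 1)) ^ i *ᵥ Pi.single top 1 =
      M ^ i *ᵥ Pi.single top 1 := fun w i => by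
    induction i with
    | zero => simp
    | succ i ih =>
      intro h
      rw [pow_succ', ← mulVec_mulVec, ih (by omega), h6, (h3 i bot).1 (by omega), zero_smul,
        add_zero]
  refine ⟨-((M ^ lev top) bot top)⁻¹ • (aeval M f *ᵥ Pi.single top 1),
    eq_charpoly hf hm hd (e := Pi.single top 1) (by simp) ?_⟩
  have h8 : f.coeff (lev top + 1) = 1 := by rw [ht, ← hd, hm.coeff_natDegree]
  have h9 : ∀ w, aeval (M + vecMulVec w (Pi.single bot 1)) f *ᵥ Pi.single top 1 =
      aeval M f *ᵥ Pi.single top 1 + (M ^ lev top) bot top • w := fun w => by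
    rw [aeval_eq_sum_range, aeval_eq_sum_range, hd, ← ht, Finset.sum_range_succ _ (_ + 1),
      Finset.sum_range_succ _ (_ + 1), add_mulVec, add_mulVec, h8, one_smul, one_smul, pow_succ',
      ← mulVec_mulVec, h7 w _ le_rfl, h6, ← add_assoc, sum_mulVec, sum_mulVec]
    congr 2
    exact Finset.sum_congr rfl fun i hi => by
      rw [smul_mulVec, smul_mulVec, h7 w i (by simpa [Nat.lt_succ_iff] using hi)]
  rw [h9, smul_smul, mul_neg, mul_inv_cancel₀ h5, neg_one_smul, add_neg_cancel]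

theorem charpoly_rect {A : Matrix ι ι K} {B : Matrix ι κ K} {B' : Matrix κ ι K} (h : B * B' = 1)
    (h' : B' * B = 1) : (B' * A * B).charpoly = A.charpoly := by
  rw [← cp_edM, edM_rect h h', cp_edM]

theorem exists_fact {A : Matrix κ κ K} {x : K} {L : Multiset K} (hx : x ∉ L) (hL : L ≠ 0)
    (hA : A.charpoly = ((x ::ₘ L).map fun a => X - C a).prod) (h1 : x * L.prod = 1) {f : K[X]}
    (hf : Irreducible f) (hm : f.Monic) (hX : f ≠ X) (hd : f.natDegree = Fintype.card κ) :
    ∃ h : Matrix κ κ K, h.charpoly = f ∧ (A * h).charpoly = f := by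
  classical
  have hp : ∀ a : K, Prime (X - C a : K[X]) := prime_X_sub_C
  have hc : IsCoprime (L.map fun a => X - C a).prod (X - C x) :=
    ((irreducible_X_sub_C x).coprime_iff_not_dvd.2 fun h => hx (by
      obtain ⟨_, h2, h3⟩ := (hp x).exists_mem_multiset_dvd h
      obtain ⟨a, ha, rfl⟩ := Multiset.mem_map.1 h2
      rwa [← root_X_sub_C.1 (dvd_iff_isRoot.1 h3)])).symm
  rw [Multiset.map_cons, Multiset.prod_cons] at hA
  -- the elementary divisors of `A`
  obtain ⟨t, ht, ht'⟩ : ∃ t, edM A = t + jb x 1 ∧ cp t = (L.map fun a => X - C a).prod := by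
    obtain ⟨_, h2, h3⟩ := (hp x).exists_mem_multiset_dvd
      (show X - C x ∣ cp (edM A) by rw [cp_edM, hA]; exact dvd_mul_right _ _)
    obtain ⟨⟨p, e⟩, hy, rfl⟩ := Multiset.mem_map.1 h2
    obtain ⟨h4, h5, h6⟩ := edM_valid A _ hy
    obtain rfl : X - C x = p := eq_of_monic_of_associated (monic_X_sub_C x) h5
      ((irreducible_X_sub_C x).associated_of_dvd h4 ((hp x).dvd_of_dvd_pow h3))
    obtain ⟨t, ht⟩ := Multiset.exists_cons_of_mem hy
    obtain ⟨e, rfl⟩ := Nat.exists_eq_add_of_lt h6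
    have h7 := cp_edM A
    rw [ht, hA, cp, Multiset.map_cons, Multiset.prod_cons, zero_add, pow_succ', mul_assoc,
      mul_right_inj' (hp x).ne_zero] at h7
    rcases e with _ | e
    · exact ⟨t, ht.trans (add_comm (jb x 1) t), by simpa [cp] using h7⟩
    · exact absurd (hc.isUnit_of_dvd' (h7 ▸ dvd_mul_of_dvd_left (dvd_pow_self _ (by simp)) _)
        dvd_rfl) (hp x).not_isUnit
  have h0 : ∀ a ∈ L, a ≠ 0 := by
    rintro a ha rfl
    simp [Multiset.prod_eq_zero ha] at h1
  obtain ⟨m, D, hD, rfl⟩ := exists_lower t fun y hy => by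
    obtain ⟨h2, h3, h4⟩ := edM_valid A y (by simp [ht, hy])
    obtain ⟨_, h5, h6⟩ := h2.prime.exists_mem_multiset_dvd (((dvd_pow_self _ h4.ne').trans
      (Multiset.dvd_prod (Multiset.mem_map_of_mem (fun z : K[X] × ℕ => z.1 ^ z.2) hy))).trans ht'.dvd)
    obtain ⟨a, ha, rfl⟩ := Multiset.mem_map.1 h5
    exact ⟨h4, a, h0 a ha, eq_of_monic_of_associated h3 (monic_X_sub_C a)
      (h2.associated_of_dvd (irreducible_X_sub_C a) h6)⟩
  rw [cp_edM] at ht'
  have hm0 : m = Multiset.card L := by simpa using congrArg natDegree ht'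
  have hcard : Fintype.card κ = Fintype.card (Fin m ⊕ Unit) := by
    simpa [wt_edM] using congrArg wt ht
  have hdet : D.det = L.prod := by
    rw [det_eq_of_charpoly, ht', coeff_zero_eq_eval_zero, eval_multiset_prod]
    simp [hm0, Multiset.prod_map_neg, ← mul_assoc, ← mul_pow]
  have hdiag : ∀ i, D i i ≠ 0 := fun i h => by
    have := (det_of_isLowerTriangular D fun i j hij => hD i j hij).trans
      (Finset.prod_eq_zero (Finset.mem_univ i) h)
    simp [← hdet, this] at h1
  let lev : Fin m ⊕ Unit → ℕ := Sum.elim (fun i => i) fun _ => m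
  have hi : Function.Injective lev := by
    rintro (a | a) (b | b) h <;> simp [lev] at h ⊢ <;> omega
  have hs : ∀ j ≤ lev (.inr ()), ∃ a, lev a = j := fun j hj => by
    rcases hj.lt_or_eq with h | h
    exacts [⟨.inl ⟨j, h⟩, rfl⟩, ⟨_, h.symm⟩]
  have hpos : 0 < m := by rwa [hm0, Multiset.card_pos]
  let S : Matrix (Fin m ⊕ Unit) (Fin m ⊕ Unit) K := of fun a b => if lev a + 1 = lev b then 1 else 0
  let T : Matrix (Fin m ⊕ Unit) (Fin m ⊕ Unit) K := fromBlocks D 0 0 (x • 1)
  have hT : ∀ a b, lev a < lev b → T a b = 0 := by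
    rintro (a | a) (b | b) h <;> simp [lev, T] at h ⊢
    exact hD _ _ h
  have hT' : ∀ a, T a a ≠ 0 := by
    rintro (a | a)
    · exact hdiag a
    · simpa [T] using left_ne_zero_of_mul_eq_one h1
  rw [hcard] at hd
  obtain ⟨w, hw⟩ := exists_complete (M := S) (bot := .inl ⟨0, hpos⟩) hi
    (fun a b h => if_neg h.ne) (fun a b h => by simp [S, h]) hs rfl hf hm hd (by simp [lev])
  obtain ⟨w', hw'⟩ := exists_complete (M := T * S) (bot := .inl ⟨0, hpos⟩) hi
    (fun a b h => mul_apply.trans <| Finset.sum_eq_zero fun c _ => by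
      by_cases hc : lev c + 1 = lev b
      · rw [hT a c (by omega), zero_mul]
      · simp [S, hc])
    (fun a b h => by
      rw [mul_apply, Finset.sum_eq_single a (fun c _ hc => by
        simp [S, show lev c + 1 ≠ lev b from fun h2 => hc (hi (by omega))]) (by simp)]
      simpa [S, h] using hT' a) hs rfl hf hm hd (by simp [lev])
  generalize (Pi.single (Sum.inl ⟨0, hpos⟩) 1 : Fin m ⊕ Unit → K) = φ at hw hw'
  have hS : ∀ b, S (.inr ()) b = 0 := by
    rintro (b | b)
    · exact if_neg (by simp [lev]; omega)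
    · simp [S, lev]
  have hh : (S + vecMulVec w φ).det ≠ 0 := by
    rw [det_eq_of_charpoly, hw]
    simpa using coeff_zero_ne_zero_of_ne_X hf hm hX
  have hw0 : w (.inr ()) ≠ 0 := fun h =>
    hh (det_eq_zero_of_row_eq_zero (.inr ()) fun b => by simp [hS, vecMulVec_apply, h])
  let y := (w (.inr ()))⁻¹ • (w' - T *ᵥ w)
  have h2 : (T + vecMulVec y (Pi.single (Sum.inr ()) 1)) *
      (S + vecMulVec w φ) =
      T * S + vecMulVec w' φ := by
    have : Pi.single (Sum.inr ()) (1 : K) ᵥ* S = 0 := by ext b; simp [hS]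
    rw [add_mul, mul_add, mul_add, mul_vecMulVec, vecMulVec_mul, this, vecMulVec_mul_vecMulVec,
      vecMulVec_zero, zero_add, vecMulVec_smul, ← smul_vecMulVec, add_assoc, ← add_vecMulVec]
    simp [y, smul_smul, hw0]
  have h3 : T + vecMulVec y (Pi.single (Sum.inr ()) 1) =
      fromBlocks D (of fun i _ => y (.inl i)) 0 ((x + y (.inr ())) • 1) := by
    ext (a | a) (b | b) <;> simp [T, vecMulVec_apply]
  have h4 : y (.inr ()) = 0 := by
    have h5 := congrArg det h2
    rw [det_mul, det_eq_of_charpoly (T * S + _), hw', ← hw, ← det_eq_of_charpoly, mul_left_eq_self₀,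
      h3, det_fromBlocks_zero₂₁, hdet] at h5
    have h6 : L.prod * (x + y (.inr ())) = 1 := by simpa using h5.resolve_right hh
    exact (mul_eq_zero.1 (show L.prod * y (.inr ()) = 0 by linear_combination h6 - h1)).resolve_left
      (right_ne_zero_of_mul_eq_one h1)
  rw [h4, add_zero] at h3
  obtain ⟨B, B', k1, k2, rfl⟩ := exists_rect (A := A) (A' := T + vecMulVec y (Pi.single (Sum.inr ()) 1))
    (by
      rw [h3, edM_upper, edM_scalar, ht]
      · simp
      · rw [ht', ← cp_edM, edM_scalar]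
        simpa [cp, jb] using hc)
  refine ⟨B * _ * B', (charpoly_rect k2 k1).trans hw, ?_⟩
  rw [← hw', ← h2, ← charpoly_rect k2 k1]
  simp only [Matrix.mul_assoc, hl k2, Matrix.one_mul]

variable [StarRing K]

/-- the homomorphism `x ↦ x / x^σ` onto the norm one group -/
def ph : K →* K where
  toFun x := x / star x
  map_one' := by simp
  map_mul' x y := by simp [mul_div_mul_comm]

theorem ph_apply (x : K) : ph x = x / star x := rfl

theorem ph_eq_iff {x ν : K} (hx : x ≠ 0) : ph x = ν ↔ x = ν * star x :=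
  div_eq_iff (star_ne_zero.2 hx)

theorem ph_eq_one {x : K} (hx : x ≠ 0) : ph x = 1 ↔ star x = x := by
  rw [ph_eq_iff hx, one_mul, eq_comm]

theorem ph_norm {x : K} (hx : x ≠ 0) : ph x * star (ph x) = 1 := by
  have := star_ne_zero.2 hx
  simp only [ph_apply, star_div₀, star_star]
  field_simp

theorem ph_inv (x : K) : ph x⁻¹ = (ph x)⁻¹ := by simp [ph_apply, div_eq_mul_inv, mul_comm]

theorem ph_of_norm {x : K} (hx : x * star x = 1) : ph x = x ^ 2 := by
  rw [ph_eq_iff (ne_zero_of_norm hx), sq, mul_assoc, hx, mul_one]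

/-- an irreducible polynomial of degree `k`, prime to its conjugate reciprocal -/
def Irr (k : ℕ) (ν : K) : Prop :=
  ∃ f : K[X], Irreducible f ∧ f.Monic ∧ f.natDegree = k ∧ f ≠ X ∧
    tilde (starRingEnd K) f ≠ f ∧ ph ((-1) ^ k * f.coeff 0) = ν

theorem irr_one {γ : K} (h0 : γ ≠ 0) (h : γ * star γ ≠ 1) : Irr 1 (ph γ) := by
  refine ⟨X - C γ, irreducible_X_sub_C γ, monic_X_sub_C γ, natDegree_X_sub_C γ, by simpa, ?_,
    by simp⟩
  rw [tilde_lin h0, ne_eq, sub_right_inj, C_inj]
  exact fun h1 => h (by rw [← h1, star_inv₀, star_star, h1, mul_inv_cancel₀ h0])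

theorem sep_of_irred {h : Matrix κ κ K} (h1 : Irreducible h.charpoly) (h2 : h.charpoly ≠ X)
    (h3 : tilde (starRingEnd K) h.charpoly ≠ h.charpoly) :
    Sep h ∧ edM h = {(h.charpoly, 1)} := by
  have h0 := coeff_zero_ne_zero_of_ne_X h1 h.charpoly_monic h2
  refine ⟨⟨?_, h1.coprime_iff_not_dvd.2 fun h4 => h3 (eq_of_monic_of_associated h.charpoly_monic
    (monic_tilde _ h0) (h1.associated_of_dvd
      (irreducible_tilde starRingEnd_self_apply h1 h.charpoly_monic h0) h4)).symm⟩, ?_⟩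
  · rw [isUnit_iff_isUnit_det, det_eq_of_charpoly]
    simpa using h0
  · have := h1.natDegree_pos
    rw [edM_of_irred h1 h.charpoly_monic (aeval_self_charpoly h), ← charpoly_natDegree_eq_dim h,
      Nat.div_self this, Multiset.replicate_one]

theorem exists_ph [Finite K] (hK : ∃ z : K, star z ≠ z) {ν : K} (h : ν * star ν = 1) :
    ∃ x ≠ 0, ph x = ν := by
  obtain ⟨ω, h1, h2⟩ := exists_omega hK
  obtain ⟨c, h3, h4⟩ := comm_hilbert90 (starRingEnd K) starRingEnd_self_apply h1 (Ne.isUnit h2) h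
  exact ⟨c, h3.ne_zero, (ph_eq_iff h3.ne_zero).2 h4.symm⟩

theorem St.com_irr [Finite K] (hK : ∃ z : K, star z ≠ z) {s : Multiset (K[X] × ℕ)}
    {A : Matrix κ κ K} {d : δ → K} (hS : St s A d) (h1 : dt s = 1) (h2 : A.det = 1)
    (h3 : ∀ f : K[X], Irreducible f → f.Monic → f ≠ X → f.natDegree = Fintype.card κ →
      ∃ h : Matrix κ κ K, h.charpoly = f ∧ (A * h).charpoly = f)
    (h4 : ∀ ν : K, ν * star ν = 1 → ∃ ζ : K, ζ * star ζ = 1 ∧
      Irr (Fintype.card κ) (ζ ^ SuOre.wt s * ν)⁻¹) : Com s := by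
  obtain ⟨ν, hν, -, H⟩ := hS.com hK h1 (by simp [h2])
  obtain ⟨ζ, hζ, f, f1, f2, f3, f4, f5, f6⟩ := h4 ν hν
  obtain ⟨h, rfl, h6⟩ := h3 f f1 f2 f4 f3
  obtain ⟨h7, h8⟩ := sep_of_irred f1 f4 f5
  obtain ⟨h9, h10⟩ := sep_of_irred (h := A * h) (h6 ▸ f1) (h6 ▸ f4) (h6 ▸ f5)
  refine H h h7 h9 (by rw [h8, h10, h6]) ⟨_, h8 ▸ Multiset.mem_singleton_self _, rfl⟩ ζ hζ ?_
  rw [← det_eq_of_charpoly, ph_eq_iff ((isUnit_iff_isUnit_det _).1 h7.1).ne_zero] at f6
  conv_lhs => rw [f6]
  exact mul_inv_cancel_left₀ (mul_ne_zero (pow_ne_zero _ (ne_zero_of_norm hζ))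
    (ne_zero_of_norm hν)) _

theorem irr_two [Fintype K] {q : ℕ} (hF : Fintype.card K = q ^ 2) (hs : ∀ x : K, star x = x ^ q)
    {k : ℕ} (hk : 2 ≤ k) {ν : K} (hν : ν * star ν = 1) : Irr k ν := by
  obtain ⟨p, e, hp, hc, -, hq⟩ := exists_char hF
  have := Fact.mk hp
  have : NeZero k := ⟨by omega⟩
  have hq2 := two_le_q hF
  have hσ : starRingEnd K = conj hF := RingHom.ext hs
  obtain ⟨x, hx, rfl⟩ := exists_ph ⟨_, hs _ ▸ (exists_not_fixed hF).choose_spec⟩ hν
  obtain ⟨g, hg⟩ := IsCyclic.exists_generator (α := (FiniteField.Extension K p k)ˣ)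
  have ho := orderOf_eq_card_of_forall_mem_zpowers hg
  rw [Nat.card_units, FiniteField.natCard_extension, Nat.card_eq_fintype_card, hF,
    ← orderOf_units] at ho
  obtain ⟨y, rfl⟩ := FiniteField.norm_surjective K (FiniteField.Extension K p k) x
  obtain ⟨j, hj⟩ := mem_powers_iff_mem_zpowers.2 (hg (Units.mk0 y (by rintro rfl; simp at hx)))
  obtain rfl : g.1 ^ j = y := by simpa using congrArg Units.val hj
  have h1 : ph (Algebra.norm K g.1) ^ (q + 1) = 1 := by
    rw [pow_succ', ← hs, ph_norm (Algebra.norm_ne_zero_iff.2 g.ne_zero)]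
  obtain ⟨i, hi0, hi, h2⟩ : ∃ i, 0 < i ∧ i ≤ q + 1 ∧
      ph (Algebra.norm K (g.1 ^ i)) = ph (Algebra.norm K (g.1 ^ j)) :=
    ⟨(j + q) % (q + 1) + 1, by omega, Nat.mod_lt _ (by omega), by
      simp only [map_pow]
      rw [pow_succ, ← pow_eq_pow_mod _ h1, ← pow_succ, add_assoc, pow_add, h1, mul_one]⟩
  obtain ⟨m, rfl⟩ := Nat.exists_eq_add_of_le' hk
  have h3 : ∀ t, 0 < t → (g.1 ^ i) ^ t = 1 → q ^ 2 * (q ^ 2) ^ (m + 1) ≤ (q + 1) * t + 1 :=
    fun t ht h => by
      have := Nat.le_of_dvd (mul_pos hi0 ht)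
        (orderOf_dvd_of_pow_eq_one (x := g.1) (by rwa [pow_mul]))
      have := Nat.mul_le_mul_right t hi
      rw [← pow_succ', show m + 1 + 1 = m + 2 from rfl]
      omega
  have h0 := pow_ne_zero i g.ne_zero
  rw [← h2]
  generalize g.1 ^ i = θ at *
  have hint : IsIntegral K θ := .of_finite K θ
  have f1 := minpoly.irreducible hint
  have hX : ∀ r, r ≤ m + 1 → (q ^ 2) ^ r ≤ (q ^ 2) ^ (m + 1) := fun r hr =>
    Nat.pow_le_pow_right (by positivity) hr
  have f2 : (minpoly K θ).natDegree = m + 2 := by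
    have h4 := minpoly.natDegree_le (A := K) θ
    rw [FiniteField.finrank_extension] at h4
    by_contra h5
    have h6 := (minpoly.dvd_iff.1 (f1.natDegree_dvd_iff_dvd_X_pow_card_pow_sub_X.1 dvd_rfl))
    rw [map_sub, map_pow, aeval_X, sub_eq_zero, Nat.card_eq_fintype_card, hF] at h6
    have h7 : 1 < (q ^ 2) ^ (minpoly K θ).natDegree :=
      one_lt_pow₀ (by nlinarith) f1.natDegree_pos.ne'
    have h8 := hX (minpoly K θ).natDegree (by omega)
    generalize (q ^ 2) ^ (minpoly K θ).natDegree = t at *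
    obtain ⟨t, rfl⟩ := Nat.exists_eq_add_of_le' h7.le
    have h9 := h3 t (by omega) (mul_right_cancel₀ h0 (by rw [← pow_succ, h6, one_mul]))
    have : (q + 2) * (t + 1) ≤ q ^ 2 * (q ^ 2) ^ (m + 1) := Nat.mul_le_mul (by nlinarith) h8
    nlinarith
  have f3 := minpoly.coeff_zero_ne_zero hint h0
  refine ⟨minpoly K θ, f1, minpoly.monic hint, f2, fun h => f3 (by simp [h]), fun h => ?_, ?_⟩
  · have h4 := odd_of_tilde_eq hF f1 f3 (hσ ▸ h)
    have : CharP (FiniteField.Extension K p (m + 2)) p := charP_of_injective_algebraMap' K p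
    have h5 := minpoly.aeval K θ
    rw [← h, tilde, map_mul, aeval_C, mul_eq_zero, map_eq_zero, inv_eq_zero, map_eq_zero, reverse,
      aeval_reflect (mul_inv_cancel₀ h0) le_rfl] at h5
    have h6 := congrArg (iterateFrobenius _ p e)
      ((mul_eq_zero.1 (h5.resolve_left f3)).resolve_left (pow_ne_zero _ h0))
    rw [aeval_def, eval₂_map, hom_eval₂, map_zero,
      show (iterateFrobenius _ p e).comp ((algebraMap K _).comp (starRingEnd K)) = algebraMap K _
        from RingHom.ext fun a => by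
          simp [iterateFrobenius_def, ← hq, ← map_pow, starRingEnd_apply, hs, pow_q_pow_q hF]] at h6
    obtain ⟨τ, hτ⟩ := minpoly.exists_algEquiv_of_root' hint.isAlgebraic h6
    obtain ⟨r, hr, rfl⟩ := FiniteField.Extension.exists_frob_pow_eq K p _ τ
    rw [FiniteField.Extension.frob_iterate_apply, iterateFrobenius_def, ← hq,
      Nat.card_eq_fintype_card, hF] at hτ
    have h7 := h3 ((q ^ 2) ^ r + q) (by omega)
      (by rw [pow_add, hτ, ← mul_pow, inv_mul_cancel₀ h0, one_pow])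
    have h8 := hX r (by omega)
    have h9 : (q ^ 2) ^ 2 ≤ (q ^ 2) ^ (m + 1) := Nat.pow_le_pow_right (by positivity) (by
      rw [f2] at h4
      obtain ⟨l, hl⟩ := h4
      omega)
    have : (q + 2) * (q ^ 2) ^ (m + 1) ≤ q ^ 2 * (q ^ 2) ^ (m + 1) :=
      Nat.mul_le_mul_right _ (by nlinarith)
    have h10 : 4 * q ^ 2 ≤ (q ^ 2) ^ 2 := by nlinarith
    nlinarith
  · let b := finBasisOfFinrankEq K _ (FiniteField.finrank_extension K p (m + 2))
    rw [Algebra.norm_eq_matrix_det b, det_eq_of_charpoly, eq_charpoly f1 (minpoly.monic hint)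
      (by simp [f2]) (e := Pi.single 0 1) (by simp), Fintype.card_fin]
    rw [aeval_algHom_apply, minpoly.aeval, map_zero, zero_mulVec]

end CfsgLib.SuOre
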