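import Cfsg.Agent.Lib.SuOre.Basic

/-!
The Gauss decomposition `G = P U⁻¹` with respect to a pair of opposite parabolic subgroups, and
the commutators obtained from Levi elements.
-/

set_option autoImplicit false

namespace CfsgLib.SuOre

open Polynomial Module Matrix CfsgLib.MatConj CfsgLib.Cov2

variable {K : Type*} [Field K] [StarRing K] {ι κ δ ι' κ' δ' : Type*} [Fintype ι] [DecidableEq ι]
  [Fintype κ] [DecidableEq κ] [Fintype δ] [DecidableEq δ] [Fintype ι'] [DecidableEq ι']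
  [Fintype κ'] [DecidableEq κ'] [Fintype δ'] [DecidableEq δ']

omit [StarRing K] [DecidableEq ι] [DecidableEq κ] in
theorem hl {l : Type*} {A : Matrix l ι K} {B : Matrix ι κ K} {C : Matrix l κ K} (h : A * B = C)
    {μ : Type*} (Y : Matrix κ μ K) : A * (B * Y) = C * Y := by rw [← Matrix.mul_assoc, h]

theorem Frame.form {E E' : Matrix ι κ K} {Z : Matrix ι δ K} (H : Frame E Z E') {l m : Type*}
    (Y : Matrix l ι K) (Y' : Matrix ι m K) :
    Y * Y' = Y * E * (E'ᴴ * Y') + Y * Z * (Zᴴ * Y') + Y * E' * (Eᴴ * Y') := by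
  conv_lhs => rw [← Matrix.one_mul Y', ← H.sum]
  simp only [Matrix.add_mul, Matrix.mul_add, Matrix.mul_assoc]

/-- `G W'` is opposite to `W`; `A` and `d` are the diagonal blocks of the Gauss decomposition. -/
structure Data (G : Matrix ι ι K) (A : Matrix κ κ K) (d : δ → K) (E E' : Matrix ι κ K)
    (Z Z' : Matrix ι δ K) : Prop where
  uni : Gᴴ * G = 1
  fr : Frame E Z E'
  blk : E'ᴴ * (G * E) = A
  unit : IsUnit A
  ez : Eᴴ * Z' = 0
  fz : E'ᴴ * (G * Z') = 0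
  zz : Zᴴ * Z' = 1
  dd : Zᴴ * (G * Z') = diagonal d

/-- an invertible matrix without eigenvalues `a`, `b` with `a b^σ = 1` -/
def Sep (h : Matrix κ κ K) : Prop :=
  IsUnit h ∧ IsCoprime h.charpoly (tilde (starRingEnd K) h.charpoly)

theorem coprime_diagonal {f : K[X]} (h : IsCoprime f (tilde (starRingEnd K) f)) {b : δ → K}
    (hb : ∀ j, b j * star (b j) = 1) : IsCoprime f (diagonal b).charpoly := by
  rw [charpoly_diagonal]
  refine IsCoprime.prod_right fun j _ =>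
    ((irreducible_X_sub_C _).coprime_iff_not_dvd.2 fun h1 => ?_).symm
  have h2 := tilde_dvd (starRingEnd K) h1
  rw [tilde_lin (ne_zero_of_norm (hb j)), ← eq_inv_of_mul_eq_one_left (hb j)] at h2
  exact not_isUnit_X_sub_C _ (h.isUnit_of_dvd' h1 h2)

theorem Frame.edM_levi {E E' : Matrix ι κ K} {Z : Matrix ι δ K} (H : Frame E Z E')
    {a : Matrix ι ι K} {h k : Matrix κ κ K} {b : δ → K} (h1 : a * E = E * h) (h2 : Eᴴ * a * Z = 0)
    (h3 : Zᴴ * a * Z = diagonal b) (h4 : Eᴴ * a * E' = k) (hk : k * hᴴ = 1)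
    (hb : ∀ j, b j * star (b j) = 1) (hc : IsCoprime h.charpoly k.charpoly) :
    edM a = edM h + edM k + edM (diagonal b) := by
  have hk' : h * kᴴ = 1 := by simpa using congrArg conjTranspose hk
  rw [H.edM_tri h1 h2, h3, h4, add_assoc, add_comm (edM k)] <;> simp only [h3, h4, hc]
  · exact coprime_diagonal (by rwa [← charpoly_star_inv hk]) hb
  · exact (coprime_diagonal (by rw [← charpoly_star_inv hk']; exact hc.symm) hb).symm

namespace Data

variable {G : Matrix ι ι K} {A : Matrix κ κ K} {d : δ → K} {E E' : Matrix ι κ K}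
  {Z Z' : Matrix ι δ K} (H : Data G A d E E' Z Z')
include H

theorem zz' : Z'ᴴ * Z' = 1 := by
  have h1 : Z'ᴴ * E = 0 := by simpa using congrArg conjTranspose H.ez
  have h2 : Z'ᴴ * Z = 1 := by simpa using congrArg conjTranspose H.zz
  rw [H.fr.form, h1, h2, H.ez, H.zz]
  simp

theorem norm (j : δ) : d j * star (d j) = 1 := by
  have h1 : (G * Z')ᴴ * E' = 0 := by simpa [Matrix.mul_assoc] using congrArg conjTranspose H.fz
  have h2 : (G * Z')ᴴ * Z = (diagonal d)ᴴ := by rw [← H.dd]; simp [Matrix.mul_assoc]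
  have h3 : (G * Z')ᴴ * (G * Z') = 1 := by
    rw [conjTranspose_mul, Matrix.mul_assoc, hl H.uni, Matrix.one_mul, H.zz']
  rw [H.fr.form, h1, h2, H.fz, H.dd] at h3
  simpa [mul_comm] using congrFun (congrFun h3 j) j

theorem exists_levi {A' h h' : Matrix κ κ K} (hA : A' * A = 1) (hh : h' * h = 1) {b : δ → K}
    (hb : ∀ j, b j * star (b j) = 1) :
    ∃ a : Matrix ι ι K, aᴴ * a = 1 ∧ (a * E = E * h ∧ Eᴴ * a * Z = 0 ∧ Zᴴ * a * Z = diagonal b ∧
      Eᴴ * a * E' = h'ᴴ) ∧ G * a * E' = E' * (h' * A')ᴴ ∧ E'ᴴ * (G * a) * Z = 0 ∧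
      Zᴴ * (G * a) * Z = diagonal (fun j => d j * b j) ∧ E'ᴴ * (G * a) * E = A * h := by
  have g1 := mul_eq_one_comm.1 H.uni
  have e1 : (Gᴴ * (E' * A'ᴴ))ᴴ * E = 1 := by simp [Matrix.mul_assoc, H.blk, hA]
  have e2 : (Gᴴ * (E' * A'ᴴ))ᴴ * Z' = 0 := by simp [Matrix.mul_assoc, H.fz]
  have e3 : (Gᴴ * (E' * A'ᴴ))ᴴ * (Gᴴ * (E' * A'ᴴ)) = 0 := by
    simp [Matrix.mul_assoc, hl g1, hl H.fr.ff]
  have e4 : G * (Gᴴ * (E' * A'ᴴ)) = E' * A'ᴴ := by simp [hl g1]
  generalize Gᴴ * (E' * A'ᴴ) = F at *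
  have e5 : Eᴴ * F = 1 := by simpa using congrArg conjTranspose e1
  have e6 : Z'ᴴ * F = 0 := by simpa using congrArg conjTranspose e2
  have e7 : Z'ᴴ * E = 0 := by simpa using congrArg conjTranspose H.ez
  have e8 : hᴴ * h'ᴴ = 1 := by simpa using congrArg conjTranspose hh
  have e9 : (diagonal b)ᴴ * diagonal b = 1 := by
    simp [diagonal_conjTranspose, mul_comm, hb]
  have a1 : (E * (h * E'ᴴ) + Z' * (diagonal b * Zᴴ) + F * (h'ᴴ * Eᴴ)) * E = E * h := by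
    simp [Matrix.add_mul, Matrix.mul_assoc, H.fr.fe, H.fr.ze, H.fr.ee]
  have a2 : (E * (h * E'ᴴ) + Z' * (diagonal b * Zᴴ) + F * (h'ᴴ * Eᴴ)) * Z = Z' * diagonal b := by
    simp [Matrix.add_mul, Matrix.mul_assoc, H.fr.fz, H.fr.zz, H.fr.ez]
  have a3 : (E * (h * E'ᴴ) + Z' * (diagonal b * Zᴴ) + F * (h'ᴴ * Eᴴ)) * E' = F * h'ᴴ := by
    simp [Matrix.add_mul, Matrix.mul_assoc, H.fr.ff, H.fr.zf, H.fr.ef]
  refine ⟨E * (h * E'ᴴ) + Z' * (diagonal b * Zᴴ) + F * (h'ᴴ * Eᴴ), ?_, ⟨a1, ?_, ?_, ?_⟩,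
    ?_, ?_, ?_, ?_⟩
  · rw [← H.fr.sum]
    simp only [conjTranspose_add, conjTranspose_mul, conjTranspose_conjTranspose, Matrix.add_mul,
      Matrix.mul_add, Matrix.mul_assoc, hl H.fr.ee, hl H.ez, hl e5, hl e7, hl H.zz', hl e6, hl e1,
      hl e2, hl e3, hl hh, hl e8, hl e9, Matrix.zero_mul, Matrix.mul_zero, Matrix.one_mul,
      add_zero, zero_add]
  all_goals simp only [Matrix.mul_assoc, a1, a2, a3]
  · simp [hl H.ez]
  · simp [hl H.zz]
  · simp [hl e5]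
  · simp [hl e4, Matrix.mul_assoc]
  · rw [← Matrix.mul_assoc G, hl H.fz, Matrix.zero_mul]
  · rw [← Matrix.mul_assoc G, hl H.dd, diagonal_mul_diagonal]
  · rw [← Matrix.mul_assoc G, hl H.blk]

theorem det : G.det * star A.det = A.det * ∏ j, d j := by
  obtain ⟨A', hA⟩ := H.unit.exists_left_inv
  obtain ⟨a, -, ⟨a1, a2, a3, a4⟩, b1, b2, b3, b4⟩ :=
    H.exists_levi hA (one_mul 1) (b := fun _ => 1) (by simp)
  have h1 := H.fr.det_tri a1 a2
  have h2 := H.fr.symm.det_tri b1 b2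
  have h3 := congrArg (fun M => star M.det) hA
  simp [a3, a4] at h1
  simp only [b3, b4, det_mul, h1, mul_one, one_mul, det_conjTranspose, det_diagonal, det_one,
    star_mul', star_one] at h2 h3
  linear_combination star A.det * h2 + (A.det * ∏ j, d j) * h3

theorem add {G' : Matrix ι' ι' K} {A' : Matrix κ' κ' K} {d' : δ' → K} {F F' : Matrix ι' κ' K}
    {Y Y' : Matrix ι' δ' K} (H' : Data G' A' d' F F' Y Y') :
    Data (fromBlocks G 0 0 G') (fromBlocks A 0 0 A') (Sum.elim d d') (fromBlocks E 0 0 F)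
      (fromBlocks E' 0 0 F') (fromBlocks Z 0 0 Y) (fromBlocks Z' 0 0 Y') := by
  obtain ⟨h1, ⟨h2, h3, h4, h5, h6, h7, h8⟩, h9, h10, h11, h12, h13, h14⟩ := H
  obtain ⟨k1, ⟨k2, k3, k4, k5, k6, k7, k8⟩, k9, k10, k11, k12, k13, k14⟩ := H'
  refine ⟨?_, ⟨?_, ?_, ?_, ?_, ?_, ?_, ?_⟩, ?_, isUnit_fromBlocks_zero₂₁.2 ⟨h10, k10⟩, ?_, ?_, ?_,
    ?_⟩ <;> simp [fromBlocks_conjTranspose, fromBlocks_multiply, fromBlocks_add, *]

end Data

/-- a unitary matrix of type `s` has a Gauss decomposition with diagonal blocks `A`, `d` -/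
def St (s : Multiset (K[X] × ℕ)) (A : Matrix κ κ K) (d : δ → K) : Prop :=
  ∃ (ι : Type) (_ : Fintype ι) (_ : DecidableEq ι) (G : Matrix ι ι K) (E E' : Matrix ι κ K)
    (Z Z' : Matrix ι δ K), Data G A d E E' Z Z' ∧ edM G = s

section St

variable {s t : Multiset (K[X] × ℕ)} {A : Matrix κ κ K} {d : δ → K}

theorem St.add {A' : Matrix κ' κ' K} {d' : δ' → K} (h : St s A d) (h' : St t A' d') :
    St (s + t) (fromBlocks A 0 0 A') (Sum.elim d d') := by
  obtain ⟨_, _, _, _, _, _, _, _, H, rfl⟩ := h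
  obtain ⟨_, _, _, _, _, _, _, _, H', rfl⟩ := h'
  exact ⟨_, _, _, _, _, _, _, _, H.add H', edM_fromBlocks _ _⟩

theorem St.det (h : St s A d) : dt s * star A.det = A.det * ∏ j, d j := by
  obtain ⟨_, _, _, _, _, _, _, _, H, rfl⟩ := h
  rw [dt_edM, H.det]

theorem St.wt (h : St s A d) : wt s = 2 * Fintype.card κ + Fintype.card δ := by
  obtain ⟨_, _, _, _, _, _, _, _, H, rfl⟩ := h
  rw [wt_edM, H.fr.card]

theorem St.unit (h : St s A d) : IsUnit A := by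
  obtain ⟨_, _, _, _, _, _, _, _, H, -⟩ := h
  exact H.unit

omit [DecidableEq δ] in
theorem exists_cycle {d : δ → K} (h1 : ∀ j, d j * star (d j) = 1) (h2 : ∏ j, d j = 1) :
    ∃ b : δ → K, (∀ j, b j * star (b j) = 1) ∧ ∃ π : Equiv.Perm δ, ∀ j, d j * b j = b (π j) := by
  suffices H : ∀ (m : ℕ) (d : Fin m → K), (∀ j, d j * star (d j) = 1) → ∏ j, d j = 1 →
      ∃ b : Fin m → K, (∀ j, b j * star (b j) = 1) ∧
        ∃ π : Equiv.Perm (Fin m), ∀ j, d j * b j = b (π j) by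
    let e := Fintype.equivFin δ
    obtain ⟨b, hb, π, hπ⟩ := H _ (d ∘ e.symm) (fun j => h1 _) (by rw [← h2]; exact e.symm.prod_comp d)
    exact ⟨b ∘ e, fun j => hb _, (e.trans π).trans e.symm, fun j => by simpa using hπ (e j)⟩
  intro m d h1 h2
  rcases m with _ | m
  · exact ⟨fun _ => 1, by simp, 1, fun j => j.elim0⟩
  refine ⟨fun j => ∏ i ∈ Finset.Iio j, d i, fun j => ?_, finRotate _, fun j => ?_⟩
  · rw [star_prod, ← Finset.prod_mul_distrib]
    simp [h1]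
  · rw [← Finset.prod_insert (by simp), Finset.Iio_insert]
    refine Fin.lastCases ?_ (fun j => ?_) j
    · rw [finRotate_last, ← Fin.top_eq_last, Finset.Iic_top, h2]
      simp [← bot_eq_zero]
    · congr 1
      ext i
      simp [Fin.le_def, Fin.lt_def]

variable [Finite K] (hK : ∃ z : K, star z ≠ z)
include hK

/-- The commutator attached to a Levi element. -/
theorem St.com (hS : St s A d) (h1 : dt s = 1) (h2 : star A.det = A.det) :
    ∃ ν : K, ν * star ν = 1 ∧ (Fintype.card δ = 0 → ν = 1) ∧ ∀ h : Matrix κ κ K, Sep h → Sep (A * h) →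
      edM h + til (edM h) = edM (A * h) + til (edM (A * h)) → (∃ x ∈ edM h, x.2 = 1) →
      ∀ ζ : K, ζ * star ζ = 1 → ζ ^ SuOre.wt s * ν * h.det = star h.det → Com s := by
  have h3 := hS.det
  obtain ⟨ι, _, _, G, E, E', Z, Z', H, rfl⟩ := hS
  rw [h1, h2, one_mul, eq_comm, mul_eq_left₀ ((isUnit_iff_isUnit_det _).1 H.unit).ne_zero] at h3
  obtain ⟨b, hb, π, hπ⟩ := exists_cycle H.norm h3
  refine ⟨∏ j, b j, by rw [star_prod, ← Finset.prod_mul_distrib]; simp [hb],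
    fun h => by rw [Finset.card_eq_zero.1 h, Finset.prod_empty], ?_⟩
  rintro h c1 c2 he ⟨x, hx, hx1⟩ ζ hζ hd
  obtain ⟨A', hA⟩ := H.unit.exists_left_inv
  obtain ⟨h', hh⟩ := c1.1.exists_left_inv
  obtain ⟨a, a0, ⟨a1, a2, a3, a4⟩, b1, b2, b3, b4⟩ := H.exists_levi hA hh hb
  have k1 : h'ᴴ * hᴴ = 1 := by rw [← conjTranspose_mul, mul_eq_one_comm.1 hh, conjTranspose_one]
  have k2 : h' * A' * (A * h) = 1 := by rw [mul_assoc, hl hA, one_mul, hh]
  have k3 : (h' * A')ᴴ * (A * h)ᴴ = 1 := by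
    rw [← conjTranspose_mul, mul_eq_one_comm.1 k2, conjTranspose_one]
  have e1 := H.fr.edM_levi a1 a2 a3 a4 k1 hb (by rw [charpoly_star_inv k1]; exact c1.2)
  have e2 := H.fr.symm.edM_levi b1 b2 b3 b4 (by simpa using mul_eq_one_comm.1 k2)
    (fun j => by rw [hπ]; exact hb _) (by rw [charpoly_star_inv k3]; exact c2.2.symm)
  have e3 : edM (diagonal fun j => d j * b j) = edM (diagonal b) := by
    rw [← edM_reindex π.symm (diagonal b)]
    simp [hπ, Function.comp_def]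
  rw [edM_star_inv k1] at e1
  rw [edM_star_inv k3, add_comm _ (edM (A * h)), e3] at e2
  have h0 := ne_zero_of_norm hζ
  refine Com.of hK H.uni (a := ζ • a) (by simp [smul_smul, a0, hζ]) ?_ ?_
    (x := (x.1.scaleRoots ζ, x.2)) ?_ hx1
  · rw [mul_smul_comm, edM_smul _ h0, edM_smul _ h0, e1, e2]
    exact congrArg (fun u => Multiset.map _ (u + _)) he.symm
  · have k4 := congrArg (fun M => star M.det) hh
    simp only [det_mul, det_one, star_mul', star_one] at k4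
    rw [det_smul, H.fr.det_tri a1 a2, a3, a4, det_diagonal, det_conjTranspose, ← wt_edM G]
    linear_combination star h'.det * hd + k4
  · rw [edM_smul _ h0, e1]
    exact Multiset.mem_map_of_mem _ (by simp [hx])

theorem St.of {ι : Type} [Fintype ι] [DecidableEq ι] {G : Matrix ι ι K} (hG : Gᴴ * G = 1)
    {E E' : Matrix ι κ K} (h1 : Eᴴ * E = 0) (h2 : E'ᴴ * E' = 0) (h3 : E'ᴴ * E = 1)
    (h4 : IsUnit (E'ᴴ * (G * E))) {r : ℕ} (hr : r ≤ 1)
    (hc : Fintype.card ι = 2 * Fintype.card κ + r) :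
    ∃ d : Fin r → K, St (edM G) (E'ᴴ * (G * E)) d := by
  have g1 := mul_eq_one_comm.1 hG
  obtain ⟨A', hA⟩ := h4.exists_left_inv
  obtain ⟨Z, hZ⟩ := exists_frame (δ := Fin r) hK h1 h2 h3 (by simpa using hc)
  obtain ⟨Y, hY⟩ := exists_frame (δ := Fin r) (E' := Gᴴ * (E' * A'ᴴ)) hK h1
    (by simp [Matrix.mul_assoc, hl g1, hl h2]) (by simpa [Matrix.mul_assoc] using hA)
    (by simpa using hc)
  have e1 : E'ᴴ * (G * Y) = 0 := by
    have := hY.fz
    simp only [conjTranspose_mul, conjTranspose_conjTranspose, Matrix.mul_assoc] at this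
    rw [← Matrix.one_mul (E'ᴴ * (G * Y)), ← mul_eq_one_comm.1 hA, Matrix.mul_assoc, this,
      Matrix.mul_zero]
  have e2 : (Zᴴ * Y)ᴴ * (Zᴴ * Y) = 1 := by
    rw [← hY.zz, hZ.form Yᴴ, hY.ze, hY.ez]
    simp
  have : Subsingleton (Fin r) := Fin.subsingleton_iff_le_one.2 hr
  refine ⟨fun j => (Zᴴ * (G * (Y * (Zᴴ * Y)ᴴ))) j j, ι, _, _, G, E, E', Z, Y * (Zᴴ * Y)ᴴ,
    ⟨hG, hZ, rfl, h4, by simp [hl hY.ez], ?_, ?_, ?_⟩, rfl⟩
  · rw [← Matrix.mul_assoc G, hl e1, Matrix.zero_mul]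
  · rw [← Matrix.mul_assoc, mul_eq_one_comm.1 e2]
  · ext i j
    rw [Subsingleton.elim j i, diagonal_apply_eq]

/-- the same for an arbitrary Gram matrix -/
theorem St.ofGram {ι : Type} [Fintype ι] [DecidableEq ι] {J G : Matrix ι ι K} (hJ : Jᴴ = J)
    (hJ' : J * J = 1) (hG : Gᴴ * (J * G) = J) {E E' : Matrix ι κ K} (h1 : Eᴴ * (J * E) = 0)
    (h2 : E'ᴴ * (J * E') = 0) (h3 : E'ᴴ * (J * E) = 1) (h4 : E'ᴴ * (J * (G * E)) = A)
    (h5 : IsUnit A) (hc : Fintype.card ι = 2 * Fintype.card κ) :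
    ∃ d : Fin 0 → K, St (edM G) A d := by
  obtain ⟨c, c', k1, k2, -⟩ := exists_sqrt hK hJ (IsUnit.of_mul_eq_one _ hJ')
  have k3 := mul_eq_one_comm.1 k1
  have k4 : (c * E')ᴴ * (c * G * c' * (c * E)) = A := by
    simp [Matrix.mul_assoc, hl k2, hl k3, h4]
  rw [← k4, ← edM_rect (A := G) k3 k1]
  refine St.of hK ?_ ?_ ?_ ?_ (k4 ▸ h5) zero_le_one hc <;>
    simp only [conjTranspose_mul, Matrix.mul_assoc, hl k2, h1, h2, h3]
  rw [← Matrix.mul_assoc J, hl hG, ← k2, Matrix.mul_assoc, k1, mul_one, ← conjTranspose_mul, k1,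
    conjTranspose_one]

end St

end CfsgLib.SuOre
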