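import Cfsg.Agent.Lib.SuOre.Piece

/-!
Ore's property for the special unitary groups: the combinatorics of the pieces.
-/

set_option autoImplicit false

namespace CfsgLib.SuOre

open Polynomial Module Matrix CfsgLib.MatConj CfsgLib.Cov2 CfsgLib.Unitary

variable {K : Type*} [Field K]

/-- a diagonal part -/
noncomputable def ones (O : Multiset K) : Multiset (K[X] × ℕ) := (O.map fun a => jb a 1).sum

@[simp] theorem ones_zero : ones (0 : Multiset K) = 0 := rfl

@[simp] theorem ones_cons (a : K) (O : Multiset K) : ones (a ::ₘ O) = jb a 1 + ones O := by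
  simp [ones]

theorem ones_replicate (n : ℕ) (a : K) : ones (Multiset.replicate n a) = n • jb a 1 := by
  simp [ones]

@[simp] theorem wt_ones (O : Multiset K) : wt (ones O) = Multiset.card O := by
  induction O using Multiset.induction_on with
  | empty => rfl
  | cons a O ih => simp [ih, add_comm]

variable [StarRing K] {s t u : Multiset (K[X] × ℕ)} {ε δ δ' : K}

/-- a list with product in the class `δ` avoiding any class other than `ε` -/
def Av (t : Multiset (K[X] × ℕ)) (ε δ : K) : Prop :=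
  ∀ x ≠ ε, ∃ L : Multiset K, 0 ∉ L ∧ x ∉ L.map ph ∧ ph L.prod = δ ∧ StL t L

/-- lists with any product in the class `δ` containing once a class other than `ε` -/
def Mn (t : Multiset (K[X] × ℕ)) (ε δ : K) : Prop :=
  ∃ x ≠ ε, ∀ p ≠ 0, ph p = δ → ∃ (y : K) (L : Multiset K), ph y = x ∧ x ∉ L.map ph ∧ L ≠ 0 ∧
    y * L.prod = p ∧ StL t (y ::ₘ L)

theorem Av.add (h : Av t ε δ) (h' : Av u ε δ') : Av (t + u) ε (δ * δ') := fun x hx => by
  obtain ⟨L, h1, h2, rfl, h4⟩ := h x hx
  obtain ⟨M, k1, k2, rfl, k4⟩ := h' x hx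
  exact ⟨L + M, by simp [h1, k1], by rw [Multiset.map_add, Multiset.mem_add]; tauto, by simp,
    h4.add k4⟩

theorem StL.av (h : StL t 0) : Av t ε 1 := fun _ _ => ⟨0, by simp, by simp, by simp, h⟩

theorem Mn.add (h : Mn t ε δ) (h' : Av u ε δ') : Mn (t + u) ε (δ * δ') := by
  obtain ⟨x, hx, h⟩ := h
  obtain ⟨M, k1, k2, rfl, k4⟩ := h' x hx
  have k5 := Multiset.prod_ne_zero k1
  refine ⟨x, hx, fun p hp h1 => ?_⟩
  obtain ⟨y, L, h2, h3, h4, h5, h6⟩ := h (p * M.prod⁻¹) (by simp [hp, k1])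
    (by rw [map_mul, h1, ph_inv, mul_inv_cancel_right₀ (ne_zero_of_norm (ph_norm k5))])
  exact ⟨y, L + M, h2, by rw [Multiset.map_add, Multiset.mem_add]; tauto, by simp [h4],
    by rw [Multiset.prod_add, ← mul_assoc, h5, inv_mul_cancel_right₀ k5],
    by simpa using h6.add k4⟩

theorem Pr.cons {y : K} (h : Pr t 1 y) (hy : y ≠ ε) {L : Multiset K} (h1 : 0 ∉ L)
    (h2 : y ∉ L.map ph) (h3 : L ≠ 0) (h4 : StL u L) : Mn (t + u) ε (y * ph L.prod) := by
  have k5 := Multiset.prod_ne_zero h1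
  refine ⟨y, hy, fun p hp h5 => ?_⟩
  have h6 : ph (p * L.prod⁻¹) = y := by
    rw [map_mul, h5, ph_inv, mul_inv_cancel_right₀ (ne_zero_of_norm (ph_norm k5))]
  exact ⟨_, L, h6, h2, h3, inv_mul_cancel_right₀ k5 _, by
    simpa using (h {p * L.prod⁻¹} rfl (by simp [eq_comm, hp, h1]) (by simpa using h6)).add h4⟩

theorem Pr.single (h : Pr t 1 ε) {l : K} (h0 : l ≠ 0) (hl : ph l = ε) : StL t {l} :=
  h _ rfl (by simpa using h0.symm) (by simpa)

open scoped _root_.Classical in
/-- the indecomposable pieces -/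
noncomputable def atom (x : K[X] × ℕ) : Multiset (K[X] × ℕ) :=
  if tilde (starRingEnd K) x.1 = x.1 then {x} else {x, (tilde (starRingEnd K) x.1, x.2)}

theorem nodup_atom (x : K[X] × ℕ) : ((atom x).map Prod.fst).Nodup := by
  unfold atom
  split_ifs with h
  · simp
  · simpa using Ne.symm h

theorem mem_atom (x : K[X] × ℕ) : x ∈ atom x := by
  unfold atom
  split_ifs <;> simp

theorem Ok.coeff (hs : Ok s) {x : K[X] × ℕ} (hx : x ∈ s) : x.1.coeff 0 ≠ 0 :=
  coeff_zero_ne_zero_of_ne_X (hs.valid x hx).1 (hs.valid x hx).2.1 (hs.ne x hx)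

theorem Ok.split (hs : Ok s) {x : K[X] × ℕ} (hx : x ∈ s) :
    ∃ t, s = atom x + t ∧ Ok (atom x) ∧ Ok t := by
  obtain ⟨t, ht, h1⟩ : ∃ t, s = atom x + t ∧ SuOre.til (atom x) = atom x := by
    obtain ⟨t, rfl⟩ := Multiset.exists_cons_of_mem hx
    unfold atom
    split_ifs with h
    · exact ⟨t, rfl, by simp [SuOre.til, h]⟩
    · have h1 : (tilde (starRingEnd K) x.1, x.2) ∈ x ::ₘ t := hs.til ▸ Multiset.mem_map_of_mem _ hx
      obtain ⟨u, rfl⟩ := Multiset.exists_cons_of_mem
        ((Multiset.mem_cons.1 h1).resolve_left fun h2 => h (congrArg Prod.fst h2))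
      refine ⟨u, by simp, ?_⟩
      simp only [SuOre.til, Multiset.insert_eq_cons, Multiset.map_cons, Multiset.map_singleton,
        tilde_tilde starRingEnd_self_apply (hs.valid x hx).2.1 (hs.coeff hx)]
      exact Multiset.pair_comm _ _
  subst ht
  have h2 := hs.til
  rw [til_add, h1, add_right_inj] at h2
  exact ⟨t, rfl, ⟨fun y hy => hs.valid y (by simp [hy]), fun y hy => hs.ne y (by simp [hy]), h1⟩,
    fun y hy => hs.valid y (by simp [hy]), fun y hy => hs.ne y (by simp [hy]), h2⟩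

open scoped _root_.Classical in
theorem wt_atom {x : K[X] × ℕ} (h : Ok (atom x)) : wt (atom x) =
    (if tilde (starRingEnd K) x.1 = x.1 then 1 else 2 : ℕ) * (x.1.natDegree * x.2) := by
  have := h.coeff (mem_atom x)
  unfold atom
  split_ifs <;> simp [wt, natDegree_tilde _ this, two_mul]

theorem atom_of_odd {x : K[X] × ℕ} (h : Ok (atom x)) (h1 : wt (atom x) % 2 = 1) : atom x = {x} := by
  rw [wt_atom h] at h1
  refine if_pos (by_contra fun h2 => ?_)
  rw [if_neg h2] at h1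
  omega

theorem Ok.lin {x : K[X] × ℕ} (h : Ok {x}) (h1 : x.1.natDegree = 1) :
    ∃ a, a * star a = 1 ∧ {x} = jb a x.2 := by
  have h2 := (h.valid x (by simp)).2.1.eq_X_add_C h1
  have h3 := neg_ne_zero.2 (h.coeff (Multiset.mem_singleton_self x))
  have h4 : tilde (starRingEnd K) x.1 = x.1 :=
    congrArg Prod.fst (Multiset.singleton_inj.1 h.til)
  rw [← sub_neg_eq_add, ← C_neg] at h2
  generalize -x.1.coeff 0 = a at *
  rw [h2, tilde_lin h3, sub_right_inj, C_inj] at h4
  exact ⟨a, by rw [← h4, star_inv₀, star_star, h4, mul_inv_cancel₀ h3], by rw [jb, ← h2]⟩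

theorem nodup_atom_add {x y : K[X] × ℕ} (hx : Ok (atom x)) (hy : Ok (atom y))
    (h : wt (atom x) = wt (atom y)) (hne : atom x ≠ atom y) :
    ((atom x + atom y).map Prod.fst).Nodup := by
  rw [Multiset.map_add, Multiset.nodup_add]
  refine ⟨nodup_atom x, nodup_atom y, Multiset.disjoint_left.2 fun {p} h1 h2 => hne ?_⟩
  have key : ∀ x : K[X] × ℕ, Ok (atom x) → ∀ z ∈ atom x, atom z = atom x := fun x hx z hz => by
    have h3 := tilde_tilde starRingEnd_self_apply (hx.valid x (mem_atom x)).2.1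
      (hx.coeff (mem_atom x))
    by_cases h4 : tilde (starRingEnd K) x.1 = x.1
    · rw [atom, if_pos h4, Multiset.mem_singleton] at hz
      rw [hz]
    · rw [atom, if_neg h4, Multiset.insert_eq_cons, Multiset.mem_cons, Multiset.mem_singleton] at hz
      rcases hz with rfl | rfl
      · rfl
      · rw [atom, atom, if_neg h4, h3, if_neg (Ne.symm h4), Multiset.pair_comm]
  obtain ⟨⟨_, e⟩, h3, rfl⟩ := Multiset.mem_map.1 h1
  obtain ⟨⟨p, e'⟩, h4, rfl⟩ := Multiset.mem_map.1 h2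
  have k1 := key x hx _ h3
  have k2 := key y hy _ h4
  rw [← k1] at h hx ⊢
  rw [← k2] at h hy ⊢
  have h5 := (hx.valid _ (mem_atom _)).1.natDegree_pos
  rw [wt_atom hx, wt_atom hy, mul_right_inj' (by split_ifs <;> simp), mul_right_inj' h5.ne'] at h
  rw [show e = e' from h]

theorem fixed_of_sq {l : K} (h : l ^ 2 = 1) : star l = l := by
  rcases sq_eq_one_iff.1 h with rfl | rfl <;> simp

/-- the fixed field has three elements -/
theorem norm_cases (h2 : (2 : K) ≠ 0) (h : ∀ t : K, star t = t → t = 0 ∨ t ^ 2 = 1) {a : K}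
    (ha : a * star a = 1) : a = 1 ∨ a = -1 ∨ a ^ 2 = -1 := by
  have h3 : (3 : K) = 0 := by linear_combination (h 2 (by simp)).resolve_left h2
  rcases h (a + star a) (by simp [add_comm]) with h4 | h4
  · exact .inr (.inr (by linear_combination a * h4 - ha))
  · rcases sq_eq_one_iff.1 h4 with h5 | h5
    · exact .inr (.inl (eq_neg_of_add_eq_zero_left (pow_eq_zero_iff two_ne_zero |>.1
        (by linear_combination a * h5 - ha + a * h3))))
    · exact .inl (sub_eq_zero.1 (pow_eq_zero_iff two_ne_zero |>.1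
        (by linear_combination a * h5 - ha - a * h3)))

variable [Fintype K] {q : ℕ} (hF : Fintype.card K = q ^ 2) (hs : ∀ x : K, star x = x ^ q)
include hF hs

theorem exists_three {μ : K} (h0 : μ ≠ 0) (h : star μ = μ) : ∃ a b c : K, a ≠ b ∧ a ≠ c ∧ b ≠ c ∧
    a * star a = μ ∧ b * star b = μ ∧ c * star c = μ := by
  simpa only [hs, pow_succ'] using exists_three_norm_eq hF h0 (hs μ ▸ h)

theorem exists_not_fixed_norm {μ : K} (h0 : μ ≠ 0) (h : star μ = μ) :
    ∃ r : K, r * star r = μ ∧ star r ≠ r := by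
  obtain ⟨a, b, c, h1, h2, h3, h4, h5, h6⟩ := exists_three hF hs h0 h
  by_contra! h7
  rw [h7 _ h4] at h4
  rw [h7 _ h5] at h5
  rw [h7 _ h6] at h6
  exact h3 (by rw [(mul_self_eq_mul_self_iff.1 (h5.trans h4.symm)).resolve_left h1.symm,
    (mul_self_eq_mul_self_iff.1 (h6.trans h4.symm)).resolve_left h2.symm])

theorem exists_ph_ne (a b : K) : ∃ y ≠ 0, ph y ≠ a ∧ ph y ≠ b := by
  obtain ⟨c, d, e, h1, h2, h3, h4, h5, h6⟩ := exists_three hF hs one_ne_zero (star_one K)
  obtain ⟨c, hc, rfl⟩ := exists_ph (exists_ne hF hs) h4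
  obtain ⟨d, hd, rfl⟩ := exists_ph (exists_ne hF hs) h5
  obtain ⟨e, he, rfl⟩ := exists_ph (exists_ne hF hs) h6
  by_contra! h
  by_cases k1 : ph c = a
  · exact h3 ((h d hd fun k => h1 (k1.trans k.symm)).trans
      (h e he fun k => h2 (k1.trans k.symm)).symm)
  · by_cases k2 : ph d = a
    · exact h2 ((h c hc k1).trans (h e he fun k => h3 (k2.trans k.symm)).symm)
    · exact h1 ((h c hc k1).trans (h d hd k2).symm)

theorem exists_ph_sq_ne (a b : K) : ∃ y ≠ 0, ph y ≠ a ∧ ph y ^ 2 ≠ b := by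
  obtain ⟨c, d, e, h1, h2, h3, h4, h5, h6⟩ := exists_three hF hs one_ne_zero (star_one K)
  by_contra! h
  have h7 : ∀ z : K, z * star z = 1 → z ≠ a → z ^ 2 = b := fun z hz => by
    obtain ⟨y, hy, rfl⟩ := exists_ph (exists_ne hF hs) hz
    exact h y hy
  by_cases h8 : (2 : K) = 0
  · have h9 : ∀ z w : K, z ^ 2 = b → w ^ 2 = b → z = w := fun z w hz hw =>
      sub_eq_zero.1 (pow_eq_zero_iff two_ne_zero |>.1
        (by linear_combination hz - hw + (w ^ 2 - z * w) * h8))
    by_cases k1 : c = a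
    · exact h3 (h9 _ _ (h7 d h5 fun k => h1 (k1.trans k.symm))
        (h7 e h6 fun k => h2 (k1.trans k.symm)))
    · by_cases k2 : d = a
      · exact h2 (h9 _ _ (h7 c h4 k1) (h7 e h6 fun k => h3 (k2.trans k.symm)))
      · exact h1 (h9 _ _ (h7 c h4 k1) (h7 d h5 k2))
  · have h9 : ∀ z : K, z * star z = 1 → z * z = b := fun z hz => by
      by_cases h10 : z = a
      · simpa [sq] using h7 (-z) (by simpa) fun h11 => mul_ne_zero h8 (ne_zero_of_norm hz)
          (by linear_combination h10 - h11)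
      · simpa [sq] using h7 z hz h10
    exact h3 (by
      rw [(mul_self_eq_mul_self_iff.1 ((h9 d h5).trans (h9 c h4).symm)).resolve_left h1.symm,
        (mul_self_eq_mul_self_iff.1 ((h9 e h6).trans (h9 c h4).symm)).resolve_left h2.symm])

theorem exists_avoid (x : K) (m : ℕ) : ∀ p : K, p ≠ 0 → ∃ L : Multiset K,
    Multiset.card L = m + 2 ∧ 0 ∉ L ∧ x ∉ L.map ph ∧ L.prod = p := by
  induction m with
  | zero =>
    intro p hp
    obtain ⟨y, hy, h1, h2⟩ := exists_ph_ne hF hs x (ph p * x⁻¹)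
    refine ⟨{y, p * y⁻¹}, rfl, by simp [eq_comm, hy, hp], ?_, by simp [mul_left_comm, hy]⟩
    have := ne_zero_of_norm (ph_norm hy)
    simp only [Multiset.insert_eq_cons, Multiset.map_cons, Multiset.map_singleton, map_mul, ph_inv,
      Multiset.mem_cons, Multiset.mem_singleton, not_or]
    refine ⟨h1.symm, fun h => h2 ?_⟩
    have := ne_zero_of_norm (ph_norm hp)
    rw [h]
    field_simp
  | succ m ih =>
    intro p hp
    obtain ⟨y, hy, h1, -⟩ := exists_ph_ne hF hs x x
    obtain ⟨L, h2, h3, h4, h5⟩ := ih (y⁻¹ * p) (by simp [hy, hp])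
    exact ⟨y ::ₘ L, by simp [h2], by simp [hy.symm, h3],
      by rw [Multiset.map_cons, Multiset.mem_cons]; tauto, by simp [h5, hy]⟩

theorem Pr.av {m : ℕ} (h : Pr t m δ) (hm : 2 ≤ m) (hδ : δ * star δ = 1) : Av t ε δ := fun x _ => by
  obtain ⟨m, rfl⟩ := Nat.exists_eq_add_of_le' hm
  obtain ⟨p, hp, rfl⟩ := exists_ph (exists_ne hF hs) hδ
  obtain ⟨L, h1, h2, h3, rfl⟩ := exists_avoid hF hs x m p hp
  exact ⟨L, h2, h3, rfl, h L h1 h2 rfl⟩

theorem Pr.av_one (h : Pr t 1 ε) (hε : ε * star ε = 1) (r : ℕ) : Av (r • t) ε (ε ^ r) := by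
  induction r with
  | zero => simpa using (stL_zero (exists_ne hF hs)).av
  | succ r ih =>
    rw [succ_nsmul, pow_succ]
    obtain ⟨p, hp, rfl⟩ := exists_ph (exists_ne hF hs) hε
    exact ih.add fun x hx => ⟨{p}, by simpa using hp.symm, by simpa, by simp, h.single hp rfl⟩

theorem stL_ones {O : Multiset K} (h : ∀ a ∈ O, a * star a = 1) : StL (ones O) 0 := by
  induction O using Multiset.induction_on with
  | empty => exact stL_zero (exists_ne hF hs)
  | cons a O ih =>
    simpa using (stL_one (exists_ne hF hs) (h a (by simp))).add (ih fun b hb => h b (by simp [hb]))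

theorem Pr.mn {m : ℕ} (h : Pr t m δ) (hm : 2 ≤ m) : Mn t ε δ := by
  obtain ⟨y, hy, h1, h2⟩ := exists_ph_sq_ne hF hs ε δ
  refine ⟨_, h1, fun p hp h3 => ?_⟩
  obtain ⟨L, h4, h5, h6, h7⟩ : ∃ L : Multiset K,
      Multiset.card L + 1 = m ∧ 0 ∉ L ∧ ph y ∉ L.map ph ∧ L.prod = y⁻¹ * p := by
    rcases hm.eq_or_lt with rfl | hm
    · refine ⟨{y⁻¹ * p}, rfl, by simp [eq_comm, hy, hp], fun h4 => h2 ?_, by simp⟩
      rw [Multiset.map_singleton, Multiset.mem_singleton, map_mul, ph_inv, h3] at h4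
      rw [sq]
      nth_rw 2 [h4]
      exact mul_inv_cancel_left₀ (ne_zero_of_norm (ph_norm hy)) _
    · obtain ⟨m, rfl⟩ := Nat.exists_eq_add_of_lt hm
      obtain ⟨L, h4, h5⟩ := exists_avoid hF hs (ph y) m (y⁻¹ * p) (by simp [hy, hp])
      exact ⟨L, by omega, h5⟩
  have h8 : y * L.prod = p := by rw [h7, mul_inv_cancel_left₀ hy]
  exact ⟨y, L, rfl, h6, by rintro rfl; simp at h4; omega, h8,
    h _ (by simp [h4]) (by simp [hy.symm, h5]) (by simp only [Multiset.prod_cons, h8, h3])⟩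

theorem Mn.com (h : Mn t ε 1) (h1 : dt t = 1) : Com t := by
  obtain ⟨x, -, h⟩ := h
  obtain ⟨y, L, rfl, h2, h3, h4, h5⟩ := h 1 one_ne_zero (map_one _)
  exact h5.com hF hs h1 (fun h => h2 (Multiset.mem_map_of_mem _ h)) h3 h4

theorem com_free (h : ∀ δ, δ * star δ = 1 → Mn t ε δ) (h' : Av u ε δ) (h1 : dt (t + u) = 1) :
    Com (t + u) := by
  obtain ⟨x, hx⟩ := _root_.exists_ne ε
  obtain ⟨L, h2, -, rfl, -⟩ := h' x hx
  have h3 := ph_norm (Multiset.prod_ne_zero h2)
  exact (inv_mul_cancel₀ (ne_zero_of_norm h3) ▸ (h _ (inv_norm h3)).add h').com hF hs h1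

theorem Fr.mn (h : Fr t 1) {m : ℕ} (h' : Pr u m δ') (hm : 2 ≤ m) (h1 : δ' * star δ' = 1)
    (h2 : δ * star δ = 1) : Mn (t + u) ε δ := by
  obtain ⟨y, rfl⟩ : ∃ y, y * δ' = δ := ⟨_, inv_mul_cancel_right₀ (ne_zero_of_norm h1) δ⟩
  by_cases hy : y = ε
  · subst hy
    have := (h'.mn hF hs hm).add ((h.pr y).av_one hF hs
      (by rwa [star_mul', mul_mul_mul_comm, h1, mul_one] at h2) 1)
    rwa [one_smul, pow_one, add_comm, mul_comm] at this
  · obtain ⟨m, rfl⟩ := Nat.exists_eq_add_of_le' hm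
    obtain ⟨p, hp, rfl⟩ := exists_ph (exists_ne hF hs) h1
    obtain ⟨L, h3, h4, h5, rfl⟩ := exists_avoid hF hs y m p hp
    exact (h.pr y).cons hy h4 h5 (by rintro rfl; simp at h3) (h' L h3 h4 rfl)

theorem Pr.stL (h : Pr t 1 ε) (L : Multiset K) (h0 : 0 ∉ L) (hL : ∀ l ∈ L, ph l = ε) :
    StL (Multiset.card L • t) L := by
  induction L using Multiset.induction_on with
  | empty => simpa using stL_zero (exists_ne hF hs)
  | cons l L ih =>
    rw [Multiset.mem_cons, not_or] at h0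
    simpa [succ_nsmul'] using (h.single (Ne.symm h0.1) (hL l (by simp))).add
      (ih h0.2 fun a ha => hL a (by simp [ha]))

theorem com_list (h : Pr t 1 ε) (h' : Pr u 1 ε) {x : K} {L : Multiset K} (hx : ph x = ε)
    (hL : ∀ l ∈ L, ph l = ε) (h1 : x ∉ L) (h2 : L ≠ 0) (h3 : x * L.prod = 1)
    (h4 : dt (t + Multiset.card L • u) = 1) : Com (t + Multiset.card L • u) :=
  StL.com hF hs (by
    simpa using (h.single (left_ne_zero_of_mul_eq_one h3) hx).add (h'.stL hF hs L
      (fun h0 => by simp [Multiset.prod_eq_zero h0] at h3) hL)) h4 h1 h2 h3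

/-- all pieces are of rank one and of the same class -/
theorem com_hom (h : Pr t 1 ε) (h' : Pr u 1 ε) (h1 : dt t = ε) (h2 : dt u = ε)
    (hε : ε * star ε = 1) {r : ℕ} (hr : 0 < r) (h3 : ε ^ (r + 1) = 1)
    (h4 : (∀ t : K, star t = t → t = 0 ∨ t = 1) → ∃ a, a * star a = 1 ∧ u = jb a 2) :
    Com (t + r • u) := by
  have hK := exists_ne hF hs
  have h5 : dt (t + r • u) = 1 := by rw [dt_add, dt_nsmul, h1, h2, ← pow_succ', h3]
  by_cases h6 : ε = 1
  · subst h6
    have h7 : ∀ r, StI (r • u) r := fun r => by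
      induction r with
      | zero => simpa using (stL_zero hK).stI_zero
      | succ r ih => exact succ_nsmul u r ▸ ih.add (h'.single one_ne_zero (map_one _)).stI_one
    exact ((h.single one_ne_zero (map_one _)).stI_one.add (h7 r)).com hF hs h5 (by omega)
  obtain ⟨l, h0, rfl⟩ := exists_ph hK hε
  by_cases h7 : ∃ t : K, star t = t ∧ t ≠ 0 ∧ t ^ 2 ≠ 1
  · obtain ⟨z, z1, z0, z2⟩ := h7
    have z3 := (ph_eq_one z0).2 z1
    rcases (by omega : r = 1 ∨ 2 ≤ r) with rfl | hr
    · obtain ⟨x, x0, x1, x2⟩ : ∃ x ≠ 0, ph x = ph l ∧ x ^ 2 ≠ 1 := by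
        by_cases h8 : l ^ 2 = 1
        · exact ⟨l * z, mul_ne_zero h0 z0, by simp [z3], by rwa [mul_pow, h8, one_mul]⟩
        · exact ⟨l, h0, rfl, h8⟩
      exact com_list hF hs h h' (L := {x⁻¹}) x1
        (by simpa [ph_inv, x1] using (eq_inv_of_mul_eq_one_left (by simpa [sq] using h3)).symm)
        (fun h8 => x2 (by rw [sq]; nth_rw 2 [Multiset.mem_singleton.1 h8]; simp [x0])) (by simp)
        (by simp [x0]) h5
    obtain ⟨r, rfl⟩ := Nat.exists_eq_add_of_le' hr
    obtain ⟨y, y0, y1, y2, y3⟩ : ∃ y ≠ 0, ph y = 1 ∧ y ≠ 1 ∧ y * (l ^ (r + 3) * z ^ r) ≠ 1 := by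
      have z4 : z ≠ 1 := by rintro rfl; simp at z2
      by_cases h8 : z * (l ^ (r + 3) * z ^ r) = 1
      · exact ⟨z⁻¹, inv_ne_zero z0, by simp [ph_inv, z3], by simpa, fun h9 => z2 (by
          field_simp at h9
          rw [h9] at h8
          rwa [sq])⟩
      · exact ⟨z, z0, z3, z4, h8⟩
    have := com_list hF hs h h' (x := l) (L := l * y ::ₘ l * (y * (l ^ (r + 3) * z ^ r))⁻¹ ::ₘ
      Multiset.replicate r (l * z)) rfl (by
        simp only [Multiset.mem_cons, Multiset.mem_replicate]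
        rintro _ (rfl | rfl | ⟨-, rfl⟩) <;> simp [ph_inv, y1, z3, h3]) (by
        simp only [Multiset.mem_cons, Multiset.mem_replicate, left_eq_mul₀ h0, inv_eq_one]
        rintro (h8 | h8 | ⟨-, rfl⟩) <;> simp_all) (by simp) (by
        simp only [Multiset.prod_cons, Multiset.prod_replicate]
        field_simp
        ring) (by simpa using h5)
    simpa using this
  push Not at h7
  replace h7 : ∀ t : K, star t = t → t = 0 ∨ t ^ 2 = 1 := fun t ht => or_iff_not_imp_left.2 (h7 t ht)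
  by_cases h8 : (2 : K) = 0
  · have h9 : ∀ z : K, z ^ 2 = 1 → z = 1 := fun z hz =>
      sub_eq_zero.1 (pow_eq_zero_iff two_ne_zero |>.1 (by linear_combination hz + (1 - z) * h8))
    obtain ⟨a, ha, rfl⟩ := h4 fun t ht => (h7 t ht).imp_right (h9 t)
    obtain ⟨z, z1, z2⟩ := exists_not_fixed_norm hF hs one_ne_zero (star_one K)
    have a0 := ne_zero_of_norm ha
    have a1 : ph a = ph l := by rw [ph_of_norm ha, ← h2, dt_jb]
    obtain ⟨r, rfl⟩ := Nat.exists_eq_add_of_le' (show 2 ≤ r by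
      by_contra h10
      obtain rfl : r = 1 := by omega
      exact h6 (h9 _ h3))
    have := ((stL_two_two hK ha (ne_zero_of_norm z1)).add (h.single a0 a1)).add
      (h'.stL hF hs (Multiset.replicate r a) (by simp [Multiset.mem_replicate, a0.symm])
        fun b hb => by rw [Multiset.eq_of_mem_replicate hb, a1])
    rw [Multiset.card_replicate, show jb a 2 + jb a 2 + t + r • jb a 2 = t + (r + 2) • jb a 2 by
      rw [add_nsmul, two_nsmul]; abel] at this
    refine StL.com hF hs (x := a * z) (L := a * star z ::ₘ a ::ₘ Multiset.replicate r a)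
      (by simpa using this) h5 ?_ (by simp) (h9 _ ?_)
    · have z3 : z ≠ 1 := by rintro rfl; simp at z2
      simp [Multiset.mem_replicate, a0, z2.symm, z3]
    · rw [← h3, ← a1, ph_of_norm ha, Multiset.prod_cons, Multiset.prod_cons,
        Multiset.prod_replicate]
      linear_combination (a * a * (a * a ^ r)) ^ 2 * (z * star z + 1) * z1
  obtain ⟨d, d1, d2, d3, j, rfl⟩ : ∃ d, 0 < d ∧ l ^ (d + 1) = -1 ∧ ph l ^ (d + 1) = 1 ∧
      ∃ j, r = d + j * (d + 1) := by
    have h9 := (h7 (l * star l) (by simp [mul_comm])).resolve_left (by simp [h0])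
    have h10 := (ph_eq_iff h0).1 rfl
    have h11 : (-1 : K) ≠ 1 := fun h => h8 (by linear_combination -h)
    rcases (norm_cases h8 h7 hε).resolve_left h6 with h12 | h12
    · rw [h12] at h3 h10
      refine ⟨1, one_pos, (sq_eq_one_iff.1 (by linear_combination h9 + l ^ 2 * (l - star l) * h10 :
        (l ^ 2) ^ 2 = 1)).resolve_left fun h13 => h6 ((ph_eq_one h0).2 (fixed_of_sq h13)),
        by simp [h12], r / 2, ?_⟩
      have := (neg_one_pow_eq_one_iff_even h11).1 h3
      grind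
    · refine ⟨3, by omega, by
        linear_combination l ^ 2 * (l + ph l * star l) * h10 + (l * star l) ^ 2 * h12 - h9,
        by linear_combination (ph l ^ 2 - 1) * h12, r / 4, ?_⟩
      rw [pow_eq_pow_mod (n := 4) _ (by linear_combination (ph l ^ 2 - 1) * h12)] at h3
      have h13 : (r + 1) % 4 < 4 := Nat.mod_lt _ (by omega)
      generalize hm : (r + 1) % 4 = m at h3 h13
      interval_cases m
      · omega
      · exact absurd (by simpa using h3) h6
      · exact absurd (h12.symm.trans h3) h11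
      · exact absurd (by linear_combination (ph l ^ 2 - 1) * h12 - ph l * h3) h6
  have h9 : ∀ t, Pr t 1 (ph l) → dt t = ph l → Com (t + d • u) := fun t ht ht' => by
    have := com_list hF hs ht h' (x := -l) (L := Multiset.replicate d l)
      (by simp [ph_apply]) (fun a ha => by rw [Multiset.eq_of_mem_replicate ha])
      (fun h9 => mul_ne_zero h8 h0 (by linear_combination -Multiset.eq_of_mem_replicate h9))
      (fun h9 => d1.ne' (by simpa using congrArg Multiset.card h9)) (by simp [← pow_succ', d2]) (by simp [ht', h2, ← pow_succ', d3])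
    simpa using this
  have := (h9 t h h1).add ((h9 u h' h2).nsmul j)
  rwa [← succ_nsmul', ← mul_nsmul', add_assoc, ← add_nsmul] at this

theorem exists_pair {a b : K} (ha : a * star a = 1) (hb : b * star b = 1)
    (h : (2 : K) = 0 ∨ a ≠ -1) :
    ∃ l ≠ 0, StL (jb a 1 + jb b 1) {l} ∧ ph l = a * b ∧ (l = 1 ∨ l ^ 2 ≠ 1) := by
  have hK := exists_ne hF hs
  by_cases h1 : a = b
  · subst h1
    refine ⟨a, ne_zero_of_norm ha, stL_pair hK ha, by rw [ph_of_norm ha, sq],
      or_iff_not_imp_right.2 fun h2 => ?_⟩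
    rcases sq_eq_one_iff.1 (not_not.1 h2) with h3 | h3
    · exact h3
    · linear_combination h3 - h.resolve_right (not_not.2 h3)
  have h2 := (pr_of_cyclic hK ((ok_jb ha one_pos).add (ok_jb hb one_pos)) (by simpa [jb]) one_pos
    (by simp)).1
  by_cases h3 : a * b = 1
  · exact ⟨1, one_ne_zero, h2.single one_ne_zero (by simp [h3]), by simp [h3], .inl rfl⟩
  obtain ⟨l, h0, h4⟩ := exists_ph hK (ν := a * b)
    (by rw [star_mul', mul_mul_mul_comm, ha, hb, mul_one])
  exact ⟨l, h0, h2.single h0 (by simp [h4]), h4,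
    .inr fun h5 => h3 (h4 ▸ (ph_eq_one h0).2 (fixed_of_sq h5))⟩

theorem com_pair {a b : K} (ha : a * star a = 1) (hb : b * star b = 1) (h : (2 : K) = 0 ∨ a ≠ -1)
    (ht : Pr t 1 (a * b)⁻¹) (hu : StL u 0) (h1 : dt (t + (jb a 1 + jb b 1 + u)) = 1) :
    Com (t + (jb a 1 + jb b 1 + u)) := by
  obtain ⟨l, h0, h2, h3, h4⟩ := exists_pair hF hs ha hb h
  have h5 := ht.single (inv_ne_zero h0) (by rw [ph_inv, h3])
  rcases h4 with rfl | h4
  · rw [inv_one] at h5
    exact (h5.stI_one.add (h2.stI_one.add hu.stI_zero)).com hF hs h1 le_rfl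
  · exact StL.com hF hs (x := l⁻¹) (L := {l}) (by simpa using h5.add (h2.add hu)) h1
      (fun h6 => h4 (by rw [sq]; nth_rw 1 [← Multiset.mem_singleton.1 h6]; simp [h0])) (by simp)
      (by simp [h0])

omit hF hs in
/-- a free piece of dimension three -/
def Three (t : Multiset (K[X] × ℕ)) : Prop :=
  Fr t 1 ∧ wt t = 3 ∧ ∀ a : K, a * star a = 1 → dt t * a = 1 → Com (t + jb a 1)

theorem three_of_two (h : Ok t) (hc : (t.map Prod.fst).Nodup) (hw : wt t = 2) {a : K}
    (ha : a * star a = 1) : Three (t + jb a 1) := by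
  have hK := exists_ne hF hs
  obtain ⟨h1, h2⟩ := pr_of_cyclic hK h hc one_pos hw
  refine ⟨h2 a ha, by simp [hw], fun b hb h3 => ?_⟩
  rw [dt_add, dt_jb, pow_one, mul_assoc] at h3
  have h4 := eq_inv_of_mul_eq_one_left h3
  by_cases h5 : (2 : K) = 0 ∨ a ≠ -1
  · simpa [add_assoc] using com_pair hF hs ha hb h5 (h4 ▸ h1) (stL_zero hK) (by simpa)
  by_cases h6 : b ≠ -1
  · rw [mul_comm a] at h3 h4
    simpa [add_assoc, add_comm (jb b 1)] using
      com_pair hF hs hb ha (.inr h6) (h4 ▸ h1) (stL_zero hK) (by simpa)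
  push Not at h5 h6
  obtain ⟨h5, rfl⟩ := h5
  subst h6
  obtain ⟨γ, h7, h8⟩ := exists_not_fixed_norm hF hs (μ := -1) (by simp) (by simp)
  rw [add_assoc]
  exact com_swap hK ((h1.single one_ne_zero (by simp [h4])).add (stL_pair hK ha))
    (by simpa using h3) (by simp [hw]) h5 h7 h8

theorem three_of_single {x : K[X] × ℕ} (h : Ok {x}) (hw : wt {x} = 3) : Three {x} := by
  have hK := exists_ne hF hs
  refine ⟨fr_of_single hK h one_pos hw, hw, fun a ha h1 => ?_⟩
  have h2 : dt ({x} + jb a 1) = 1 := by rwa [dt_add, dt_jb, pow_one]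
  by_cases h3 : x.1 = X - C a
  · obtain rfl : x = (X - C a, 3) := Prod.ext h3 (by simpa [wt, h3] using hw)
    have h4 : a ^ 3 * a = 1 := by simpa using (dt_jb a 3 ▸ h1 :)
    have h0 := ne_zero_of_norm ha
    obtain ⟨r, h5, h6⟩ := exists_not_fixed_norm hF hs (μ := a ^ 2) (by simp [h0])
      (fixed_of_sq (by linear_combination h4))
    exact StL.com hF hs (x := a * r) (L := {a * star r})
      (stL_three_one hK ha (by rintro rfl; simp at h6)) h2 (by simp [h0, h6.symm]) (by simp)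
      (by rw [Multiset.prod_singleton]; linear_combination a ^ 2 * h5 + h4)
  · exact Mn.com hF hs (ε := 0) (h2 ▸ (pr_of_cyclic hK (h.add (ok_jb ha one_pos)) (by simpa [jb])
      two_pos (by rw [wt_add, hw, wt_jb]; rfl)).1.mn hF hs le_rfl) h2

theorem Three.com (h : Three t) {O : Multiset K} (hO : ∀ a ∈ O, a * star a = 1)
    (h1 : dt (t + ones O) = 1) (h2 : O = 0 → ¬ ∀ t : K, star t = t → t = 0 ∨ t = 1) :
    Com (t + ones O) := by
  have hK := exists_ne hF hs
  have h3 : StI (t + ones O) 1 :=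
    (h.1 {1} rfl (by simp)).stI_one.add (stL_ones hF hs hO).stI_zero
  by_cases h4 : ∃ t : K, star t = t ∧ t ≠ 0 ∧ t ^ 2 ≠ 1
  · obtain ⟨z, z1, z0, z2⟩ := h4
    refine h3.com_one hK h1 fun ν hν => ⟨1, by simp, ?_⟩
    obtain ⟨l, h0, h4⟩ := exists_ph hK (inv_norm hν)
    rw [one_pow, one_mul, ← h4]
    by_cases h5 : l * star l = 1
    · simpa [(ph_eq_one z0).2 z1] using irr_one (mul_ne_zero h0 z0)
        (by rwa [star_mul', mul_mul_mul_comm, h5, one_mul, z1, ← sq])
    · exact irr_one h0 h5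
  push Not at h4
  replace h4 : ∀ t : K, star t = t → t = 0 ∨ t ^ 2 = 1 := fun t ht => or_iff_not_imp_left.2 (h4 t ht)
  by_cases h5 : (2 : K) ≠ 0 ∧ Even (Multiset.card O)
  · obtain ⟨h5, j, hj⟩ := h5
    obtain ⟨γ, h6, -⟩ := exists_not_fixed_norm hF hs (μ := -1) (by simp) (by simp)
    have h0 : γ ≠ 0 := by rintro rfl; simp at h6
    refine h3.com_one hK h1 fun ν hν => ?_
    have h7 : (ν * ph γ)⁻¹ * star (ν * ph γ)⁻¹ = 1 :=
      inv_norm (by rw [star_mul', mul_mul_mul_comm, hν, ph_norm h0, mul_one])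
    have h8 : (ν * ph γ)⁻¹ ^ 4 = 1 := by
      rcases norm_cases h5 h4 h7 with h8 | h8 | h8
      · simp [h8]
      · rw [h8]; ring
      · linear_combination ((ν * ph γ)⁻¹ ^ 2 - 1) * h8
    refine ⟨(ν * ph γ)⁻¹ ^ wt (t + ones O), by rw [star_pow, ← mul_pow, h7, one_pow], ?_⟩
    rw [← pow_mul, wt_add, wt_ones, h.2.1, hj,
      show (3 + (j + j)) * (3 + (j + j)) = 4 * (j * j + 3 * j + 2) + 1 by ring, pow_succ, pow_mul,
      h8, one_pow, one_mul, mul_inv, inv_inv, mul_right_comm,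
      mul_inv_cancel₀ (ne_zero_of_norm hν), one_mul]
    exact irr_one h0 fun h9 => h5 (by linear_combination h6 - h9)
  by_cases h6 : ∃ a, O = {a}
  · obtain ⟨a, rfl⟩ := h6
    simpa [ones] using h.2.2 a (hO a (by simp)) (by simpa [ones] using h1)
  have h7 : O ≠ 0 := by
    rintro rfl
    have h8 : (2 : K) = 0 := by simpa using h5
    exact h2 rfl fun z hz => (h4 z hz).imp_right fun h7 => sub_eq_zero.1
      (pow_eq_zero_iff two_ne_zero |>.1 (by linear_combination h7 + (1 - z) * h8))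
  by_cases h8 : ∃ a ∈ O, (2 : K) = 0 ∨ a ≠ -1
  · obtain ⟨a, ha, h8⟩ := h8
    obtain ⟨O, rfl⟩ := Multiset.exists_cons_of_mem ha
    obtain ⟨b, hb⟩ := Multiset.exists_mem_of_ne_zero (s := O) (by rintro rfl; exact h6 ⟨a, rfl⟩)
    obtain ⟨O, rfl⟩ := Multiset.exists_cons_of_mem hb
    rw [ones_cons, ones_cons, ← add_assoc (jb a 1)] at h1 ⊢
    exact com_pair hF hs (hO a ha) (hO b (by simp)) h8 (h.1.pr _)
      (stL_ones hF hs fun c hc => hO c (by simp [hc])) h1
  push Not at h8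
  obtain ⟨a, ha⟩ := Multiset.exists_mem_of_ne_zero h7
  obtain ⟨j, hj⟩ := Nat.not_even_iff_odd.1 fun h9 => h5 ⟨(h8 a ha).1, h9⟩
  rw [Multiset.eq_replicate.2 ⟨hj, fun b hb => (h8 b hb).2⟩, ones_replicate] at h1 ⊢
  rw [succ_nsmul', ← add_assoc]
  exact (h.2.2 _ (by simp) (by simpa [pow_succ] using h1)).add
    (com_scalar hK (by simp) (by simp))

omit hF hs in
/-- the decomposition into free pieces, big even pieces, equal pieces of dimension two and a
diagonal part -/
def Dec (s : Multiset (K[X] × ℕ)) : Prop :=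
  ∃ (A B : Multiset (K[X] × ℕ)) (k r : ℕ) (y : K[X] × ℕ) (O : Multiset K),
    s = A + (B + (r • atom y + ones O)) ∧ Fr A k ∧ (k = 0 → A = 0) ∧ (k = 1 → Three A) ∧
    (∀ ε, Av B ε (dt B)) ∧ (B = 0 ∨ ∃ B₀ B₁ m, B = B₀ + B₁ ∧ 2 ≤ m ∧ Ok B₀ ∧
      (B₀.map Prod.fst).Nodup ∧ wt B₀ = 2 * m ∧ ∀ ε, Av B₁ ε (dt B₁)) ∧
    Ok (atom y) ∧ wt (atom y) = 2 ∧ ∀ a ∈ O, a * star a = 1

theorem Ok.norm (h : Ok s) : dt s * star (dt s) = 1 := by
  obtain ⟨G, h1, h2⟩ := exists_unitary_edM_eq (n := Fin (wt s)) (exists_ne hF hs) h.valid h.ne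
    (Fintype.card_fin _) h.til
  rw [← h2, dt_edM, mul_comm, ← det_star, ← det_mul, h1, det_one]

theorem Ok.dec (h : Ok s) : Dec s := by
  have hK := exists_ne hF hs
  induction hn : Multiset.card s using Nat.strong_induction_on generalizing s with
  | _ n ih =>
  by_cases h0 : s = 0
  · have h1 : atom (X - C (1 : K), 2) = jb 1 2 := if_pos (by simpa using tilde_X_sub_one)
    exact ⟨0, 0, 0, 0, (X - C 1, 2), 0, by simp [h0],
      fun L h2 _ => Multiset.card_eq_zero.1 h2 ▸ stL_zero hK, by simp, by simp,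
      fun ε => by simpa using (stL_zero hK).av, .inl rfl, h1 ▸ ok_jb (by simp) two_pos,
      by rw [h1, wt_jb], by simp⟩
  obtain ⟨x, hx⟩ := Multiset.exists_mem_of_ne_zero h0
  obtain ⟨t, rfl, h1, h2⟩ := h.split hx
  obtain ⟨A, B, k, r, y, O, rfl, d1, d2, d3, d4, d5, d6, d7, d8⟩ := ih _ (by
    have := Multiset.card_pos_iff_exists_mem.2 ⟨x, mem_atom x⟩
    rw [← hn, Multiset.card_add]
    omega) h2 rfl
  have big : ∀ B₀ m, 2 ≤ m → Ok B₀ → (B₀.map Prod.fst).Nodup → wt B₀ = 2 * m → ∀ r,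
      Dec (A + (B₀ + B + (r • atom y + ones O))) := fun B₀ m e1 e2 e3 e4 r =>
    ⟨A, B₀ + B, k, r, y, O, rfl, d1, d2, d3, fun ε => dt_add B₀ B ▸
      ((pr_of_cyclic hK e2 e3 (by omega) e4).1.av hF hs e1 (e2.norm hF hs)).add (d4 ε),
      .inr ⟨B₀, B, m, rfl, e1, e2, e3, e4, d4⟩, d6, d7, d8⟩
  obtain ⟨h3, -, h4⟩ := h1.valid x (mem_atom x)
  have h5 : 0 < wt (atom x) := by
    have := h3.natDegree_pos
    rw [wt_atom h1]
    split_ifs <;> positivity
  rcases (by omega : wt (atom x) = 1 ∨ wt (atom x) = 2 ∨ wt (atom x) % 2 = 1 ∧ 3 ≤ wt (atom x) ∨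
    wt (atom x) % 2 = 0 ∧ 4 ≤ wt (atom x)) with h6 | h6 | h6 | h6
  · have h9 := atom_of_odd h1 (by omega)
    rw [h9] at h1 h6 ⊢
    have h7 : x.1.natDegree = 1 ∧ x.2 = 1 := by simpa [wt] using h6
    obtain ⟨a, ha, h8⟩ := h1.lin h7.1
    exact ⟨A, B, k, r, y, a ::ₘ O, by rw [h8, h7.2, ones_cons]; abel, d1, d2, d3, d4, d5, d6, d7,
      by simpa [ha] using d8⟩
  · rcases r with _ | r
    · exact ⟨A, B, k, 1, x, O, by rw [zero_smul, one_smul]; abel, d1, d2, d3, d4, d5, h1, h6, d8⟩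
    by_cases h7 : atom x = atom y
    · exact ⟨A, B, k, r + 1 + 1, y, O, by rw [h7, succ_nsmul _ (r + 1)]; abel, d1, d2, d3, d4, d5,
        d6, d7, d8⟩
    · convert big _ 2 le_rfl (h1.add d6) (nodup_atom_add h1 d6 (h6.trans d7.symm) h7)
        (by simp [h6, d7]) r using 1
      rw [succ_nsmul]
      abel
  · have h9 := atom_of_odd h1 h6.1
    rw [h9] at h1 h6 ⊢
    refine ⟨{x} + A, B, wt {x} / 2 + k, r, y, O, by abel,
      (fr_of_single hK h1 (by omega) (by omega)).add d1, by omega, fun h7 => ?_, d4, d5, d6, d7, d8⟩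
    rw [d2 (by omega), add_zero]
    exact three_of_single hF hs h1 (by omega)
  · convert big _ (wt (atom x) / 2) (by omega) h1 (nodup_atom x) (by omega) r using 1
    abel

theorem com_free_hom (h : Fr t 1) (h' : Pr u 1 (dt u)) (hε : dt u * star (dt u) = 1) {r : ℕ}
    (h1 : dt (t + (r + 1) • u) = 1)
    (h4 : (∀ t : K, star t = t → t = 0 ∨ t = 1) → ∃ a, a * star a = 1 ∧ u = jb a 2) :
    Com (t + (r + 1) • u) := by
  have h2 := h1
  rw [dt_add, dt_nsmul] at h2
  by_cases h3 : dt t = dt u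
  · exact com_hom hF hs (h.pr _) h' h3 rfl hε r.succ_pos (by rwa [h3, ← pow_succ'] at h2) h4
  obtain ⟨l, h0, hl⟩ := exists_ph (exists_ne hF hs) hε
  have := ((h.pr _).cons h3 (L := {l}) (by simpa using h0.symm) (by simpa [hl]) (by simp)
    (h'.single h0 hl)).add (h'.av_one hF hs hε r)
  rw [add_assoc, ← succ_nsmul', Multiset.prod_singleton, hl, mul_assoc, ← pow_succ', h2] at this
  exact this.com hF hs h1

theorem Ok.com (h : Ok s) (h1 : dt s = 1) (h2 : 3 ≤ wt s)
    (h3 : wt s = 3 → ¬ ∀ t : K, star t = t → t = 0 ∨ t = 1) : Com s := by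
  have hK := exists_ne hF hs
  obtain ⟨A, B, k, r, y, O, rfl, d1, d2, d3, d4, d5, d6, d7, d8⟩ := h.dec hF hs
  obtain ⟨e1, e2⟩ := pr_of_cyclic hK d6 (nodup_atom y) one_pos d7
  have e3 := d6.norm hF hs
  have e4 : ∀ (r : ℕ) (O : Multiset K), (∀ a ∈ O, a * star a = 1) →
      Av (r • atom y + ones O) (dt (atom y)) (dt (atom y) ^ r * 1) := fun r O hO =>
    (e1.av_one hF hs e3 r).add (stL_ones hF hs hO).av
  have e5 : (∀ t : K, star t = t → t = 0 ∨ t = 1) → ∃ a, a * star a = 1 ∧ atom y = jb a 2 := by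
    intro h4
    have h5 := wt_atom d6
    obtain ⟨h6, h7, h8⟩ := d6.valid y (mem_atom y)
    have h9 := d6.coeff (mem_atom y)
    rw [d7] at h5
    by_cases h10 : tilde (starRingEnd K) y.1 = y.1
    · obtain ⟨i, hi⟩ := odd_of_tilde_eq hF h6 h9 (by
        rwa [← show starRingEnd K = CfsgLib.Unitary.conj hF from RingHom.ext hs])
      rw [if_pos h10, one_mul] at h5
      have h11 : y.1.natDegree = 1 := by have := Nat.le_of_dvd two_pos (Dvd.intro _ h5.symm); omega
      rw [atom, if_pos h10] at d6 ⊢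
      simpa [show 2 = y.2 by simpa [h11] using h5] using d6.lin h11
    · rw [if_neg h10] at h5
      have h11 := h7.eq_X_add_C (Nat.eq_one_of_mul_eq_one_right (by omega : _ * y.2 = 1))
      rw [← sub_neg_eq_add, ← C_neg] at h11
      rw [← neg_ne_zero] at h9
      generalize -y.1.coeff 0 = a at *
      rw [h11, tilde_lin h9, ← eq_inv_of_mul_eq_one_left
        ((h4 (a * star a) (by simp [mul_comm])).resolve_left (by simp [h9]))] at h10
      exact absurd rfl h10
  rcases (by omega : 2 ≤ k ∨ k ≤ 1) with hk | hk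
  · exact com_free hF hs (fun δ _ => (d1.pr δ).mn hF hs hk) ((d4 _).add (e4 r O d8)) h1
  rcases d5 with rfl | ⟨B₀, B₁, m, rfl, b1, b2, b3, b4, b5⟩
  swap
  · obtain ⟨b6, b7⟩ := pr_of_cyclic hK b2 b3 (by omega) b4
    rcases Nat.le_one_iff_eq_zero_or_eq_one.1 hk with rfl | rfl
    · obtain rfl := d2 rfl
      induction O using Multiset.induction_on with
      | empty =>
        have := (b6.mn hF hs b1).add ((b5 _).add (e4 r 0 d8))
        rw [zero_add, add_assoc] at h1 ⊢
        exact Mn.com hF hs (by convert this; simpa using h1.symm) h1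
      | cons a O =>
        rw [ones_cons, show 0 + (B₀ + B₁ + (r • atom y + (jb a 1 + ones O))) =
          B₀ + jb a 1 + (B₁ + (r • atom y + ones O)) by abel] at h1 ⊢
        exact com_free hF hs (fun δ _ => ((b7 a (d8 a (by simp))).pr δ).mn hF hs b1)
          ((b5 _).add (e4 r O fun b hb => d8 b (by simp [hb]))) h1
    · rw [add_assoc, ← add_assoc] at h1 ⊢
      exact com_free hF hs (fun δ hδ => d1.mn hF hs b6 b1 (b2.norm hF hs) hδ)
        ((b5 _).add (e4 r O d8)) h1
  rw [zero_add] at h1 h2 h3 ⊢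
  have two : ∀ t, Ok t → (t.map Prod.fst).Nodup → wt t = 2 → ∀ O : Multiset K,
      (∀ a ∈ O, a * star a = 1) → dt (t + ones O) = 1 → 3 ≤ wt (t + ones O) →
      (wt (t + ones O) = 3 → ¬ ∀ t : K, star t = t → t = 0 ∨ t = 1) → Com (t + ones O) := by
    intro t t1 t2 t3 O t4 t5 t6 t7
    induction O using Multiset.induction_on with
    | empty => simp [t3] at t6
    | cons a O =>
      rw [ones_cons, ← add_assoc] at t5 t7 ⊢
      exact (three_of_two hF hs t1 t2 t3 (t4 a (by simp))).com hF hs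
        (fun b hb => t4 b (by simp [hb])) t5 fun h => t7 (by simp [h, t3])
  rcases Nat.le_one_iff_eq_zero_or_eq_one.1 hk with rfl | rfl
  · obtain rfl := d2 rfl
    rw [zero_add] at h1 h2 h3 ⊢
    rcases r with _ | _ | r
    · rw [zero_smul, zero_add] at h1 h2 h3 ⊢
      obtain ⟨a, ha⟩ := Multiset.exists_mem_of_ne_zero (s := O) (by rintro rfl; simp at h2)
      by_cases h4 : ∀ b ∈ O, b = a
      · rw [Multiset.eq_replicate.2 ⟨rfl, h4⟩, ones_replicate] at h1 ⊢
        exact com_scalar hK (d8 a ha) (by simpa using h1)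
      push Not at h4
      obtain ⟨b, hb, h4⟩ := h4
      obtain ⟨O, rfl⟩ := Multiset.exists_cons_of_mem ha
      obtain ⟨O, rfl⟩ := Multiset.exists_cons_of_mem ((Multiset.mem_cons.1 hb).resolve_left h4)
      rw [ones_cons, ones_cons, ← add_assoc] at h1 h2 h3 ⊢
      exact two _ ((ok_jb (d8 a ha) one_pos).add (ok_jb (d8 b hb) one_pos))
        (by simpa [jb] using h4.symm) (by simp) O (fun c hc => d8 c (by simp [hc])) h1 h2 h3
    · rw [zero_add, one_smul] at h1 h2 h3 ⊢
      exact two _ d6 (nodup_atom y) d7 O d8 h1 h2 h3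
    induction O using Multiset.induction_on with
    | empty =>
      rw [ones_zero, add_zero] at h1 ⊢
      rw [succ_nsmul']
      exact com_hom hF hs e1 e1 rfl rfl e3 r.succ_pos (by simpa using h1) e5
    | cons a O =>
      induction O using Multiset.induction_on with
      | empty =>
        rw [ones_cons, ones_zero, add_zero, succ_nsmul, add_assoc, add_comm] at h1 ⊢
        exact com_free_hom hF hs (e2 a (d8 a (by simp))) e1 e3 h1 e5
      | cons b O =>
        rw [ones_cons, ones_cons, show (r + 1 + 1) • atom y + (jb a 1 + (jb b 1 + ones O)) =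
          atom y + jb a 1 + (atom y + jb b 1) + (r • atom y + ones O) by
            rw [succ_nsmul, succ_nsmul]; abel] at h1 ⊢
        exact com_free hF hs (fun δ _ => (((e2 a (d8 a (by simp))).add (e2 b (d8 b (by simp)))).pr
          δ).mn hF hs le_rfl) (e4 r O fun c hc => d8 c (by simp [hc])) h1
  rcases r with _ | r
  · rw [zero_smul, zero_add] at h1 h3 ⊢
    exact (d3 rfl).com hF hs d8 h1 fun h => h3 (by simp [h, (d3 rfl).2.1])
  induction O using Multiset.induction_on with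
  | empty =>
    rw [ones_zero, add_zero] at h1 ⊢
    exact com_free_hom hF hs d1 e1 e3 h1 e5
  | cons a O =>
    rw [ones_cons, show A + ((r + 1) • atom y + (jb a 1 + ones O)) =
      A + (atom y + jb a 1) + (r • atom y + ones O) by rw [succ_nsmul]; abel] at h1 ⊢
    exact com_free hF hs (fun δ _ => ((d1.add (e2 a (d8 a (by simp)))).pr δ).mn hF hs le_rfl)
      (e4 r O fun c hc => d8 c (by simp [hc])) h1

end CfsgLib.SuOre
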