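import Cfsg.Agent.Lib.SuOre.Chain

/-!
The eigenvalue lists of the upper left blocks that are available for the indecomposable pieces.
-/

set_option autoImplicit false

namespace CfsgLib.SuOre

open Polynomial Module Matrix CfsgLib.MatConj CfsgLib.Cov2 CfsgLib.Unitary

variable {K : Type*} [Field K]

theorem det_of_charpoly {κ : Type*} [Fintype κ] [DecidableEq κ] {A : Matrix κ κ K} {L : Multiset K}
    (h : A.charpoly = (L.map fun a => X - C a).prod) :
    Fintype.card κ = Multiset.card L ∧ A.det = L.prod := by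
  have h1 : Fintype.card κ = Multiset.card L := by simpa using congrArg natDegree h
  rw [det_eq_of_charpoly, h, coeff_zero_eq_eval_zero, eval_multiset_prod]
  simp [h1, Multiset.prod_map_neg, ← mul_assoc, ← mul_pow]

theorem cp_dvd {s : Multiset (K[X] × ℕ)} (hs : Valid s) (hc : (s.map Prod.fst).Nodup) {a : K[X]}
    (h : ∀ x ∈ s, x.1 ^ x.2 ∣ a) : cp s ∣ a := by
  induction s using Multiset.induction_on with
  | empty => simp [cp]
  | cons x s ih =>
    rw [Multiset.map_cons, Multiset.nodup_cons] at hc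
    rw [cp, Multiset.map_cons, Multiset.prod_cons]
    obtain ⟨h1, h2, -⟩ := hs x (Multiset.mem_cons_self _ _)
    refine IsCoprime.mul_dvd (IsCoprime.pow_left (h1.coprime_iff_not_dvd.2 fun h3 => hc.1 ?_))
      (h x (Multiset.mem_cons_self _ _)) (ih (fun y hy => hs y (Multiset.mem_cons_of_mem hy)) hc.2
        fun y hy => h y (Multiset.mem_cons_of_mem hy))
    obtain ⟨_, h4, h5⟩ := h1.prime.exists_mem_multiset_dvd h3
    obtain ⟨y, hy, rfl⟩ := Multiset.mem_map.1 h4
    obtain ⟨h6, h7, -⟩ := hs y (Multiset.mem_cons_of_mem hy)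
    exact Multiset.mem_map.2 ⟨y, hy, (eq_of_monic_of_associated h2 h7
      (h1.associated_of_dvd h6 (h1.prime.dvd_of_dvd_pow h5))).symm⟩

theorem one_four : (1 : Matrix (Fin 4) (Fin 4) K) =
    !![1, 0, 0, 0; 0, 1, 0, 0; 0, 0, 1, 0; 0, 0, 0, 1] := by
  ext i j
  fin_cases i <;> fin_cases j <;> rfl

theorem zero_four : (0 : Matrix (Fin 4) (Fin 4) K) =
    !![0, 0, 0, 0; 0, 0, 0, 0; 0, 0, 0, 0; 0, 0, 0, 0] := by
  ext i j
  fin_cases i <;> fin_cases j <;> rfl

theorem mul_four (a b c d e f g h i j k l m n o p a' b' c' d' e' f' g' h' i' j' k' l' m' n' o' p' : K) :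
    !![a, b, c, d; e, f, g, h; i, j, k, l; m, n, o, p] *
      !![a', b', c', d'; e', f', g', h'; i', j', k', l'; m', n', o', p'] =
    !![a * a' + b * e' + c * i' + d * m', a * b' + b * f' + c * j' + d * n',
        a * c' + b * g' + c * k' + d * o', a * d' + b * h' + c * l' + d * p';
      e * a' + f * e' + g * i' + h * m', e * b' + f * f' + g * j' + h * n',
        e * c' + f * g' + g * k' + h * o', e * d' + f * h' + g * l' + h * p';
      i * a' + j * e' + k * i' + l * m', i * b' + j * f' + k * j' + l * n',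
        i * c' + j * g' + k * k' + l * o', i * d' + j * h' + k * l' + l * p';
      m * a' + n * e' + o * i' + p * m', m * b' + n * f' + o * j' + p * n',
        m * c' + n * g' + o * k' + p * o', m * d' + n * h' + o * l' + p * p'] := by
  simp [add_assoc]

theorem inv_norm [StarRing K] {a : K} (h : a * star a = 1) : a⁻¹ * star a⁻¹ = 1 := by
  rw [star_inv₀, ← mul_inv, h, inv_one]

section Jt

variable {ι : Type*} [Fintype ι] [DecidableEq ι] {N : Matrix ι ι K}

theorem jt_two_two (hc : Fintype.card ι = 4) (h : N ^ 2 = 0) (hr : 2 ≤ N.rank) :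
    jt (1 + N) = {2, 2} := by
  have h0 : IsNilpotent (1 + N - 1) := ⟨2, by simpa using h⟩
  have h1 := jt_sum h0
  have h2 := card_jt_add_rank h0
  have h3 := (sub_one_pow_eq_zero_iff h0 2).1 (by simpa using h)
  have h4 := Multiset.sum_le_card_nsmul _ 2 h3
  rw [add_sub_cancel_left] at h2
  rw [smul_eq_mul] at h4
  obtain ⟨a, b, hab⟩ := Multiset.card_eq_two.1 (show Multiset.card (jt (1 + N)) = 2 by omega)
  rw [hab] at h1 h3 ⊢
  have := h3 a (by simp)
  have := h3 b (by simp)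
  simp only [Multiset.insert_eq_cons, Multiset.sum_cons, Multiset.sum_singleton] at h1
  rw [show a = 2 by omega, show b = 2 by omega]

theorem jt_three_one (hc : Fintype.card ι = 4) (h : N ^ 3 = 0) (h' : N ^ 2 ≠ 0) :
    jt (1 + N) = {3, 1} := by
  have h0 : IsNilpotent (1 + N - 1) := ⟨3, by simpa using h⟩
  have h1 := jt_sum h0
  have h3 := (sub_one_pow_eq_zero_iff h0 3).1 (by simpa using h)
  have h4 := (sub_one_pow_eq_zero_iff h0 2).not.1 (by simpa using h')
  push Not at h4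
  obtain ⟨e, he, h5⟩ := h4
  obtain ⟨t, ht⟩ := Multiset.exists_cons_of_mem he
  obtain rfl : e = 3 := le_antisymm (h3 e he) h5
  have h6 : ∀ a ∈ t, 0 < a := fun a ha => jt_pos (1 + N) (ht ▸ Multiset.mem_cons_of_mem ha)
  have h7 := Multiset.card_nsmul_le_sum h6
  rw [ht, Multiset.sum_cons] at h1
  rw [smul_eq_mul] at h7
  have h8 : Multiset.card t ≠ 0 := fun h => by simp [Multiset.card_eq_zero.1 h, hc] at h1
  obtain ⟨a, rfl⟩ := Multiset.card_eq_one.1 (show Multiset.card t = 1 by omega)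
  rw [Multiset.sum_singleton] at h1
  rw [ht, show a = 1 by omega]
  rfl

end Jt

variable [StarRing K]

/-- the upper left block may be chosen with eigenvalues `L` -/
def StL (s : Multiset (K[X] × ℕ)) (L : Multiset K) : Prop :=
  ∃ (κ δ : Type) (_ : Fintype κ) (_ : DecidableEq κ) (_ : Fintype δ) (_ : DecidableEq δ)
    (A : Matrix κ κ K) (d : δ → K), St s A d ∧ A.charpoly = (L.map fun a => X - C a).prod

/-- the upper left block may be chosen to be the identity matrix of size `k` -/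
def StI (s : Multiset (K[X] × ℕ)) (k : ℕ) : Prop :=
  ∃ (κ δ : Type) (_ : Fintype κ) (_ : DecidableEq κ) (_ : Fintype δ) (_ : DecidableEq δ)
    (d : δ → K), St s (1 : Matrix κ κ K) d ∧ Fintype.card κ = k

/-- all lists of length `m` whose product lies in the class `ε` are available -/
def Pr (s : Multiset (K[X] × ℕ)) (m : ℕ) (ε : K) : Prop :=
  ∀ L : Multiset K, Multiset.card L = m → 0 ∉ L → ph L.prod = ε → StL s L

/-- all lists of length `m` are available -/
def Fr (s : Multiset (K[X] × ℕ)) (m : ℕ) : Prop :=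
  ∀ L : Multiset K, Multiset.card L = m → 0 ∉ L → StL s L

variable {s t : Multiset (K[X] × ℕ)} {L M : Multiset K}

theorem StL.add (h : StL s L) (h' : StL t M) : StL (s + t) (L + M) := by
  obtain ⟨_, _, _, _, _, _, _, _, h1, h2⟩ := h
  obtain ⟨_, _, _, _, _, _, _, _, h3, h4⟩ := h'
  exact ⟨_, _, _, _, _, _, _, _, h1.add h3, by simp [h2, h4]⟩

theorem StI.add {k l : ℕ} (h : StI s k) (h' : StI t l) : StI (s + t) (k + l) := by
  obtain ⟨_, _, _, _, _, _, _, h1, h2⟩ := h
  obtain ⟨_, _, _, _, _, _, _, h3, h4⟩ := h'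
  have := h1.add h3
  rw [fromBlocks_one] at this
  exact ⟨_, _, _, _, _, _, _, this, by simp [h2, h4]⟩

theorem StL.stI_one (h : StL s {1}) : StI s 1 := by
  obtain ⟨_, _, _, _, _, _, A, _, h1, h2⟩ := h
  have h3 := aeval_self_charpoly A
  rw [h2] at h3
  obtain rfl : A = 1 := by simpa [sub_eq_zero] using h3
  exact ⟨_, _, _, _, _, _, _, h1, (det_of_charpoly h2).1⟩

theorem StL.stI_zero (h : StL s 0) : StI s 0 := by
  obtain ⟨_, _, _, _, _, _, A, _, h1, h2⟩ := h
  have := Fintype.card_eq_zero_iff.1 (det_of_charpoly h2).1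
  obtain rfl : A = 1 := Subsingleton.elim _ _
  exact ⟨_, _, _, _, _, _, _, h1, (det_of_charpoly h2).1⟩

theorem StL.ph_prod (h : StL s L) (hw : wt s = 2 * Multiset.card L) : ph L.prod = dt s := by
  obtain ⟨_, _, _, _, _, _, A, _, h1, h2⟩ := h
  obtain ⟨h3, h4⟩ := det_of_charpoly h2
  have h5 := h1.wt
  have h6 := h1.det
  rw [Finset.card_eq_zero.1 (show Fintype.card _ = 0 by omega), Finset.prod_empty, mul_one] at h6
  rw [← h4, ph_eq_iff ((isUnit_iff_isUnit_det _).1 h1.unit).ne_zero, h6]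

theorem Fr.pr {m : ℕ} (h : Fr s m) (ε : K) : Pr s m ε := fun L h1 h2 _ => h L h1 h2

theorem Fr.add {k l : ℕ} (h : Fr s k) (h' : Fr t l) : Fr (s + t) (k + l) := fun L h1 h2 => by
  obtain ⟨M, N, rfl, h3⟩ : ∃ M N, L = M + N ∧ Multiset.card M = k := by
    induction L using Quotient.inductionOn with
    | h L => exact ⟨L.take k, L.drop k, by simp, by simp at h1 ⊢; omega⟩
  rw [Multiset.mem_add, not_or] at h2
  exact (h M h3 h2.1).add (h' N (by simpa [h3] using h1) h2.2)

section Fin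

variable [Finite K] (hK : ∃ z : K, star z ≠ z)
include hK

theorem stL_zero : StL (0 : Multiset (K[X] × ℕ)) 0 := by
  obtain ⟨d, hd⟩ := St.of hK (ι := Empty) (κ := Empty) (G := 1) (by simp) (E := 0) (E' := 0)
    (by simp) (by simp) (Subsingleton.elim _ _) (isUnit_of_subsingleton _) zero_le_one rfl
  rw [sum_eq_zero (edM_valid _) ((wt_edM _).trans rfl)] at hd
  exact ⟨_, _, _, _, _, _, _, d, hd, by simp⟩

theorem stL_one {a : K} (ha : a * star a = 1) : StL (jb a 1) 0 := by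
  obtain ⟨d, hd⟩ := St.of hK (ι := Unit) (κ := Empty) (G := a • 1) (by simp [smul_smul, ha])
    (E := 0) (E' := 0) (by simp) (by simp) (Subsingleton.elim _ _) (isUnit_of_subsingleton _) le_rfl rfl
  rw [edM_scalar, Fintype.card_unit, one_smul] at hd
  exact ⟨_, _, _, _, _, _, _, d, hd, by simp⟩

theorem stL_pair {a : K} (ha : a * star a = 1) : StL (jb a 1 + jb a 1) {a} := by
  have ct := @conjTranspose_fromRows_eq_fromCols_conjTranspose K Unit Unit Unit _
  obtain ⟨d, hd⟩ := St.ofGram hK (ι := Unit ⊕ Unit) (κ := Unit) (J := fromBlocks 0 1 1 0)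
    (G := a • 1) (A := a • 1) (by simp [fromBlocks_conjTranspose]) (by simp [fromBlocks_multiply])
    (by simp [smul_smul, ha]) (E := fromRows 1 0) (E' := fromRows 0 1)
    (by simp [ct, fromBlocks_mul_fromRows, fromCols_mul_fromRows])
    (by simp [ct, fromBlocks_mul_fromRows, fromCols_mul_fromRows])
    (by simp [ct, fromBlocks_mul_fromRows, fromCols_mul_fromRows])
    (by simp [ct, fromBlocks_mul_fromRows, fromCols_mul_fromRows])
    ((isUnit_iff_isUnit_det _).2 (by simpa using ne_zero_of_norm ha)) rfl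
  rw [edM_scalar, show Fintype.card (Unit ⊕ Unit) = 2 from rfl, two_nsmul] at hd
  exact ⟨_, _, _, _, _, _, _, d, hd, by rw [← cp_edM, edM_scalar]; simp [cp, jb]⟩

omit [StarRing K] [Finite K] hK in
theorem charpoly_two (a b c : K) :
    (!![a, 0; c, b] : Matrix (Fin 2) (Fin 2) K).charpoly =
      (({a, b} : Multiset K).map fun a => X - C a).prod := by
  simp [charpoly_fin_two, trace_fin_two, det_fin_two]
  ring

theorem stL_four {a r c x : K} (ha : a * star a = 1) (hr : r ≠ 0) {N : Matrix (Fin 4) (Fin 4) K}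
    (h1 : (1 + N)ᴴ * (!![0, 0, 1, 0; 0, 0, 0, 1; 1, 0, 0, 0; 0, 1, 0, 0] * (1 + N)) =
      !![0, 0, 1, 0; 0, 0, 0, 1; 1, 0, 0, 0; 0, 1, 0, 0])
    (h2 : !![1, 0, 0, x; 0, 1, -star x, 0] * ((1 + N) * !![(1 : K), 0; 0, 1; 0, 0; 0, 0]) =
      !![r, 0; c, star r]) : StL (edM (a • (1 + N))) {a * r, a * star r} := by
  have h0 := ne_zero_of_norm ha
  have e1 : (!![1, 0; 0, 1; 0, 0; 0, 0] : Matrix (Fin 4) (Fin 2) K)ᴴ = !![1, 0, 0, 0; 0, 1, 0, 0] := by
    ext i j; fin_cases i <;> fin_cases j <;> simp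
  have e2 : (!![0, -x; star x, 0; 1, 0; 0, 1] : Matrix (Fin 4) (Fin 2) K)ᴴ =
      !![0, x, 1, 0; -star x, 0, 0, 1] := by
    ext i j; fin_cases i <;> fin_cases j <;> simp
  have e3 : (0 : Matrix (Fin 2) (Fin 2) K) = !![0, 0; 0, 0] := by
    ext i j; fin_cases i <;> fin_cases j <;> rfl
  obtain ⟨d, hd⟩ := St.ofGram hK (J := !![0, 0, 1, 0; 0, 0, 0, 1; 1, 0, 0, 0; 0, 1, 0, 0])
    (G := a • (1 + N)) (A := !![a * r, 0; a * c, a * star r])
    (by ext i j; fin_cases i <;> fin_cases j <;> simp) (by simp [one_four])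
    (by rw [conjTranspose_smul, Matrix.mul_smul, Matrix.smul_mul, Matrix.mul_smul, smul_smul,
      mul_comm (star a), ha, one_smul, h1])
    (E := !![1, 0; 0, 1; 0, 0; 0, 0]) (E' := !![0, -x; star x, 0; 1, 0; 0, 1])
    (by simp [e1, e3]) (by simp [e2, e3]) (by simp [e2, one_fin_two])
    (by
      rw [← Matrix.mul_assoc, Matrix.smul_mul, Matrix.mul_smul, e2, show _ * _ =
        (!![1, 0, 0, x; 0, 1, -star x, 0] : Matrix (Fin 2) (Fin 4) K) by simp, h2]
      simp)
    ((isUnit_iff_isUnit_det _).2 (by simp [h0, hr])) rfl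
  exact ⟨_, _, _, _, _, _, _, d, hd, charpoly_two _ _ _⟩

omit [Finite K] hK in
theorem ct_four (a b c d e f g h i j k l m n o p : K) :
    !![a, b, c, d; e, f, g, h; i, j, k, l; m, n, o, p]ᴴ =
      !![star a, star e, star i, star m; star b, star f, star j, star n;
        star c, star g, star k, star o; star d, star h, star l, star p] := by
  ext i j; fin_cases i <;> fin_cases j <;> rfl

theorem stL_two_two {a r : K} (ha : a * star a = 1) (hr : r ≠ 0) :
    StL (jb a 2 + jb a 2) {a * r, a * star r} := by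
  obtain ⟨b, rfl⟩ : ∃ b, 1 + b = r := ⟨r - 1, by ring⟩
  let N : Matrix (Fin 4) (Fin 4) K :=
    !![b, 0, 0, b ^ 2; 0, star b, -star b ^ 2, 0; 0, 1, -star b, 0; -1, 0, 0, -b]
  have := stL_four hK ha hr (c := 0) (x := 0) (N := N)
    (by simp [N, one_four, ct_four]; ring_nf; simp) (by simp [N, one_four])
  have h1 : N ^ 2 = 0 := by
    rw [sq, mul_four, zero_four]
    congr! <;> ring
  have h2 : (!![0, 0, 0, -1; 0, 0, 1, 0] : Matrix (Fin 2) (Fin 4) K) *
      (N * !![(1 : K), 0; 0, 1; 0, 0; 0, 0]) = 1 := by simp [N, one_fin_two]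
  rwa [edM_unip ⟨2, h1⟩ (ne_zero_of_norm ha), jt_two_two rfl h1 (by
    simpa [h2] using (rank_mul_le_right !![0, 0, 0, -1; 0, 0, 1, 0] _).trans
      (rank_mul_le_left N !![1, 0; 0, 1; 0, 0; 0, 0]))] at this

theorem stL_three_one {a r : K} (ha : a * star a = 1) (hr : r ≠ 0) :
    StL (jb a 3 + jb a 1) {a * r, a * star r} := by
  obtain ⟨x, rfl⟩ : ∃ x, 1 - x = r := ⟨1 - r, by ring⟩
  obtain ⟨ω, hω, -⟩ := exists_omega hK
  let N : Matrix (Fin 4) (Fin 4) K :=
    !![0, 0, 0, 0; -ω, 0, 0, 0; -ω, 1, 0, star ω; -1, 0, 0, 0]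
  have := stL_four hK ha hr (c := ω * (star x - 1)) (x := x) (N := N)
    (by simp [N, one_four, ct_four]) (by simp [N, one_four]; refine ⟨?_, ?_, ?_⟩ <;> ring)
  have h1 : N ^ 2 = !![0, 0, 0, 0; 0, 0, 0, 0; -1, 0, 0, 0; 0, 0, 0, 0] := by
    rw [sq, mul_four]
    simp
    linear_combination -hω
  have h2 : N ^ 3 = 0 := by
    rw [pow_succ, h1, mul_four, zero_four]
    congr! <;> ring
  rwa [edM_unip ⟨3, h2⟩ (ne_zero_of_norm ha), jt_three_one rfl h2 fun h => by
    simpa [h1] using congrFun (congrFun h 2) 0] at this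

theorem Chain.stL {ι : Type} [Fintype ι] [DecidableEq ι] {G : Matrix ι ι K} (hG : Gᴴ * G = 1)
    {v : ι → K} {m : ℕ} (H : Chain G v (m + 1)) {r : ℕ} (hr : r ≤ 1)
    (hc : Fintype.card ι = 2 * (m + 1) + r) (h1 : Multiset.card L = m + 1) (h2 : 0 ∉ L)
    (h3 : r = 0 → ph L.prod = -ph (gr G 1 v 0 (m + 1))) : StL (edM G) L := by
  have h4 : (L.map fun a => X - C a).prod.coeff 0 = (-1) ^ (m + 1) * L.prod := by
    rw [coeff_zero_eq_eval_zero, eval_multiset_prod]
    simp [h1, Multiset.prod_map_neg]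
  obtain ⟨A, d, h5, h6⟩ := H.st hK hG hr hc (χ := (L.map fun a => X - C a).prod)
    (monic_multiset_prod_of_monic _ _ fun a _ => monic_X_sub_C a) (by simp [h1])
    (by simpa [h4] using h2) fun h => by simpa [h4, ph_apply (-1 : K)] using h3 h
  exact ⟨_, _, _, _, _, _, A, d, h5, h6⟩

theorem exists_cyclic (hs : Ok s) (hc : (s.map Prod.fst).Nodup) :
    ∃ G : Matrix (Fin (wt s)) (Fin (wt s)) K, Gᴴ * G = 1 ∧ edM G = s ∧
      ∀ a : K[X], aeval G a = 0 → G.charpoly ∣ a := by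
  obtain ⟨G, h1, h2⟩ := exists_unitary_edM_eq (n := Fin (wt s)) hK hs.valid hs.ne
    (Fintype.card_fin _) hs.til
  exact ⟨G, h1, h2, fun a ha => by
    rw [← cp_edM, h2]
    exact cp_dvd hs.valid hc (h2 ▸ (aeval_eq_zero_iff_edM G a).1 ha)⟩

/-- cyclic pieces of even dimension -/
theorem pr_of_cyclic (hs : Ok s) (hc : (s.map Prod.fst).Nodup) {m : ℕ} (hm : 0 < m)
    (hw : wt s = 2 * m) : Pr s m (dt s) ∧ ∀ a : K, a * star a = 1 → Fr (s + jb a 1) m := by
  obtain ⟨G, h1, h2, h3⟩ := exists_cyclic hK hs hc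
  obtain ⟨v, hv⟩ := exists_chain hK h1 h3 hm zero_le_one (by simp [hw]) (ρ := 1) (by simp)
    fun π g π1 π2 h4 h5 => by
      have h6 := congrArg natDegree h4
      have := π1.natDegree_pos
      rw [π2.natDegree_mul (π2.of_mul_monic_left (h4 ▸ G.charpoly_monic))] at h6
      simp at h6
      omega
  obtain ⟨m, rfl⟩ := Nat.exists_eq_add_of_le' hm
  have h4 := fun L h4 h5 h6 => h2 ▸ hv.stL hK (L := L) h1 zero_le_one (by simp [hw]) h4 h5 h6
  refine ⟨fun L h5 h6 h7 => h4 L h5 h6 fun _ => ?_, fun a ha L h5 h6 => ?_⟩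
  · obtain ⟨x, hx, h8⟩ := exists_ph hK (ν := -ph (gr G 1 v 0 (m + 1))) (by simp [ph_norm hv.2])
    rw [h7, ← (h4 (x ::ₘ Multiset.replicate m 1) (by simp) (by simp [hx.symm, Multiset.mem_replicate])
      fun _ => by simpa).ph_prod (by simp [hw])]
    simpa
  · have h7 : ∀ j, gr (fromBlocks G 0 0 (a • (1 : Matrix Unit Unit K))) 1 (Sum.elim v 0) 0 j =
        gr G 1 v 0 j := fun j => by simp [gr, fromBlocks_diagonal_pow, fromBlocks_mulVec, dotProduct]
    have := Chain.stL hK (G := fromBlocks G 0 0 (a • (1 : Matrix Unit Unit K)))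
      (by simp [fromBlocks_conjTranspose, fromBlocks_multiply, h1, smul_smul, ha])
      (v := Sum.elim v 0) ⟨fun j hj => h7 j ▸ hv.1 j hj, h7 _ ▸ hv.2⟩ le_rfl (by simp [hw]) h5 h6
      (by simp)
    rwa [edM_fromBlocks, h2, edM_scalar, Fintype.card_unit, one_smul] at this

omit [Finite K] in
theorem exists_norm_ne_one : ∃ ρ : K, ρ * star ρ = 1 ∧ ρ ≠ 1 := by
  obtain ⟨z, hz⟩ := hK
  have h0 : z ≠ 0 := by rintro rfl; simp at hz
  exact ⟨ph z, ph_norm h0, (ph_eq_one h0).not.2 hz⟩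

/-- primary cyclic pieces of odd dimension -/
theorem fr_of_single {x : K[X] × ℕ} (hs : Ok {x}) {k : ℕ} (hk : 0 < k)
    (hw : wt {x} = 2 * k + 1) : Fr {x} k := by
  obtain ⟨G, h1, h2, h3⟩ := exists_cyclic hK hs (by simp)
  obtain ⟨h4, h5, h6⟩ := hs.valid x (by simp)
  obtain ⟨ρ, h7, h8⟩ : ∃ ρ : K, ρ * star ρ = 1 ∧ (x.1 ^ (x.2 - 1)).coeff 0 + ρ ≠ 0 := by
    obtain ⟨ρ, h7, h8⟩ := exists_norm_ne_one hK
    by_cases h : (x.1 ^ (x.2 - 1)).coeff 0 + 1 = 0
    · exact ⟨ρ, h7, fun h' => h8 (by linear_combination h' - h)⟩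
    · exact ⟨1, by simp, h⟩
  obtain ⟨v, hv⟩ := exists_chain hK h1 h3 hk le_rfl (by simp [hw]) h7 fun π g π1 π2 h9 _ => by
    rw [← cp_edM, h2, cp, Multiset.map_singleton, Multiset.prod_singleton] at h9
    obtain rfl := eq_of_monic_of_associated π2 h5 (π1.associated_of_dvd h4
      (π1.prime.dvd_of_dvd_pow (Dvd.intro _ h9.symm)))
    rwa [← mul_left_cancel₀ h4.ne_zero ((mul_pow_sub_one h6.ne' _).trans h9)]
  obtain ⟨k, rfl⟩ := Nat.exists_eq_add_of_le' hk
  exact fun L h9 h10 => h2 ▸ hv.stL hK h1 le_rfl (by simp [hw]) h9 h10 (by simp)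

theorem StI.com_one (h : StI s 1) (h1 : dt s = 1) (h2 : ∀ ν : K, ν * star ν = 1 →
    ∃ ζ : K, ζ * star ζ = 1 ∧ Irr 1 (ζ ^ wt s * ν)⁻¹) : Com s := by
  obtain ⟨κ, _, _, _, _, _, _, h3, h4⟩ := h
  refine h3.com_irr hK h1 det_one (fun f _ hf _ hd => ?_) (h4 ▸ h2)
  simpa using (exists_edM_one_charpoly_eq hf hd).imp fun _ => And.right

theorem com_swap (h : StL s {1, -1}) (h1 : dt s = 1) (hw : wt s = 4) (h2 : (2 : K) ≠ 0) {γ : K}
    (h3 : γ * star γ = -1) (h4 : star γ ≠ γ) : Com s := by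
  obtain ⟨κ, _, _, _, _, _, A, _, h5, h6⟩ := h
  obtain ⟨h7, h8⟩ := det_of_charpoly h6
  obtain ⟨ν, -, h9, H⟩ := h5.com hK h1 (by simp [h8])
  obtain rfl := h9 (by have := h5.wt; simp [h7] at this; omega)
  have h0 : γ ≠ 0 := by rintro rfl; simp at h3
  have hc : ∀ a b : K, a ≠ b → IsCoprime (X - C a) (X - C b) := fun a b h =>
    isCoprime_X_sub_C_of_isUnit_sub (sub_ne_zero.2 h).isUnit
  let D : K → K → Matrix (Unit ⊕ Unit) (Unit ⊕ Unit) K := fun a b => fromBlocks (a • 1) 0 0 (b • 1)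
  have e1 : ∀ a b : K, edM (D a b) = jb a 1 + jb b 1 := fun a b => by
    simp [D, edM_fromBlocks, edM_scalar]
  have e2 : ∀ a b : K, cp (jb a 1 + jb b 1) = (X - C a) * (X - C b) := fun a b => by
    simp [cp, jb]
  have e3 : Squarefree ((X - C 1) * (X - C (-1)) : K[X]) :=
    squarefree_mul_iff.2 ⟨(hc _ _ fun h => h2 (by linear_combination h)).isRelPrime,
      (irreducible_X_sub_C _).squarefree, (irreducible_X_sub_C _).squarefree⟩
  have e4 := (cp_edM _).symm.trans ((congrArg cp (e1 1 (-1))).trans (e2 _ _))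
  have e5 : A.charpoly = (X - C 1) * (X - C (-1)) := by simpa using h6
  obtain ⟨B, B', k1, k2, rfl⟩ := exists_rect (A := A) (A' := D 1 (-1)) (Sim.ed_eq (sim_of_charpoly_eq e3 e3
    (by rw [aeval_toLin', ← e5, aeval_self_charpoly, map_zero])
    (by rw [aeval_toLin' (D 1 (-1)), ← e4, aeval_self_charpoly, map_zero])
    (by rw [charpoly_toLin', charpoly_toLin', e4, e5])))
  have t1 : ∀ a : K, a * star a = -1 → tilde (starRingEnd K) (X - C a) = X - C (-a) := fun a ha => by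
    rw [tilde_lin (by rintro rfl; simp at ha),
      eq_inv_of_mul_eq_one_left (a := -a) (b := star a) (by simp [ha])]
  have t2 : ∀ a : K, a * star a = -1 → til (jb a 1) = jb (-a) 1 := fun a ha => by
    simp only [til, jb, Multiset.map_singleton, t1 a ha]
  have t3 : ∀ a : K, a ≠ 0 → a ≠ -a := fun a ha h =>
    mul_ne_zero h2 ha (by linear_combination h)
  have h10 : star γ ≠ -γ := fun h => by
    have h11 : (γ - 1) * (γ + 1) = 0 := by rw [h] at h3; linear_combination -h3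
    rcases mul_eq_zero.1 h11 with h12 | h12
    · exact h4 (by rw [sub_eq_zero.1 h12, star_one])
    · exact h4 (by rw [eq_neg_of_add_eq_zero_left h12, star_neg, star_one])
  have t4 : ∀ (h : Matrix κ κ K) (a : K), a * star a = -1 → star γ ≠ -a →
      edM h = jb (star γ) 1 + jb a 1 → Sep h := fun h a ha h11 h12 => by
    have a0 : a ≠ 0 := by rintro rfl; simp at ha
    refine ⟨by rw [isUnit_iff_isUnit_det, ← dt_edM, h12]; simp [h0, a0], ?_⟩
    rw [← cp_edM, h12, e2, tilde_mul, t1 a ha, t1 _ (by simpa [mul_comm])]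
    exact ((hc _ _ (t3 _ (star_ne_zero.2 h0))).mul_right (hc _ _ h11)).mul_left
      ((hc _ _ fun h => h11 (by rw [h, neg_neg])).mul_right (hc _ _ (t3 _ a0)))
  have f1 := (edM_rect k2 k1).trans (e1 (star γ) γ)
  have f2 : edM (B * D 1 (-1) * B' * (B * D (star γ) γ * B')) = jb (star γ) 1 + jb (-γ) 1 := by
    rw [← e1, ← edM_rect (A := D _ _) k2 k1, show D (star γ) (-γ) = D 1 (-1) * D (star γ) γ by
      simp [D, fromBlocks_multiply]]
    simp only [Matrix.mul_assoc, hl k2, Matrix.one_mul]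
  refine H _ (t4 _ γ h3 h10 f1) (t4 _ (-γ) (by simpa) (by simpa) f2) ?_
    ⟨(X - C γ, 1), by simp [f1, jb], rfl⟩ 1 (by simp) ?_
  · rw [f1, f2, til_add, til_add, t2 γ h3, t2 (-γ) (by simpa), neg_neg]
    abel
  · rw [← dt_edM, f1]
    simp [mul_comm]

end Fin

variable [Fintype K] {q : ℕ} (hF : Fintype.card K = q ^ 2) (hs : ∀ x : K, star x = x ^ q)
include hF hs

theorem exists_ne : ∃ z : K, star z ≠ z := (exists_not_fixed hF).imp fun z hz => by rwa [hs]

theorem StI.com {k : ℕ} (h : StI s k) (h1 : dt s = 1) (hk : 2 ≤ k) : Com s := by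
  obtain ⟨κ, _, _, _, _, _, _, h3, h4⟩ := h
  refine h3.com_irr (exists_ne hF hs) h1 det_one (fun f _ hf _ hd => ?_) fun ν hν =>
    ⟨1, by simp, irr_two hF hs (h4 ▸ hk) (inv_norm (by simpa using hν))⟩
  simpa using (exists_edM_one_charpoly_eq hf hd).imp fun _ => And.right

theorem StL.com {x : K} (h : StL s (x ::ₘ L)) (h1 : dt s = 1) (hx : x ∉ L) (hL : L ≠ 0)
    (h2 : x * L.prod = 1) : Com s := by
  obtain ⟨κ, _, _, _, _, _, A, _, h3, h4⟩ := h
  obtain ⟨h5, h6⟩ := det_of_charpoly h4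
  have := Multiset.card_pos.2 hL
  exact h3.com_irr (exists_ne hF hs) h1 (by simpa [h2] using h6)
    (fun f f1 f2 f3 f4 => exists_fact hx hL h4 h2 f1 f2 f3 f4) fun ν hν =>
      ⟨1, by simp, irr_two hF hs (by simp [h5]; omega) (inv_norm (by simpa using hν))⟩

end CfsgLib.SuOre
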